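import Mathlib

/-! Basic tools for the coprime Hall–Higman reductions (helper72): norm maps for groups of
automorphisms of an abelian group, normalizer bookkeeping, a coprime commutator lemma and the
fact that `C_Q(X) ≤ Q'` when `Q = [Q, X]`. -/

set_option autoImplicit false

namespace Cfsg.Agent.Lib.Helper72.HH

open Subgroup
open scoped commutatorElement

section Norm

variable {V : Type*} [CommGroup V]

/-- the norm of `v` under a finite group of automorphisms -/
noncomputable def nrm (S : Subgroup (MulAut V)) [Fintype S] (v : V) : V :=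
  ∏ g : S, (g : MulAut V) v

variable (S : Subgroup (MulAut V)) [Fintype S]

theorem nrm_fixed {h : MulAut V} (hh : h ∈ S) (v : V) : h (nrm S v) = nrm S v := by
  unfold nrm
  rw [map_prod]
  exact Fintype.prod_equiv (Equiv.mulLeft (⟨h, hh⟩ : S)) _ _ (fun g => rfl)

theorem nrm_smul {h : MulAut V} (hh : h ∈ S) (v : V) : nrm S (h v) = nrm S v := by
  unfold nrm
  exact Fintype.prod_equiv (Equiv.mulRight (⟨h, hh⟩ : S)) _ _ (fun g => rfl)

theorem nrm_comm {k : MulAut V} (hk : ∀ g ∈ S, k * g = g * k) (v : V) :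
    nrm S (k v) = k (nrm S v) := by
  unfold nrm
  rw [map_prod]
  refine Finset.prod_congr rfl (fun g _ => ?_)
  have := congrArg (fun e : MulAut V => e v) (hk g g.2)
  simpa [MulAut.mul_apply] using this.symm

theorem nrm_mul (v w : V) : nrm S (v * w) = nrm S v * nrm S w := by
  unfold nrm
  rw [← Finset.prod_mul_distrib]
  exact Finset.prod_congr rfl (fun g _ => map_mul _ _ _)

theorem nrm_one : nrm S (1 : V) = 1 := by
  unfold nrm
  exact Finset.prod_eq_one (fun g _ => map_one _)

theorem nrm_inv (v : V) : nrm S v⁻¹ = (nrm S v)⁻¹ := by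
  unfold nrm
  rw [← Finset.prod_inv_distrib]
  exact Finset.prod_congr rfl (fun g _ => map_inv _ _)

theorem nrm_pow (v : V) (n : ℕ) : nrm S (v ^ n) = nrm S v ^ n := by
  unfold nrm
  rw [← Finset.prod_pow]
  exact Finset.prod_congr rfl (fun g _ => map_pow _ _ _)

theorem nrm_of_fixed {v : V} (hv : ∀ g ∈ S, g v = v) : nrm S v = v ^ Nat.card S := by
  unfold nrm
  rw [Finset.prod_congr rfl (fun (g : S) _ => hv g.1 g.2), Finset.prod_const, Finset.card_univ,
    Nat.card_eq_fintype_card]

end Norm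

section Coprime

variable {V : Type*} [CommGroup V]

theorem eq_one_of_pow_pow {p m : ℕ} (hcop : Nat.Coprime m p) {v : V} (hp : v ^ p = 1)
    (hm : v ^ m = 1) : v = 1 := by
  have h1 := Nat.dvd_gcd (orderOf_dvd_of_pow_eq_one hm) (orderOf_dvd_of_pow_eq_one hp)
  rw [Nat.Coprime.gcd_eq_one hcop] at h1
  exact orderOf_eq_one_iff.mp (Nat.dvd_one.mp h1)

/-- if `v ^ m` is fixed by an automorphism and `m` is prime to the exponent, `v` is fixed -/
theorem fixed_of_pow_fixed {p m : ℕ} (hcop : Nat.Coprime m p) (hVp : ∀ v : V, v ^ p = 1)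
    (g : MulAut V) {v : V} (h : g (v ^ m) = v ^ m) : g v = v := by
  have h1 : (g v * v⁻¹) ^ m = 1 := by
    rw [mul_pow, inv_pow, ← map_pow, h, mul_inv_cancel]
  have h2 := eq_one_of_pow_pow hcop (hVp _) h1
  exact mul_inv_eq_one.mp h2

end Coprime

section Grp

variable {G : Type*} [Group G]

theorem conj_mem_of_mem_normalizer {H : Subgroup G} {g : G} (hg : g ∈ normalizer (H : Set G))
    {h : G} (hh : h ∈ H) : g * h * g⁻¹ ∈ H :=
  (mem_normalizer_iff.1 hg h).1 hh

theorem conj_mem_of_mem_normalizer' {H : Subgroup G} {g : G} (hg : g ∈ normalizer (H : Set G))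
    {h : G} (hh : h ∈ H) : g⁻¹ * h * g ∈ H := by
  have := conj_mem_of_mem_normalizer (inv_mem hg) hh
  simpa using this

theorem map_conj_eq_of_mem_normalizer {H : Subgroup G} {g : G}
    (hg : g ∈ normalizer (H : Set G)) : H.map (MulAut.conj g).toMonoidHom = H := by
  ext x
  rw [mem_map_equiv]
  have h1 : (MulAut.conj g).symm x = g⁻¹ * x * g := by simp [MulAut.conj_symm_apply]
  rw [h1]
  constructor
  · intro h
    have := conj_mem_of_mem_normalizer hg h
    simpa [mul_assoc] using this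
  · intro h
    exact conj_mem_of_mem_normalizer' hg h

theorem mem_normalizer_of_map_conj_eq {H : Subgroup G} {g : G}
    (h : H.map (MulAut.conj g).toMonoidHom = H) : g ∈ normalizer (H : Set G) := by
  rw [mem_normalizer_iff]
  intro x
  constructor
  · intro hx
    rw [← h]
    exact ⟨x, hx, rfl⟩
  · intro hx
    rw [← h, mem_map_equiv] at hx
    simpa [MulAut.conj_symm_apply, mul_assoc] using hx

/-- normalizing two subgroups normalizes their commutator -/
theorem mem_normalizer_commutator {H₁ H₂ : Subgroup G} {g : G}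
    (h1 : g ∈ normalizer (H₁ : Set G)) (h2 : g ∈ normalizer (H₂ : Set G)) :
    g ∈ normalizer ((⁅H₁, H₂⁆ : Subgroup G) : Set G) := by
  apply mem_normalizer_of_map_conj_eq
  rw [map_commutator, map_conj_eq_of_mem_normalizer h1, map_conj_eq_of_mem_normalizer h2]

theorem mem_normalizer_inf {H₁ H₂ : Subgroup G} {g : G}
    (h1 : g ∈ normalizer (H₁ : Set G)) (h2 : g ∈ normalizer (H₂ : Set G)) :
    g ∈ normalizer ((H₁ ⊓ H₂ : Subgroup G) : Set G) := by
  rw [mem_normalizer_iff]
  intro x
  rw [mem_inf, mem_inf, ← mem_normalizer_iff.1 h1 x, ← mem_normalizer_iff.1 h2 x]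

theorem mem_normalizer_centralizer {H : Subgroup G} {g : G}
    (h1 : g ∈ normalizer (H : Set G)) :
    g ∈ normalizer ((centralizer (H : Set G) : Subgroup G) : Set G) := by
  rw [mem_normalizer_iff]
  intro x
  rw [mem_centralizer_iff, mem_centralizer_iff]
  constructor
  · intro hx y hy
    have hy' := conj_mem_of_mem_normalizer' h1 hy
    have := hx _ hy'
    calc y * (g * x * g⁻¹) = g * ((g⁻¹ * y * g) * x) * g⁻¹ := by group
      _ = g * (x * (g⁻¹ * y * g)) * g⁻¹ := by rw [this]
      _ = g * x * g⁻¹ * y := by group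
  · intro hx y hy
    have hy' := conj_mem_of_mem_normalizer h1 hy
    have := hx _ hy'
    calc y * x = g⁻¹ * ((g * y * g⁻¹) * (g * x * g⁻¹)) * g := by group
      _ = g⁻¹ * ((g * x * g⁻¹) * (g * y * g⁻¹)) * g := by rw [this]
      _ = x * y := by group

theorem commutator_le_left_of_normalizer {Q X : Subgroup G}
    (hXQ : X ≤ normalizer (Q : Set G)) : ⁅Q, X⁆ ≤ Q := by
  rw [commutator_le]
  intro a ha x hx
  rw [commutatorElement_def]
  have h1 := conj_mem_of_mem_normalizer (hXQ hx) (inv_mem ha)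
  have e : a * x * a⁻¹ * x⁻¹ = a * (x * a⁻¹ * x⁻¹) := by group
  rw [e]
  exact mul_mem ha h1

/-- **Coprime commutators.** If `[Q, X, X] = 1`, `Q` is a `q`-group and `X` has exponent `r`
prime to `q`, then `[Q, X] = 1`. -/
theorem commutator_eq_bot_of_double {q r : ℕ} [hq : Fact q.Prime] (hqr : ¬ q ∣ r)
    {Q X : Subgroup G} (hQ : IsPGroup q Q) (hXr : ∀ x ∈ X, x ^ r = 1)
    (hXQ : X ≤ normalizer (Q : Set G)) (h : ⁅⁅Q, X⁆, X⁆ = ⊥) : ⁅Q, X⁆ = ⊥ := by
  rw [eq_bot_iff, commutator_le]
  intro a ha x hx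
  rw [mem_bot]
  set c := ⁅a, x⁆ with hc
  have hcQX : c ∈ ⁅Q, X⁆ := commutator_mem_commutator ha hx
  have hcQ : c ∈ Q := commutator_le_left_of_normalizer hXQ hcQX
  have hcomm : c * x = x * c := by
    have h1 : ⁅c, x⁆ ∈ ⁅⁅Q, X⁆, X⁆ := commutator_mem_commutator hcQX hx
    rw [h, mem_bot, commutatorElement_eq_one_iff_mul_comm] at h1
    exact h1
  have hax : a * x * a⁻¹ = c * x := by rw [hc, commutatorElement_def]; group
  have hpow : (a * x * a⁻¹) ^ r = c ^ r * x ^ r := by
    rw [hax, (Commute.mul_pow hcomm r)]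
  have h2 : (a * x * a⁻¹) ^ r = 1 := by
    rw [conj_pow, hXr x hx]; group
  rw [h2, hXr x hx, mul_one] at hpow
  obtain ⟨k, hk⟩ := (IsPGroup.iff_orderOf.mp hQ) ⟨c, hcQ⟩
  have h3 : orderOf c ∣ r := orderOf_dvd_of_pow_eq_one hpow.symm
  have h4 : orderOf c = q ^ k := by
    rw [← hk]; exact (Subgroup.orderOf_mk c hcQ).symm
  rw [h4] at h3
  rcases Nat.eq_zero_or_pos k with hk0 | hk0
  · rw [hk0, pow_zero] at h4
    exact orderOf_eq_one_iff.mp h4
  · exact absurd ((dvd_pow_self q hk0.ne').trans h3) hqr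

end Grp

end Cfsg.Agent.Lib.Helper72.HH
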