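import Mathlib
import Cfsg.Agent.Lib.Helper72.HHBasic

/-! Tools for the coprime Hall–Higman reductions (helper72), part 2: `C_Q(X) ≤ Q'` when
`Q = [Q, X]`, and the Frobenius norm argument. -/

set_option autoImplicit false
set_option linter.style.haveILetI false

namespace Cfsg.Agent.Lib.Helper72.HH

open Subgroup
open scoped commutatorElement

section AB

variable {G : Type*} [Group G]

/-- conjugation by a normalizing element as an automorphism of the subgroup -/
def conjEquiv (Q : Subgroup G) (g : G) (hg : g ∈ normalizer (Q : Set G)) : ↥Q ≃* ↥Q where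
  toFun a := ⟨g * a * g⁻¹, conj_mem_of_mem_normalizer hg a.2⟩
  invFun a := ⟨g⁻¹ * a * g, conj_mem_of_mem_normalizer' hg a.2⟩
  left_inv a := Subtype.ext (by simp [mul_assoc])
  right_inv a := Subtype.ext (by simp [mul_assoc])
  map_mul' a b := Subtype.ext (by simp [mul_assoc])

theorem conjEquiv_coe (Q : Subgroup G) (g : G) (hg : g ∈ normalizer (Q : Set G)) (a : Q) :
    ((conjEquiv Q g hg a : Q) : G) = g * a * g⁻¹ := rfl

/-- If `Q = [Q, ⟨x₀⟩]` and the order of `x₀` is prime to `|Q|`, then `C_Q(x₀) ≤ Q'`. -/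
theorem cent_le_commutator (Q : Subgroup G) [Finite Q] (x₀ : G) {r : ℕ} (hr0 : 0 < r)
    (hx₀ : x₀ ∈ normalizer (Q : Set G)) (hxr : x₀ ^ r = 1) (hcop : (Nat.card Q).Coprime r)
    (hgen : Q ≤ ⁅Q, zpowers x₀⁆) : Q ⊓ centralizer {x₀} ≤ ⁅Q, Q⁆ := by
  classical
  let c : ℕ → (↥Q ≃* ↥Q) := fun k => conjEquiv Q (x₀ ^ k) (pow_mem hx₀ k)
  let α : ℕ → (Abelianization ↥Q →* Abelianization ↥Q) :=
    fun k => Abelianization.map (c k).toMonoidHom
  have hα_of : ∀ k (a : Q), α k (Abelianization.of a) = Abelianization.of (c k a) :=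
    fun k a => Abelianization.map_of _ _
  have hsurj : ∀ ā : Abelianization ↥Q, ∃ a : Q, Abelianization.of a = ā :=
    fun ā => QuotientGroup.mk_surjective ā
  have hα_succ : ∀ k ā, α k (α 1 ā) = α (k + 1) ā := by
    intro k ā
    obtain ⟨a, rfl⟩ := hsurj ā
    rw [hα_of, hα_of, hα_of]
    congr 1
    apply Subtype.ext
    show x₀ ^ k * (x₀ ^ 1 * a * (x₀ ^ 1)⁻¹) * (x₀ ^ k)⁻¹ = x₀ ^ (k + 1) * a * (x₀ ^ (k + 1))⁻¹
    rw [pow_succ]; group
  have hα0 : ∀ ā, α 0 ā = ā := by
    intro ā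
    obtain ⟨a, rfl⟩ := hsurj ā
    rw [hα_of]
    congr 1
    apply Subtype.ext
    show x₀ ^ 0 * a * (x₀ ^ 0)⁻¹ = a
    simp
  have hαr : ∀ ā, α r ā = ā := by
    intro ā
    obtain ⟨a, rfl⟩ := hsurj ā
    rw [hα_of]
    congr 1
    apply Subtype.ext
    show x₀ ^ r * a * (x₀ ^ r)⁻¹ = a
    simp [hxr]
  let ν : Abelianization ↥Q →* Abelianization ↥Q := ∏ k ∈ Finset.range r, α k
  have hν : ∀ ā, ν ā = ∏ k ∈ Finset.range r, α k ā :=
    fun ā => MonoidHom.finsetProd_apply _ _ _
  have hν1 : ∀ ā, ν (α 1 ā) = ν ā := by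
    intro ā
    rw [hν, hν]
    simp_rw [hα_succ]
    have h1 := Finset.prod_range_succ (fun k => α k ā) r
    have h2 := Finset.prod_range_succ' (fun k => α k ā) r
    rw [h1] at h2
    simp only [hαr, hα0] at h2
    exact (mul_right_cancel h2).symm
  have hνj : ∀ j ā, ν (α j ā) = ν ā := by
    intro j
    induction j with
    | zero => intro ā; rw [hα0]
    | succ j ih => intro ā; rw [← hα_succ, ih, hν1]
  have hkill : ∀ a : Q, ν (Abelianization.of a) = 1 := by
    let L : Subgroup G := (MonoidHom.ker (ν.comp Abelianization.of)).map Q.subtype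
    have hL : ⁅Q, zpowers x₀⁆ ≤ L := by
      rw [commutator_le]
      intro a ha y hy
      have hfin : IsOfFinOrder x₀ := isOfFinOrder_iff_pow_eq_one.mpr ⟨r, hr0, hxr⟩
      obtain ⟨j, rfl⟩ := (hfin.mem_powers_iff_mem_zpowers).mpr hy
      refine ⟨(⟨a, ha⟩ : Q) * (c j ⟨a, ha⟩)⁻¹, MonoidHom.mem_ker.2 ?_, ?_⟩
      · rw [MonoidHom.comp_apply, map_mul, map_inv, map_mul, map_inv, ← hα_of,
          hνj, mul_inv_cancel]
      · show (a * (x₀ ^ j * a * (x₀ ^ j)⁻¹)⁻¹) = ⁅a, x₀ ^ j⁆
        rw [commutatorElement_def]; group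
    intro a
    obtain ⟨b, hb, hba⟩ := hL (hgen a.2)
    have hba' : b = a := Subtype.ext hba
    rw [hba'] at hb
    exact hb
  intro z hz
  have hzQ := hz.1
  have hzc : Commute x₀ z := mem_centralizer_iff.1 hz.2 x₀ rfl
  let z' : Q := ⟨z, hzQ⟩
  have hcz : ∀ k, c k z' = z' := by
    intro k
    apply Subtype.ext
    show x₀ ^ k * z * (x₀ ^ k)⁻¹ = z
    rw [(hzc.pow_left k).eq]; group
  have h1 : ν (Abelianization.of z') = (Abelianization.of z') ^ r := by
    rw [hν]
    simp_rw [hα_of, hcz]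
    rw [Finset.prod_const, Finset.card_range]
  rw [hkill] at h1
  have h2 : z' ^ r ∈ commutator ↥Q := by
    rw [← Abelianization.ker_of, MonoidHom.mem_ker, map_pow]
    exact h1.symm
  have h3 : z' ∈ commutator ↥Q := by
    have hcop' : r.Coprime (orderOf z') :=
      (Nat.Coprime.coprime_dvd_left (orderOf_dvd_natCard z') hcop).symm
    obtain ⟨m, hm⟩ := exists_pow_eq_self_of_coprime hcop'
    rw [← hm]
    exact pow_mem h2 m
  rw [← map_subtype_commutator]
  exact ⟨z', h3, rfl⟩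

end AB

section Frob

variable {V : Type*} [CommGroup V] [Finite V]

/-- **Frobenius norm argument.** If `X` acts without fixed points on `V` and on the abelian
group `Q` (which it normalizes), then every `|Q|`-th power in `V` is fixed by `Q`. -/
theorem frob_fixed (X Q : Subgroup (MulAut V)) (hXQ : X ≤ normalizer (Q : Set (MulAut V)))
    (hCQ : ∀ a ∈ Q, ∀ x ∈ X, x ≠ 1 → x * a = a * x → a = 1)
    (hfix : ∀ v : V, (∀ x ∈ X, x v = v) → v = 1) (v : V) :
    ∀ b ∈ Q, b (v ^ Nat.card Q) = v ^ Nat.card Q := by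
  classical
  haveI : Fintype Q := Fintype.ofFinite Q
  haveI : Fintype X := Fintype.ofFinite X
  have hnX : ∀ w : V, nrm X w = 1 := fun w => hfix _ (fun x hx => nrm_fixed X hx w)
  have hP : ∏ a : Q, ∏ x : X, ((a : MulAut V) * x * (a : MulAut V)⁻¹) v = 1 := by
    apply Finset.prod_eq_one
    intro a _
    have h1 : ∀ x : X, ((a : MulAut V) * x * (a : MulAut V)⁻¹) v
        = (a : MulAut V) ((x : MulAut V) ((a : MulAut V)⁻¹ v)) := fun x => rfl
    simp_rw [h1]
    rw [← map_prod]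
    have h2 : ∏ x : X, (x : MulAut V) ((a : MulAut V)⁻¹ v) = nrm X ((a : MulAut V)⁻¹ v) := rfl
    rw [h2, hnX, map_one]
  rw [Finset.prod_comm] at hP
  -- the inner products
  have hin : ∀ x : X, x ≠ 1 →
      ∏ a : Q, ((a : MulAut V) * x * (a : MulAut V)⁻¹) v = nrm Q ((x : MulAut V) v) := by
    intro x hx1
    have hx1' : (x : MulAut V) ≠ 1 := fun h => hx1 (Subtype.ext h)
    let κ : Q → Q := fun a => ⟨(a : MulAut V) * x * (a : MulAut V)⁻¹ * (x : MulAut V)⁻¹, by
      have h1 := conj_mem_of_mem_normalizer (hXQ x.2) (inv_mem a.2)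
      have e : (a : MulAut V) * x * (a : MulAut V)⁻¹ * (x : MulAut V)⁻¹
          = (a : MulAut V) * ((x : MulAut V) * (a : MulAut V)⁻¹ * (x : MulAut V)⁻¹) := by group
      rw [e]
      exact mul_mem a.2 h1⟩
    have hκ : Function.Injective κ := by
      intro a b hab
      have h1 : (a : MulAut V) * x * (a : MulAut V)⁻¹ * (x : MulAut V)⁻¹
          = (b : MulAut V) * x * (b : MulAut V)⁻¹ * (x : MulAut V)⁻¹ := congrArg Subtype.val hab
      have h2 : (x : MulAut V) * ((b : MulAut V)⁻¹ * a) = ((b : MulAut V)⁻¹ * a) * x := by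
        have h3 : (a : MulAut V) * x * (a : MulAut V)⁻¹ = (b : MulAut V) * x * (b : MulAut V)⁻¹ :=
          mul_right_cancel h1
        calc (x : MulAut V) * ((b : MulAut V)⁻¹ * a)
            = (b : MulAut V)⁻¹ * ((b : MulAut V) * x * (b : MulAut V)⁻¹) * a := by group
          _ = (b : MulAut V)⁻¹ * ((a : MulAut V) * x * (a : MulAut V)⁻¹) * a := by rw [h3]
          _ = ((b : MulAut V)⁻¹ * a) * x := by group
      have h4 := hCQ _ (mul_mem (inv_mem b.2) a.2) x x.2 hx1' h2
      apply Subtype.ext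
      have h5 : (a : MulAut V) = b := by
        calc (a : MulAut V) = (b : MulAut V) * ((b : MulAut V)⁻¹ * a) := by group
          _ = b := by rw [h4, mul_one]
      exact h5
    have hκb : Function.Bijective κ := Finite.injective_iff_bijective.mp hκ
    have h1 : ∀ a : Q, ((a : MulAut V) * x * (a : MulAut V)⁻¹) v
        = ((κ a : Q) : MulAut V) ((x : MulAut V) v) := by
      intro a
      show _ = ((a : MulAut V) * x * (a : MulAut V)⁻¹ * (x : MulAut V)⁻¹) ((x : MulAut V) v)
      rw [← MulAut.mul_apply]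
      congr 1
      group
    simp_rw [h1]
    exact hκb.prod_comp (fun c : Q => (c : MulAut V) ((x : MulAut V) v))
  have hone : ∏ a : Q, ((a : MulAut V) * ((1 : X) : MulAut V) * (a : MulAut V)⁻¹) v
      = v ^ Nat.card Q := by
    have h1 : ∀ a : Q, ((a : MulAut V) * ((1 : X) : MulAut V) * (a : MulAut V)⁻¹) v = v := by
      intro a
      simp
    simp_rw [h1]
    rw [Finset.prod_const, Finset.card_univ, Nat.card_eq_fintype_card]
  rw [← Finset.mul_prod_erase Finset.univ _ (Finset.mem_univ (1 : X)), hone] at hP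
  intro b hb
  have h2 : v ^ Nat.card Q
      = (∏ x ∈ Finset.univ.erase (1 : X),
          ∏ a : Q, ((a : MulAut V) * x * (a : MulAut V)⁻¹) v)⁻¹ := eq_inv_of_mul_eq_one_left hP
  rw [h2, map_inv, map_prod]
  congr 1
  refine Finset.prod_congr rfl (fun x hx => ?_)
  rw [hin x (Finset.ne_of_mem_erase hx)]
  exact nrm_fixed Q hb _

end Frob

end Cfsg.Agent.Lib.Helper72.HH
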