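import Mathlib
import Cfsg.Prelude.Def_Transfer
import Cfsg.Agent.Lib.Helper72.HHTools
import Cfsg.Agent.Lib.Helper72.Frattini
import Cfsg.Agent.Lib.Helper34.Fpf

/-! Coprime Hall–Higman reduction (helper72): a group `X` of prime order `r` acting faithfully
on a `q`-group `Q`, both acting on an elementary abelian `p`-group `V`, has fixed points on `V`
(outside the exceptional extraspecial configuration of statement S3764, which enters as a
hypothesis `S3764Prop`). Abstract form with `X, Q ≤ Aut V`. -/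

set_option autoImplicit false
set_option linter.style.haveILetI false

namespace Cfsg.Agent.Lib.Helper72.HH

open Subgroup
open scoped commutatorElement

universe u

/-- the statement of S3764, for ambient groups in universe `u` -/
def S3764Prop : Prop :=
  ∀ {G : Type u} [Group G] [Finite G] {p q r : ℕ} (_ : p.Prime) (_ : q.Prime) (_ : r.Prime)
    (_ : p ≠ q) (_ : p ≠ r) (_ : q ≠ r) (X Q V : Subgroup G) (_ : Nat.card X = r)
    (_ : Cfsg.IsExtraspecial q ↥Q) (_ : X ≤ Subgroup.normalizer (Q : Set G))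
    (_ : Q ⊓ Subgroup.centralizer (X : Set G) = (Subgroup.center ↥Q).map Q.subtype)
    (_ : Cfsg.IsElementaryAbelian p V) (_ : X ≤ Subgroup.normalizer (V : Set G))
    (_ : Q ≤ Subgroup.normalizer (V : Set G))
    (_ : (X ⊔ Q) ⊓ Subgroup.centralizer (V : Set G) = ⊥)
    (_ : V ⊓ Subgroup.centralizer (X : Set G) = ⊥),
    q = 2 ∧ ∃ n : ℕ, r = 2 ^ n + 1 ∧ Nat.card Q = 2 ^ (2 * n + 1)

section Grp2

variable {G : Type*} [Group G]

theorem commutator_pow_of_commute {a b : G} (h : Commute ⁅a, b⁆ a) (n : ℕ) :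
    ⁅a ^ n, b⁆ = ⁅a, b⁆ ^ n := by
  induction n with
  | zero => simp [commutatorElement_def]
  | succ n ih =>
    have e : ⁅a ^ (n + 1), b⁆ = a * ⁅a ^ n, b⁆ * a⁻¹ * ⁅a, b⁆ := by
      rw [commutatorElement_def, commutatorElement_def, commutatorElement_def, pow_succ]; group
    rw [e, ih]
    have h2 : a * ⁅a, b⁆ ^ n * a⁻¹ = ⁅a, b⁆ ^ n := by
      rw [((h.pow_left n).symm).eq, mul_inv_cancel_right]
    rw [h2, pow_succ]

theorem map_center_subtype (Q : Subgroup G) :
    (center ↥Q).map Q.subtype = Q ⊓ centralizer (Q : Set G) := by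
  ext x
  rw [mem_inf, mem_centralizer_iff]
  constructor
  · rintro ⟨c, hc, rfl⟩
    exact ⟨c.2, fun v hv => congrArg Subtype.val (mem_center_iff.mp hc ⟨v, hv⟩)⟩
  · rintro ⟨hx, hc⟩
    refine ⟨⟨x, hx⟩, mem_center_iff.mpr ?_, rfl⟩
    rintro ⟨v, hv⟩
    exact Subtype.ext (hc v hv)

/-- a characteristic subgroup of `Q` is normalized by everything normalizing `Q` -/
theorem mem_normalizer_map_of_characteristic {Q : Subgroup G} (K : Subgroup ↥Q)
    [hK : K.Characteristic] {g : G} (hg : g ∈ normalizer (Q : Set G)) :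
    g ∈ normalizer ((K.map Q.subtype : Subgroup G) : Set G) := by
  have h1 : ∀ e : ↥Q ≃* ↥Q, ∀ a ∈ K, e a ∈ K := by
    intro e a ha
    have := characteristic_iff_map_eq.mp hK e
    rw [← this]
    exact ⟨a, ha, rfl⟩
  rw [mem_normalizer_iff]
  intro h
  constructor
  · rintro ⟨a, ha, rfl⟩
    exact ⟨conjEquiv Q g hg a, h1 _ a ha, rfl⟩
  · rintro ⟨b, hb, hbe⟩
    refine ⟨(conjEquiv Q g hg).symm b, h1 _ b hb, ?_⟩
    show g⁻¹ * (b : G) * g = h
    have : (b : G) = g * h * g⁻¹ := hbe
    rw [this]; group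

/-- extraspecial groups are preserved by isomorphisms -/
theorem isExtraspecial_of_mulEquiv {p : ℕ} {P P' : Type*} [Group P] [Group P'] (e : P ≃* P')
    (h : Cfsg.IsExtraspecial p P) : Cfsg.IsExtraspecial p P' := by
  obtain ⟨⟨h1, h2, h3⟩, h4⟩ := h
  have hc : (Subgroup.center P).map e.toMonoidHom = Subgroup.center P' := by
    ext x
    rw [Subgroup.mem_map_equiv, Subgroup.mem_center_iff, Subgroup.mem_center_iff]
    constructor
    · intro hx y
      have h5 := congrArg e (hx (e.symm y))
      simpa using h5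
    · intro hx g
      apply e.injective
      simpa using hx (e g)
  have hcm : (commutator P).map e.toMonoidHom = commutator P' := by
    rw [commutator_def, commutator_def, Subgroup.map_commutator,
      Subgroup.map_top_of_surjective _ e.surjective]
  have hf : (frattini P).map e.toMonoidHom = frattini P' := e.mapSubgroup.map_radical
  refine ⟨⟨h1.of_equiv e, ?_, ?_⟩, ?_⟩
  · rw [← hf, ← hc, h2]
  · rw [← hcm, ← hc, h3]
  · rw [← h4]
    exact (Nat.card_congr (Subgroup.centerCongr e).toEquiv).symm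

/-- recognising an extraspecial subgroup -/
theorem isExtraspecial_subgroup {q : ℕ} [Fact q.Prime] (Q : Subgroup G) [Finite Q]
    (hQ : IsPGroup q Q) (hZ : Q ⊓ centralizer (Q : Set G) = ⁅Q, Q⁆)
    (hΦ : (frattini ↥Q).map Q.subtype ≤ Q ⊓ centralizer (Q : Set G))
    (hcard : Nat.card ↥(Q ⊓ centralizer (Q : Set G) : Subgroup G) = q) :
    Cfsg.IsExtraspecial q ↥Q := by
  have hinj := Q.subtype_injective
  have hcc : commutator ↥Q = center ↥Q := by
    apply map_injective hinj
    rw [map_subtype_commutator, map_center_subtype, hZ]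
  have hcf : commutator ↥Q ≤ frattini ↥Q := by
    rw [commutator_def, commutator_le]
    intro a _ b _
    rw [commutatorElement_def]
    exact comm_mem_frattini hQ a b
  refine ⟨⟨hQ, le_antisymm ?_ (hcc ▸ hcf), hcc⟩, ?_⟩
  · rw [← map_le_map_iff_of_injective hinj, map_center_subtype]
    exact hΦ
  · rw [← hcard, ← map_center_subtype]
    exact (card_map_of_injective hinj).symm

theorem map_inf_centralizer_map {G' : Type*} [Group G'] (i : G →* G')
    (hi : Function.Injective i) (A B : Subgroup G) :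
    A.map i ⊓ centralizer ((B.map i : Subgroup G') : Set G') = (A ⊓ centralizer (B : Set G)).map i := by
  ext y
  rw [mem_inf, mem_centralizer_iff]
  constructor
  · rintro ⟨⟨a, ha, rfl⟩, hc⟩
    refine ⟨a, mem_inf.2 ⟨ha, mem_centralizer_iff.2 ?_⟩, rfl⟩
    intro b hb
    apply hi
    rw [map_mul, map_mul]
    exact hc (i b) ⟨b, hb, rfl⟩
  · rintro ⟨a, ha, rfl⟩
    obtain ⟨ha1, ha2⟩ := mem_inf.1 ha
    refine ⟨⟨a, ha1, rfl⟩, ?_⟩
    rintro _ ⟨b, hb, rfl⟩
    rw [← map_mul, ← map_mul, mem_centralizer_iff.1 ha2 b hb]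

theorem map_le_normalizer_map {G' : Type*} [Group G'] (i : G →* G') {A B : Subgroup G}
    (h : A ≤ normalizer (B : Set G)) :
    A.map i ≤ normalizer ((B.map i : Subgroup G') : Set G') := by
  rintro _ ⟨a, ha, rfl⟩
  rw [mem_normalizer_iff]
  intro y
  constructor
  · rintro ⟨b, hb, rfl⟩
    exact ⟨a * b * a⁻¹, conj_mem_of_mem_normalizer (h ha) hb, by simp⟩
  · rintro ⟨b, hb, hbe⟩
    refine ⟨a⁻¹ * b * a, conj_mem_of_mem_normalizer' (h ha) hb, ?_⟩
    rw [map_mul, map_mul, hbe, map_inv]; group

theorem subgroupOf_le_normalizer (S : Subgroup G) {A B : Subgroup G}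
    (h : A ≤ normalizer (B : Set G)) :
    A.subgroupOf S ≤ normalizer ((B.subgroupOf S : Subgroup ↥S) : Set ↥S) := by
  intro a ha
  rw [mem_normalizer_iff]
  intro y
  rw [mem_subgroupOf, mem_subgroupOf]
  exact mem_normalizer_iff.1 (h (mem_subgroupOf.1 ha)) y

end Grp2

section Res

variable {V : Type*} [CommGroup V]

/-- the automorphisms stabilising a subgroup -/
def stabW (W : Subgroup V) : Subgroup (MulAut V) where
  carrier := {g | ∀ w, g w ∈ W ↔ w ∈ W}
  mul_mem' := by
    intro a b ha hb w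
    rw [MulAut.mul_apply, ha, hb]
  one_mem' := fun w => Iff.rfl
  inv_mem' := by
    intro a ha w
    have := ha (a⁻¹ w)
    rw [MulAut.apply_inv_self] at this
    exact this.symm

theorem mem_stabW_of_maps [Finite V] {W : Subgroup V} {g : MulAut V}
    (h : ∀ w ∈ W, g w ∈ W) : g ∈ stabW W := by
  show ∀ w, g w ∈ W ↔ w ∈ W
  intro w
  refine ⟨fun hw => ?_, h w⟩
  let f : W → W := fun w => ⟨g w, h w w.2⟩
  have hf : Function.Injective f :=
    fun a b hab => Subtype.ext (g.injective (congrArg Subtype.val hab))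
  obtain ⟨w', hw'⟩ := (Finite.injective_iff_surjective.mp hf) ⟨g w, hw⟩
  have h1 : g w' = g w := congrArg Subtype.val hw'
  rw [← g.injective h1]
  exact w'.2

/-- restriction of a stabilising automorphism -/
def resW (W : Subgroup V) : ↥(stabW W) →* MulAut ↥W where
  toFun g :=
    { toFun := fun w => ⟨(g : MulAut V) w, (g.2 w).2 w.2⟩
      invFun := fun w => ⟨(g : MulAut V)⁻¹ w,
        ((inv_mem g.2 : (g : MulAut V)⁻¹ ∈ stabW W) w).2 w.2⟩
      left_inv := fun w => Subtype.ext (by simp)
      right_inv := fun w => Subtype.ext (by simp)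
      map_mul' := fun a b => Subtype.ext (by simp) }
  map_one' := by ext w; rfl
  map_mul' := by intro a b; ext w; rfl

theorem resW_apply (W : Subgroup V) (g : stabW W) (w : W) :
    ((resW W g w : W) : V) = (g : MulAut V) w := rfl

end Res


section Apply

variable {V : Type u} [CommGroup V] [Finite V]

/-- applying S3764 inside the holomorph of `V` -/
theorem apply_S3764 (H : S3764Prop.{u}) {p q r : ℕ} (hp : p.Prime) (hq : q.Prime)
    (hr : r.Prime) (hpq : p ≠ q) (hpr : p ≠ r) (hqr : q ≠ r) (hVp : ∀ v : V, v ^ p = 1)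
    (X Q : Subgroup (MulAut V)) (hX : Nat.card X = r) (hE : Cfsg.IsExtraspecial q ↥Q)
    (hXQ : X ≤ normalizer (Q : Set (MulAut V)))
    (hCQ : Q ⊓ centralizer (X : Set (MulAut V)) = Q ⊓ centralizer (Q : Set (MulAut V)))
    (hfix : ∀ v : V, (∀ x ∈ X, x v = v) → v = 1) : q = 2 ∧ ∃ n : ℕ, r = 2 ^ n + 1 := by
  let Hol := SemidirectProduct V (MulAut V) (MonoidHom.id _)
  haveI : Finite Hol := Finite.of_equiv _ SemidirectProduct.equivProd.symm
  let i : MulAut V →* Hol := SemidirectProduct.inr
  let j : V →* Hol := SemidirectProduct.inl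
  have hi : Function.Injective i := SemidirectProduct.inr_injective
  have hj : Function.Injective j := SemidirectProduct.inl_injective
  have hconj : ∀ (g : MulAut V) (v : V), i g * j v * (i g)⁻¹ = j (g v) := by
    intro g v
    rw [← map_inv]
    exact (SemidirectProduct.inl_aut (φ := MonoidHom.id (MulAut V)) g v).symm
  have hnormal : (j.range).Normal := by
    have : j.range = (SemidirectProduct.rightHom (φ := MonoidHom.id (MulAut V))).ker :=
      SemidirectProduct.range_inl_eq_ker_rightHom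
    rw [this]
    infer_instance
  have key := H (G := Hol) hp hq hr hpq hpr hqr (X.map i) (Q.map i) j.range
    (by rw [card_map_of_injective hi, hX])
    (isExtraspecial_of_mulEquiv (Q.equivMapOfInjective i hi) hE)
    (map_le_normalizer_map i hXQ)
    (by rw [map_center_subtype, map_inf_centralizer_map i hi, map_inf_centralizer_map i hi, hCQ])
    ?_ ?_ ?_ ?_ ?_
  · exact ⟨key.1, key.2.choose, key.2.choose_spec.1⟩
  · refine ⟨⟨⟨fun a b => Subtype.ext ?_⟩⟩, ?_⟩
    · obtain ⟨v, hv⟩ := a.2
      obtain ⟨w, hw⟩ := b.2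
      show (a : Hol) * (b : Hol) = (b : Hol) * (a : Hol)
      rw [← hv, ← hw, ← map_mul, ← map_mul, mul_comm]
    · rintro _ ⟨v, rfl⟩
      rw [← map_pow, hVp, map_one]
  · rw [normalizer_eq_top]; exact le_top
  · rw [normalizer_eq_top]; exact le_top
  · rw [eq_bot_iff]
    intro y hy
    rw [mem_inf] at hy
    obtain ⟨hy1, hy2⟩ := hy
    have hle : X.map i ⊔ Q.map i ≤ i.range := sup_le (map_le_range i X) (map_le_range i Q)
    obtain ⟨g, rfl⟩ := hle hy1
    rw [mem_centralizer_iff] at hy2
    have hg : g = 1 := by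
      apply MulEquiv.ext
      intro v
      apply hj
      show j (g v) = j ((1 : MulAut V) v)
      rw [← hconj, MulAut.one_apply]
      have := hy2 (j v) ⟨v, rfl⟩
      rw [← this]
      exact mul_inv_cancel_right _ _
    rw [hg, map_one]
    exact one_mem _
  · rw [eq_bot_iff]
    intro y hy
    rw [mem_inf] at hy
    obtain ⟨⟨v, rfl⟩, hy2⟩ := hy
    rw [mem_centralizer_iff] at hy2
    have hv : v = 1 := by
      apply hfix
      intro x hx
      apply hj
      show j (x v) = j v
      rw [← hconj]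
      have := hy2 (i x) ⟨x, hx, rfl⟩
      rw [this]
      exact mul_inv_cancel_right _ _
    rw [hv, map_one]
    exact one_mem _

end Apply

end Cfsg.Agent.Lib.Helper72.HH
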