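import Mathlib
import Cfsg.Prelude.Def_OddOrderLocal
import Cfsg.Agent.Lib.Helper72.HHCore
import Cfsg.Agent.Lib.Helper30.Basic

/-! Fitting subgroups of subgroups, in normalizer form (helper72). -/

set_option autoImplicit false
set_option linter.style.haveILetI false

namespace Cfsg.Agent.Lib.Helper72.HH

open Subgroup
open scoped commutatorElement

universe u

section Gen

variable {G : Type*} [Group G]

theorem le_normalizer_of_conj_mem {S Y : Subgroup G}
    (h : ∀ g ∈ S, ∀ y ∈ Y, g * y * g⁻¹ ∈ Y) : S ≤ normalizer (Y : Set G) := by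
  intro g hg
  rw [mem_normalizer_iff]
  intro y
  constructor
  · exact h g hg y
  · intro hy
    have := h g⁻¹ (inv_mem hg) _ hy
    simpa [mul_assoc] using this

/-- `[A, B]` is normalized by `A` -/
theorem le_normalizer_commutator_self (A B : Subgroup G) :
    A ≤ normalizer ((⁅A, B⁆ : Subgroup G) : Set G) := by
  apply le_normalizer_of_conj_mem
  intro s hs
  have h1 : ⁅A, B⁆ ≤ (⁅A, B⁆).comap (MulAut.conj s).toMonoidHom := by
    rw [commutator_le]
    intro a ha b hb
    rw [mem_comap]
    show s * ⁅a, b⁆ * s⁻¹ ∈ ⁅A, B⁆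
    have e : s * ⁅a, b⁆ * s⁻¹ = ⁅s * a, b⁆ * ⁅s, b⁆⁻¹ := by
      simp only [commutatorElement_def]; group
    rw [e]
    exact mul_mem (commutator_mem_commutator (mul_mem hs ha) hb)
      (inv_mem (commutator_mem_commutator hs hb))
  intro y hy
  exact h1 hy

end Gen

section Fit

variable {G : Type u} [Group G]

theorem fittingOf_le (K : Subgroup G) : Cfsg.fittingOf K ≤ K := map_subtype_le _

theorem normalizer_le_normalizer_fittingOf (K : Subgroup G) :
    normalizer (K : Set G) ≤ normalizer ((Cfsg.fittingOf K : Subgroup G) : Set G) := by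
  intro g hg
  haveI : (Cfsg.fittingSubgroup ↥K).Characteristic :=
    Cfsg.Agent.Lib.Helper30.fitting_characteristic
  exact mem_normalizer_map_of_characteristic (Cfsg.fittingSubgroup ↥K) hg

theorem isNilpotent_fittingOf [Finite G] (K : Subgroup G) :
    Group.IsNilpotent ↥(Cfsg.fittingOf K) :=
  (Group.isNilpotent_congr
    ((Cfsg.fittingSubgroup ↥K).equivMapOfInjective K.subtype K.subtype_injective)).mp
    Cfsg.Agent.Lib.Helper30.fitting_nilpotent

theorem le_fittingOf_of_nilpotent {Y K : Subgroup G} (hYK : Y ≤ K)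
    (hK : K ≤ normalizer (Y : Set G)) (hY : Group.IsNilpotent ↥Y) : Y ≤ Cfsg.fittingOf K := by
  have h1 : (Y.subgroupOf K).Normal := normal_subgroupOf_of_le_normalizer hK
  have h2 : Group.IsNilpotent ↥(Y.subgroupOf K) :=
    (Group.isNilpotent_congr (subgroupOfEquivOfLe hYK)).mpr hY
  have h3 : Y.subgroupOf K ≤ Cfsg.fittingSubgroup ↥K := le_sSup ⟨h1, h2⟩
  have h4 := Subgroup.map_mono (f := K.subtype) h3
  rw [map_subgroupOf_eq_of_le hYK] at h4
  exact h4

theorem fittingOf_le_fittingOf [Finite G] {N K : Subgroup G} (hNK : N ≤ K)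
    (hK : K ≤ normalizer (N : Set G)) : Cfsg.fittingOf N ≤ Cfsg.fittingOf K :=
  le_fittingOf_of_nilpotent ((fittingOf_le N).trans hNK)
    (hK.trans (normalizer_le_normalizer_fittingOf N)) (isNilpotent_fittingOf N)

/-- Fitting's theorem for two subgroups normalizing each other -/
theorem isNilpotent_sup_of_normalize [Finite G] {M F : Subgroup G} (hM : Group.IsNilpotent ↥M)
    (hF : Group.IsNilpotent ↥F) (hMF : M ≤ normalizer (F : Set G))
    (hFM : F ≤ normalizer (M : Set G)) : Group.IsNilpotent ↥(M ⊔ F) := by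
  have hYM : M ⊔ F ≤ normalizer (M : Set G) := sup_le le_normalizer hFM
  have hYF : M ⊔ F ≤ normalizer (F : Set G) := sup_le hMF le_normalizer
  haveI h1 : (M.subgroupOf (M ⊔ F)).Normal := normal_subgroupOf_of_le_normalizer hYM
  haveI h2 : (F.subgroupOf (M ⊔ F)).Normal := normal_subgroupOf_of_le_normalizer hYF
  have h3 : Group.IsNilpotent ↥(M.subgroupOf (M ⊔ F)) :=
    (Group.isNilpotent_congr (subgroupOfEquivOfLe le_sup_left)).mpr hM
  have h4 : Group.IsNilpotent ↥(F.subgroupOf (M ⊔ F)) :=
    (Group.isNilpotent_congr (subgroupOfEquivOfLe le_sup_right)).mpr hF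
  have h5 : M.subgroupOf (M ⊔ F) ⊔ F.subgroupOf (M ⊔ F) = ⊤ := by
    rw [← subgroupOf_sup le_sup_left le_sup_right, subgroupOf_self]
  exact Cfsg.Agent.Lib.Helper30.nilpotent_of_sup_eq_top _ _ h3 h4 h5

/-- Sylow subgroups of a nilpotent subgroup are normalized by everything normalizing it -/
theorem sylow_map_normalizer [Finite G] {F : Subgroup G} (hF : Group.IsNilpotent ↥F) {ℓ : ℕ}
    [Fact ℓ.Prime] (P : Sylow ℓ ↥F) :
    normalizer (F : Set G)
      ≤ normalizer (((P : Subgroup ↥F).map F.subtype : Subgroup G) : Set G) := by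
  intro g hg
  have tfae := Group.isNilpotent_of_finite_tfae (G := ↥F)
  have h0 : ∀ (p : ℕ), Fact (Nat.Prime p) → ∀ (P : Sylow p ↥F), (P : Subgroup ↥F).Normal :=
    (tfae.out 0 3).mp hF
  have h1 : (P : Subgroup ↥F).Normal := h0 ℓ inferInstance P
  haveI : (P : Subgroup ↥F).Characteristic := Sylow.characteristic_of_normal P h1
  exact mem_normalizer_map_of_characteristic (P : Subgroup ↥F) hg

end Fit

end Cfsg.Agent.Lib.Helper72.HH
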