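import Mathlib
import Cfsg.Agent.S3790
import Cfsg.Agent.Lib.Helper72.HHFit

/-! An internal form of `p`-length one for subgroups of an ambient group, and its behaviour
under quotients (helper72). -/

set_option autoImplicit false
set_option linter.style.haveILetI false
set_option linter.unusedSectionVars false

namespace Cfsg.Agent.Lib.Helper72.ZG

open Subgroup
open scoped commutatorElement Pointwise

universe u

variable {G : Type u} [Group G]

/-- internal `p`-length one: a chain `1 ≤ A ≤ B ≤ K` of `K`-invariant subgroups with `A` a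
`p'`-group, `B / A` a `p`-group and `K / B` a `p'`-group -/
def PL1 (p : ℕ) (K : Subgroup G) : Prop :=
  ∃ A B : Subgroup G, A ≤ B ∧ B ≤ K ∧ K ≤ normalizer (A : Set G) ∧ K ≤ normalizer (B : Set G) ∧
    (∀ x ∈ A, ∃ m : ℕ, m.Coprime p ∧ x ^ m = 1) ∧ (∀ x ∈ B, ∃ k : ℕ, x ^ (p ^ k) ∈ A) ∧
    (∀ x ∈ K, ∃ m : ℕ, m.Coprime p ∧ x ^ m ∈ B)

theorem le_normalizer_of_normal' {N X : Subgroup G} [hN : N.Normal] :
    X ≤ normalizer (N : Set G) := by
  intro g _
  rw [mem_normalizer_iff]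
  intro h
  constructor
  · intro hh
    exact hN.conj_mem h hh g
  · intro hh
    have := hN.conj_mem _ hh g⁻¹
    simpa [mul_assoc] using this

theorem normal_of_forall_mem_normalizer {N : Subgroup G}
    (h : ∀ g : G, g ∈ normalizer (N : Set G)) : N.Normal :=
  ⟨fun n hn g => (mem_normalizer_iff.1 (h g) n).1 hn⟩

theorem normal_map_of_characteristic {K : Subgroup G} [hK : K.Normal] (C : Subgroup ↥K)
    [C.Characteristic] : (C.map K.subtype).Normal :=
  normal_of_forall_mem_normalizer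
    (fun g => HH.mem_normalizer_map_of_characteristic C (le_normalizer_of_normal' (mem_top g)))

theorem PL1_of_coprime [Finite G] {p : ℕ} {K : Subgroup G} (h : (Nat.card K).Coprime p) :
    PL1 p K := by
  refine ⟨K, K, le_rfl, le_rfl, le_normalizer, le_normalizer, ?_, ?_, ?_⟩
  · intro x hx
    refine ⟨Nat.card K, h, ?_⟩
    have h1 := pow_card_eq_one' (G := ↥K) (x := ⟨x, hx⟩)
    exact congrArg Subtype.val h1
  · intro x hx
    exact ⟨0, by simpa using hx⟩
  · intro x hx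
    exact ⟨1, Nat.coprime_one_left p, by simpa using hx⟩

theorem PL1_of_pcomp {p : ℕ} {K V : Subgroup G} (hVK : V ≤ K)
    (hKV : K ≤ normalizer (V : Set G)) (hVp : IsPGroup p V)
    (h : ∀ x ∈ K, ∃ m : ℕ, m.Coprime p ∧ x ^ m ∈ V) : PL1 p K := by
  refine ⟨⊥, V, bot_le, hVK, ?_, hKV, ?_, ?_, h⟩
  · intro g _
    rw [mem_normalizer_iff]
    intro x
    rw [mem_bot, mem_bot]
    constructor
    · intro hx
      rw [hx]; group
    · intro hx
      have : x = g⁻¹ * (g * x * g⁻¹) * g := by group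
      rw [this, hx]; group
  · intro x hx
    rw [mem_bot] at hx
    exact ⟨1, Nat.coprime_one_left p, by rw [hx, one_pow]⟩
  · intro x hx
    obtain ⟨k, hk⟩ := hVp ⟨x, hx⟩
    exact ⟨k, by rw [mem_bot]; exact congrArg Subtype.val hk⟩

/-- the data of `PL1` for a quotient, pulled back -/
theorem PL1_quot_data {p : ℕ} {M K : Subgroup G} [M.Normal] (hMK : M ≤ K)
    (h : PL1 p (K.map (QuotientGroup.mk' M))) :
    ∃ A B : Subgroup G, M ≤ A ∧ A ≤ B ∧ B ≤ K ∧ K ≤ normalizer (A : Set G) ∧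
      K ≤ normalizer (B : Set G) ∧ (∀ x ∈ A, ∃ m : ℕ, m.Coprime p ∧ x ^ m ∈ M) ∧
      (∀ x ∈ B, ∃ k : ℕ, x ^ (p ^ k) ∈ A) ∧ (∀ x ∈ K, ∃ m : ℕ, m.Coprime p ∧ x ^ m ∈ B) := by
  obtain ⟨A', B', hAB, hBK, hKA, hKB, hA, hB, hK⟩ := h
  have hnorm : ∀ X' : Subgroup (G ⧸ M), K.map (QuotientGroup.mk' M) ≤ normalizer (X' : Set (G ⧸ M)) →
      K ≤ normalizer ((X'.comap (QuotientGroup.mk' M) : Subgroup G) : Set G) := by
    intro X' hX'
    apply HH.le_normalizer_of_conj_mem
    intro g hg x hx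
    rw [mem_comap] at hx ⊢
    rw [map_mul, map_mul, map_inv]
    exact HH.conj_mem_of_mem_normalizer (hX' (mem_map_of_mem _ hg)) hx
  refine ⟨A'.comap (QuotientGroup.mk' M), B'.comap (QuotientGroup.mk' M), ?_, comap_mono hAB, ?_,
    hnorm A' hKA, hnorm B' hKB, ?_, ?_, ?_⟩
  · intro x hx
    rw [mem_comap]
    have : QuotientGroup.mk' M x = 1 := (QuotientGroup.eq_one_iff x).2 hx
    rw [this]
    exact one_mem _
  · intro x hx
    rw [mem_comap] at hx
    obtain ⟨k, hk, hkx⟩ := hBK hx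
    have h1 : k⁻¹ * x ∈ M := by
      have : (QuotientGroup.mk k : G ⧸ M) = QuotientGroup.mk x := hkx
      exact QuotientGroup.eq.1 this
    have e : x = k * (k⁻¹ * x) := by group
    rw [e]
    exact mul_mem hk (hMK h1)
  · intro x hx
    rw [mem_comap] at hx
    obtain ⟨m, hm, hxm⟩ := hA _ hx
    refine ⟨m, hm, ?_⟩
    rw [← map_pow] at hxm
    exact (QuotientGroup.eq_one_iff _).1 hxm
  · intro x hx
    rw [mem_comap] at hx
    obtain ⟨k, hk⟩ := hB _ hx
    refine ⟨k, ?_⟩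
    rw [mem_comap, map_pow]
    exact hk
  · intro x hx
    obtain ⟨m, hm, hxm⟩ := hK _ (mem_map_of_mem (QuotientGroup.mk' M) hx)
    refine ⟨m, hm, ?_⟩
    rw [mem_comap, map_pow]
    exact hxm

/-- lifting `PL1` through a quotient by a normal `p'`-subgroup -/
theorem PL1_of_quot_pprime [Finite G] {p : ℕ} {M K : Subgroup G} [M.Normal] (hMK : M ≤ K)
    (hM : (Nat.card M).Coprime p) (h : PL1 p (K.map (QuotientGroup.mk' M))) : PL1 p K := by
  obtain ⟨A, B, -, hAB, hBK, hKA, hKB, hA, hB, hK⟩ := PL1_quot_data hMK h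
  refine ⟨A, B, hAB, hBK, hKA, hKB, ?_, hB, hK⟩
  intro x hx
  obtain ⟨m, hm, hxm⟩ := hA x hx
  refine ⟨m * Nat.card M, Nat.Coprime.mul_left hm hM, ?_⟩
  rw [pow_mul]
  have h1 := pow_card_eq_one' (G := ↥M) (x := ⟨x ^ m, hxm⟩)
  exact congrArg Subtype.val h1

/-- lifting `PL1` through a quotient by a normal `p`-subgroup, when the `p'`-elements of the
relevant normal subgroups are trivial -/
theorem PL1_of_quot_pgroup {p : ℕ} {M V K : Subgroup G} [M.Normal] (hMV : M ≤ V)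
    (hVK : V ≤ K) (hKV : K ≤ normalizer (V : Set G)) (hVp : IsPGroup p V)
    (hmax : ∀ B : Subgroup G, B ≤ K → K ≤ normalizer (B : Set G) → IsPGroup p B → B ≤ V)
    (hstar : ∀ A : Subgroup G, M ≤ A → A ≤ K → K ≤ normalizer (A : Set G) →
      (∀ x ∈ A, ∃ m : ℕ, m.Coprime p ∧ x ^ m ∈ M) →
      ∀ y ∈ A, ∀ m : ℕ, m.Coprime p → y ^ m = 1 → y = 1)
    (h : PL1 p (K.map (QuotientGroup.mk' M))) : PL1 p K := by
  obtain ⟨A, B, hMA, hAB, hBK, hKA, hKB, hA, hB, hK⟩ := PL1_quot_data (hMV.trans hVK) h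
  have hAp : ∀ x ∈ A, ∃ j : ℕ, x ^ (p ^ j) = 1 := by
    intro x hx
    obtain ⟨m, hm, hxm⟩ := hA x hx
    obtain ⟨j, hj⟩ := hVp ⟨x ^ m, hMV hxm⟩
    have hj' : (x ^ m) ^ (p ^ j) = 1 := congrArg Subtype.val hj
    refine ⟨j, hstar A hMA (hAB.trans hBK) hKA hA _ (pow_mem hx _) m hm ?_⟩
    rw [← pow_mul, mul_comm, pow_mul]
    exact hj'
  have hBp : IsPGroup p B := by
    intro x
    obtain ⟨k, hk⟩ := hB x x.2
    obtain ⟨j, hj⟩ := hAp _ hk
    refine ⟨k + j, Subtype.ext ?_⟩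
    show (x : G) ^ (p ^ (k + j)) = 1
    rw [pow_add, pow_mul]
    exact hj
  have hBV := hmax B hBK hKB hBp
  apply PL1_of_pcomp hVK hKV hVp
  intro x hx
  obtain ⟨m, hm, hxm⟩ := hK x hx
  exact ⟨m, hm, hBV hxm⟩

/-- from the internal form to the statement -/
theorem plength_of_PL1 [Finite G] {p : ℕ} [hp : Fact p.Prime] {K : Subgroup G} (h : PL1 p K) :
    Cfsg.PLengthLE p 1 ↥K := by
  obtain ⟨A, B, hAB, hBK, hKA, hKB, hA, hB, hK⟩ := h
  apply Cfsg.Agent.S3790.plength_of_chain p hp.out 1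
  haveI hAn : (A.subgroupOf K).Normal :=
    (normal_subgroupOf_iff_le_normalizer (hAB.trans hBK)).mpr hKA
  haveI hBn : (B.subgroupOf K).Normal := (normal_subgroupOf_iff_le_normalizer hBK).mpr hKB
  refine ⟨fun n => match n with
    | 0 => ⊥
    | 1 => A.subgroupOf K
    | 2 => B.subgroupOf K
    | _ => ⊤, rfl, rfl, ?_, ?_, ?_⟩
  · intro n
    rcases n with _ | _ | _ | n
    · exact (inferInstance : (⊥ : Subgroup ↥K).Normal)
    · exact hAn
    · exact hBn
    · exact (inferInstance : (⊤ : Subgroup ↥K).Normal)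
  · intro n
    rcases n with _ | _ | _ | n
    · exact bot_le
    · exact fun x hx => mem_subgroupOf.2 (hAB (mem_subgroupOf.1 hx))
    · exact le_top
    · exact le_top
  · intro n
    rcases n with _ | _ | _ | n
    · intro x hx
      obtain ⟨m, hm, hxm⟩ := hA x (mem_subgroupOf.1 hx)
      refine ⟨m, ?_, ?_⟩
      · show m ∈ Cfsg.Agent.S3790.stepSet p 0
        unfold Cfsg.Agent.S3790.stepSet
        rw [if_pos (by decide)]
        exact hm
      · show x ^ m ∈ (⊥ : Subgroup ↥K)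
        rw [mem_bot]
        exact Subtype.ext hxm
    · intro x hx
      obtain ⟨k, hk⟩ := hB x (mem_subgroupOf.1 hx)
      refine ⟨p ^ k, ?_, ?_⟩
      · show p ^ k ∈ Cfsg.Agent.S3790.stepSet p 1
        unfold Cfsg.Agent.S3790.stepSet
        rw [if_neg (by decide)]
        exact ⟨k, rfl⟩
      · exact mem_subgroupOf.2 hk
    · intro x _
      obtain ⟨m, hm, hxm⟩ := hK x x.2
      refine ⟨m, ?_, ?_⟩
      · show m ∈ Cfsg.Agent.S3790.stepSet p 2
        unfold Cfsg.Agent.S3790.stepSet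
        rw [if_pos (by decide)]
        exact hm
      · exact mem_subgroupOf.2 hxm
    · exact Cfsg.Agent.S3790.isStep_refl _ (Cfsg.Agent.S3790.stepSet_one p _) _

end Cfsg.Agent.Lib.Helper72.ZG
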