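import Mathlib
import Cfsg.Agent.Lib.Helper72.HHCore

/-! Coprime Hall–Higman reduction (helper72), part 4: the minimal configuration is impossible. -/

set_option autoImplicit false
set_option linter.style.haveILetI false

namespace Cfsg.Agent.Lib.Helper72.HH

open Subgroup
open scoped commutatorElement

universe u

section Small

variable {V : Type*} [CommGroup V]

/-- an automorphism of coprime order acting quadratically at `v` fixes `v` -/
theorem fixed_of_sq {p n : ℕ} (hcop : Nat.Coprime n p) (hVp : ∀ v : V, v ^ p = 1)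
    (g : MulAut V) (hg : g ^ n = 1) {v : V} (h : g (g v * v⁻¹) = g v * v⁻¹) : g v = v := by
  have key : ∀ k : ℕ, (g ^ k) v = v * (g v * v⁻¹) ^ k := by
    intro k
    induction k with
    | zero => simp
    | succ k ih =>
      rw [pow_succ', MulAut.mul_apply, ih, map_mul, map_pow, h, pow_succ', ← mul_assoc]
      congr 1
      simp
  have h1 := key n
  rw [hg, MulAut.one_apply] at h1
  have h2 : (g v * v⁻¹) ^ n = 1 := by
    have h3 : v * 1 = v * (g v * v⁻¹) ^ n := by rw [mul_one]; exact h1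
    exact (mul_left_cancel h3).symm
  have h3 := eq_one_of_pow_pow hcop (hVp _) h2
  exact mul_inv_eq_one.mp h3

/-- the fixed points of an automorphism -/
def fixW (z : MulAut V) : Subgroup V where
  carrier := {v | z v = v}
  mul_mem' := by
    intro a b ha hb
    have ha' : z a = a := ha
    have hb' : z b = b := hb
    show z (a * b) = a * b
    rw [map_mul, ha', hb']
  one_mem' := map_one z
  inv_mem' := by
    intro a ha
    have ha' : z a = a := ha
    show z a⁻¹ = a⁻¹
    rw [map_inv, ha']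

/-- the kernel of the norm -/
def kerNrm (S : Subgroup (MulAut V)) [Fintype S] : Subgroup V where
  carrier := {v | nrm S v = 1}
  mul_mem' := by
    intro a b ha hb
    have ha' : nrm S a = 1 := ha
    have hb' : nrm S b = 1 := hb
    show nrm S (a * b) = 1
    rw [nrm_mul, ha', hb', one_mul]
  one_mem' := nrm_one S
  inv_mem' := by
    intro a ha
    have ha' : nrm S a = 1 := ha
    show nrm S a⁻¹ = 1
    rw [nrm_inv, ha', inv_one]

end Small

section Reduced

variable {V : Type u} [CommGroup V] [Finite V]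

/-- **The minimal configuration is impossible.** -/
theorem reduced (H : S3764Prop.{u}) {p q r : ℕ}
    (hp : p.Prime) (hq : q.Prime) (hr : r.Prime) (hpq : p ≠ q) (hpr : p ≠ r) (hqr : q ≠ r)
    (hVp : ∀ v : V, v ^ p = 1)
    (X Q : Subgroup (MulAut V)) (hX : Nat.card X = r) (hQ : IsPGroup q Q)
    (hXQ : X ≤ normalizer (Q : Set (MulAut V)))
    (hne : ⁅Q, X⁆ ≠ ⊥)
    (hfix : ∀ v : V, (∀ x ∈ X, x v = v) → v = 1)
    (hex : (∀ a ∈ Q, ∀ b ∈ Q, a * b = b * a) ∨ ¬ (q = 2 ∧ ∃ k : ℕ, r = 2 ^ k + 1))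
    (M1 : ∀ Q₁ : Subgroup (MulAut V), Q₁ ≤ Q → Q₁ ≠ Q →
      X ≤ normalizer (Q₁ : Set (MulAut V)) → ⁅Q₁, X⁆ = ⊥)
    (M2 : ∀ W : Subgroup V, W ≠ ⊤ → (∀ x ∈ X, ∀ w ∈ W, x w ∈ W) →
      (∀ a ∈ Q, ∀ w ∈ W, a w ∈ W) → ∀ g ∈ ⁅Q, X⁆, ∀ w ∈ W, g w = w) : False := by
  classical
  haveI : Fact q.Prime := ⟨hq⟩
  haveI : Fact r.Prime := ⟨hr⟩
  have hXr : ∀ x ∈ X, x ^ r = 1 := by
    intro x hx
    have h1 : (⟨x, hx⟩ : X) ^ Nat.card X = 1 := pow_card_eq_one'
    rw [hX] at h1
    exact congrArg Subtype.val h1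
  have hqr' : ¬ q ∣ r := fun h => hqr ((Nat.prime_dvd_prime_iff_eq hq hr).1 h)
  -- Step 1: `[Q, X] = Q`
  have hQX : ⁅Q, X⁆ = Q := by
    by_contra hcon
    have h1 : ⁅Q, X⁆ ≤ Q := commutator_le_left_of_normalizer hXQ
    have h2 : X ≤ normalizer ((⁅Q, X⁆ : Subgroup (MulAut V)) : Set (MulAut V)) :=
      fun x hx => mem_normalizer_commutator (hXQ hx) (le_normalizer hx)
    have h3 := M1 _ h1 hcon h2
    exact hne (commutator_eq_bot_of_double hqr' hQ hXr hXQ h3)
  rw [hQX] at M2
  have hQne : Q ≠ ⊥ := by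
    intro h
    apply hne
    rw [h]
    exact commutator_bot_left X
  have hG1 : ∀ x ∈ X, x ≠ 1 → zpowers x = X := by
    intro x hx hx1
    have h1 : zpowers (⟨x, hx⟩ : X) = ⊤ :=
      zpowers_eq_top_of_prime_card hX (fun h => hx1 (congrArg Subtype.val h))
    have h2 := congrArg (Subgroup.map X.subtype) h1
    rw [MonoidHom.map_zpowers, ← MonoidHom.range_eq_map, range_subtype] at h2
    exact h2
  have hK : ∀ M : Subgroup (MulAut V), M ≤ Q → M ≠ Q → X ≤ normalizer (M : Set (MulAut V)) →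
      Q ≤ normalizer (M : Set (MulAut V)) →
      M ≤ centralizer (X : Set (MulAut V)) ∧ M ≤ centralizer (Q : Set (MulAut V)) := by
    intro M hMQ hMne hXM hQM
    have h1 : ⁅M, X⁆ = ⊥ := M1 M hMQ hMne hXM
    refine ⟨commutator_eq_bot_iff_le_centralizer.1 h1, ?_⟩
    have h2 : ⁅⁅Q, X⁆, M⁆ = ⊥ := by
      apply commutator_commutator_eq_bot_of_rotate
      · rw [commutator_comm X M, h1, commutator_bot_left]
      · have h3 : ⁅M, Q⁆ ≤ M := commutator_le_left_of_normalizer hQM
        exact le_bot_iff.1 (h1 ▸ commutator_mono h3 le_rfl)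
    rw [hQX] at h2
    exact le_centralizer_iff.1 (commutator_eq_bot_iff_le_centralizer.1 h2)
  have hcopQr : (Nat.card Q).Coprime r := by
    obtain ⟨n, hn⟩ := IsPGroup.iff_card.1 hQ
    rw [hn]
    exact Nat.Coprime.pow_left n ((Nat.coprime_primes hq hr).2 hqr)
  have hcopQp : (Nat.card Q).Coprime p := by
    obtain ⟨n, hn⟩ := IsPGroup.iff_card.1 hQ
    rw [hn]
    exact Nat.Coprime.pow_left n ((Nat.coprime_primes hq hp).2 (Ne.symm hpq))
  obtain ⟨x₀, hx₀, hx₀1⟩ : ∃ x ∈ X, x ≠ 1 := by
    rcases X.bot_or_exists_ne_one with h | h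
    · exfalso
      rw [h, Subgroup.card_bot] at hX
      exact hr.one_lt.ne hX
    · exact h
  have hcentx : ∀ x ∈ X, x ≠ 1 → Q ⊓ centralizer {x} ≤ ⁅Q, Q⁆ := by
    intro x hx hx1
    refine cent_le_commutator Q x hr.pos (hXQ hx) (hXr x hx) hcopQr ?_
    rw [hG1 x hx hx1, hQX]
  by_cases hab : ∀ a ∈ Q, ∀ b ∈ Q, a * b = b * a
  · -- abelian case
    have hQQ : ⁅Q, Q⁆ = ⊥ := by
      rw [commutator_eq_bot_iff_le_centralizer]
      intro a ha
      rw [mem_centralizer_iff]
      intro b hb
      exact hab b hb a ha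
    have hCQ : ∀ a ∈ Q, ∀ x ∈ X, x ≠ 1 → x * a = a * x → a = 1 := by
      intro a ha x hx hx1 hxa
      have h1 : a ∈ Q ⊓ centralizer {x} := by
        refine mem_inf.2 ⟨ha, mem_centralizer_iff.2 ?_⟩
        intro y hy
        rw [Set.mem_singleton_iff] at hy
        rw [hy]; exact hxa
      have h2 := hcentx x hx hx1 h1
      rw [hQQ, mem_bot] at h2
      exact h2
    apply hQne
    rw [eq_bot_iff]
    intro b hb
    rw [mem_bot]
    apply MulEquiv.ext
    intro v
    rw [MulAut.one_apply]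
    exact fixed_of_pow_fixed hcopQp hVp b (frob_fixed X Q hXQ hCQ hfix v b hb)
  · -- nonabelian case
    have hnonab : ¬ (q = 2 ∧ ∃ k : ℕ, r = 2 ^ k + 1) := by
      rcases hex with h | h
      · exact absurd h hab
      · exact h
    push Not at hab
    obtain ⟨a₀, ha₀, b₀, hb₀, hab₀⟩ := hab
    obtain ⟨Z, hZdef⟩ : ∃ Z : Subgroup (MulAut V), Z = Q ⊓ centralizer (Q : Set (MulAut V)) :=
      ⟨_, rfl⟩
    obtain ⟨C, hCdef⟩ : ∃ C : Subgroup (MulAut V), C = Q ⊓ centralizer (X : Set (MulAut V)) :=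
      ⟨_, rfl⟩
    have hZQ : Z ≤ Q := hZdef ▸ inf_le_left
    have hZc : Z ≤ centralizer (Q : Set (MulAut V)) := hZdef ▸ inf_le_right
    have hQ'Q : ⁅Q, Q⁆ ≤ Q := commutator_le_left_of_normalizer le_normalizer
    haveI : Nontrivial ↥Q := (Subgroup.nontrivial_iff_ne_bot Q).2 hQne
    have hQ'ne : ⁅Q, Q⁆ ≠ Q := by
      intro h
      haveI : Group.IsNilpotent ↥Q := hQ.isNilpotent
      have h1 := Group.IsSolvable.commutator_lt_top_of_nontrivial ↥Q
      have h2 : (commutator ↥Q).map Q.subtype = (⊤ : Subgroup ↥Q).map Q.subtype := by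
        rw [map_subtype_commutator, h, ← MonoidHom.range_eq_map, range_subtype]
      exact h1.ne (map_injective Q.subtype_injective h2)
    have hXQ' : X ≤ normalizer ((⁅Q, Q⁆ : Subgroup (MulAut V)) : Set (MulAut V)) :=
      fun x hx => mem_normalizer_commutator (hXQ hx) (hXQ hx)
    have hQQ' : Q ≤ normalizer ((⁅Q, Q⁆ : Subgroup (MulAut V)) : Set (MulAut V)) :=
      fun a ha => mem_normalizer_commutator (le_normalizer ha) (le_normalizer ha)
    obtain ⟨hQ'X, hQ'c⟩ := hK _ hQ'Q hQ'ne hXQ' hQQ'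
    have hQ'Z : ⁅Q, Q⁆ ≤ Z := hZdef ▸ le_inf hQ'Q hQ'c
    have hZne : Z ≠ Q := by
      intro h
      apply hab₀
      have h1 : a₀ ∈ Z := by rw [h]; exact ha₀
      exact (mem_centralizer_iff.1 (hZc h1) b₀ hb₀).symm
    have hXZ : X ≤ normalizer (Z : Set (MulAut V)) := by
      rw [hZdef]
      exact fun x hx => mem_normalizer_inf (hXQ hx) (mem_normalizer_centralizer (hXQ hx))
    have hQZ : Q ≤ normalizer (Z : Set (MulAut V)) := by
      rw [hZdef]
      exact fun a ha =>
        mem_normalizer_inf (le_normalizer ha) (mem_normalizer_centralizer (le_normalizer ha))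
    obtain ⟨hZX, -⟩ := hK Z hZQ hZne hXZ hQZ
    have hCQ : C ≤ Q := hCdef ▸ inf_le_left
    have hCX : C ≤ centralizer (X : Set (MulAut V)) := hCdef ▸ inf_le_right
    have hZC : Z ≤ C := hCdef ▸ le_inf hZQ hZX
    have hCZ : C ≤ Z := by
      rw [hZdef]
      refine le_inf hCQ ?_
      have h2 : ⁅⁅Q, X⁆, C⁆ = ⊥ := by
        apply commutator_commutator_eq_bot_of_rotate
        · have h3 : ⁅X, C⁆ = ⊥ := by
            rw [commutator_comm]; exact commutator_eq_bot_iff_le_centralizer.2 hCX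
          rw [h3, commutator_bot_left]
        · rw [commutator_eq_bot_iff_le_centralizer]
          exact (commutator_mono hCQ le_rfl).trans hQ'X
      rw [hQX] at h2
      exact le_centralizer_iff.1 (commutator_eq_bot_iff_le_centralizer.1 h2)
    have hCQ' : C ≤ ⁅Q, Q⁆ := by
      refine le_trans ?_ (hcentx x₀ hx₀ hx₀1)
      refine le_inf hCQ ?_
      intro c hc
      rw [mem_centralizer_iff]
      intro y hy
      rw [Set.mem_singleton_iff] at hy
      rw [hy]
      exact mem_centralizer_iff.1 (hCX hc) x₀ hx₀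
    have hZeqC : Z = C := le_antisymm hZC hCZ
    have hZeqQ' : Z = ⁅Q, Q⁆ := le_antisymm (hZC.trans hCQ') hQ'Z
    have hZbot : Z ≠ ⊥ := by
      intro h
      apply hab₀
      have h1 : ⁅a₀, b₀⁆ ∈ Z := hQ'Z (commutator_mem_commutator ha₀ hb₀)
      rw [h, mem_bot, commutatorElement_eq_one_iff_mul_comm] at h1
      exact h1
    haveI : Fintype Z := Fintype.ofFinite Z
    have hcopZp : (Nat.card Z).Coprime p :=
      Nat.Coprime.coprime_dvd_left (Subgroup.card_dvd_of_le hZQ) hcopQp
    have hZcommX : ∀ x ∈ X, ∀ g ∈ Z, x * g = g * x :=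
      fun x hx g hg => mem_centralizer_iff.1 (hZX hg) x hx
    have hZcommQ : ∀ a ∈ Q, ∀ g ∈ Z, a * g = g * a :=
      fun a ha g hg => mem_centralizer_iff.1 (hZc hg) a ha
    have hnrm : ∀ v : V, nrm Z v = 1 := by
      by_contra hcon
      have hW : kerNrm Z ≠ ⊤ := by
        intro h
        apply hcon
        intro v
        have h1 : v ∈ kerNrm Z := by rw [h]; exact mem_top v
        exact h1
      have h1 := M2 (kerNrm Z) hW
        (fun x hx w hw => by
          show nrm Z (x w) = 1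
          rw [nrm_comm Z (hZcommX x hx), (hw : nrm Z w = 1), map_one])
        (fun a ha w hw => by
          show nrm Z (a w) = 1
          rw [nrm_comm Z (hZcommQ a ha), (hw : nrm Z w = 1), map_one])
      apply hZbot
      rw [eq_bot_iff]
      intro z hz
      rw [mem_bot]
      apply MulEquiv.ext
      intro v
      rw [MulAut.one_apply]
      have hzn : z ^ Nat.card Z = 1 := by
        have h2 : (⟨z, hz⟩ : Z) ^ Nat.card Z = 1 := pow_card_eq_one'
        exact congrArg Subtype.val h2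
      apply fixed_of_sq hcopZp hVp z hzn
      apply h1 z (hZQ hz)
      show nrm Z (z v * v⁻¹) = 1
      rw [nrm_mul, nrm_inv, nrm_smul Z hz, mul_inv_cancel]
    have hCVZ : ∀ v : V, (∀ z ∈ Z, z v = v) → v = 1 := by
      intro v hv
      have h1 := nrm_of_fixed Z hv
      rw [hnrm] at h1
      exact eq_one_of_pow_pow hcopZp (hVp v) h1.symm
    have hfpf : ∀ z ∈ Z, z ≠ 1 → ∀ v : V, z v = v → v = 1 := by
      intro z hz hz1 v hv
      have hW : fixW z ≠ ⊤ := by
        intro h
        apply hz1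
        apply MulEquiv.ext
        intro w
        have h1 : w ∈ fixW z := by rw [h]; exact mem_top w
        exact h1
      have h1 := M2 (fixW z) hW
        (fun x hx w hw => by
          show z (x w) = x w
          have e := congrArg (fun f : MulAut V => f w) (hZcommX x hx z hz)
          simp only [MulAut.mul_apply] at e
          rw [← e, (hw : z w = w)])
        (fun a ha w hw => by
          show z (a w) = a w
          have e := congrArg (fun f : MulAut V => f w) (hZcommQ a ha z hz)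
          simp only [MulAut.mul_apply] at e
          rw [← e, (hw : z w = w)])
      exact hCVZ v (fun z' hz' => h1 z' (hZQ hz') v hv)
    obtain ⟨Φ, hΦdef⟩ : ∃ Φ : Subgroup (MulAut V), Φ = (frattini ↥Q).map Q.subtype := ⟨_, rfl⟩
    have hΦQ : Φ ≤ Q := by
      rw [hΦdef]
      rintro _ ⟨a, -, rfl⟩
      exact a.2
    have hΦne : Φ ≠ Q := by
      intro h
      obtain h1 | ⟨M, hM, -⟩ := eq_top_or_exists_le_coatom (⊥ : Subgroup ↥Q)
      · exact bot_ne_top h1
      · have h2 : frattini ↥Q ≤ M := Order.radical_le_coatom hM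
        have h3 : frattini ↥Q = ⊤ := by
          apply map_injective Q.subtype_injective
          rw [← MonoidHom.range_eq_map, range_subtype, ← hΦdef]; exact h
        rw [h3] at h2
        exact hM.1 (top_le_iff.1 h2)
    have hXΦ : X ≤ normalizer (Φ : Set (MulAut V)) := by
      rw [hΦdef]
      exact fun x hx => mem_normalizer_map_of_characteristic (frattini ↥Q) (hXQ hx)
    have hQΦ : Q ≤ normalizer (Φ : Set (MulAut V)) := by
      rw [hΦdef]
      exact fun a ha => mem_normalizer_map_of_characteristic (frattini ↥Q) (le_normalizer ha)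
    obtain ⟨-, hΦc⟩ := hK Φ hΦQ hΦne hXΦ hQΦ
    have hΦZ : Φ ≤ Z := hZdef ▸ le_inf hΦQ hΦc
    have hexp : ∀ z ∈ Z, z ^ q = 1 := by
      let E : Subgroup (MulAut V) :=
        { carrier := {z | z ∈ Z ∧ z ^ q = 1}
          mul_mem' := by
            rintro a b ⟨ha, ha'⟩ ⟨hb, hb'⟩
            refine ⟨mul_mem ha hb, ?_⟩
            have hc : Commute a b := mem_centralizer_iff.1 (hZc hb) a (hZQ ha)
            rw [hc.mul_pow, ha', hb', one_mul]
          one_mem' := ⟨one_mem _, one_pow _⟩
          inv_mem' := by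
            rintro a ⟨ha, ha'⟩
            exact ⟨inv_mem ha, by rw [inv_pow, ha', inv_one]⟩ }
      have hE : ⁅Q, Q⁆ ≤ E := by
        rw [commutator_le]
        intro a ha b hb
        have hc : ⁅a, b⁆ ∈ Z := hQ'Z (commutator_mem_commutator ha hb)
        refine ⟨hc, ?_⟩
        have hcomm : Commute ⁅a, b⁆ a := (mem_centralizer_iff.1 (hZc hc) a ha).symm
        rw [← commutator_pow_of_commute hcomm q]
        have haq : a ^ q ∈ Z := by
          apply hΦZ
          rw [hΦdef]
          exact ⟨(⟨a, ha⟩ : Q) ^ q, pow_mem_frattini hQ _, rfl⟩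
        rw [commutatorElement_eq_one_iff_mul_comm]
        exact (mem_centralizer_iff.1 (hZc haq) b hb).symm
      intro z hz
      rw [hZeqQ'] at hz
      exact (hE hz).2
    have hVne : ∃ v : V, v ≠ 1 := by
      by_contra hcon
      push Not at hcon
      apply hQne
      rw [eq_bot_iff]
      intro b hb
      rw [mem_bot]
      apply MulEquiv.ext
      intro v
      rw [hcon v, map_one, MulAut.one_apply]
    obtain ⟨v₀, hv₀⟩ := hVne
    obtain ⟨y, hy, hy1⟩ : ∃ y ∈ Z, y ≠ 1 := (Z.bot_or_exists_ne_one).resolve_left hZbot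
    have hcardZ : Nat.card Z = q := by
      let y' : Z := ⟨y, hy⟩
      have hy'1 : y' ≠ 1 := fun h => hy1 (congrArg Subtype.val h)
      have hy'q : y' ^ q = 1 := Subtype.ext (hexp y hy)
      have hord : orderOf y' = q := orderOf_eq_prime hy'q hy'1
      have htop : zpowers y' = ⊤ := by
        by_contra hcon
        obtain ⟨x, hx⟩ : ∃ x : Z, x ∉ zpowers y' := by
          by_contra h
          push Not at h
          exact hcon (eq_top_iff.2 (fun x _ => h x))
        have hvq := Cfsg.Agent.Lib.Helper34.fpf_noncyclic_pow (Z.subtype)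
          (fun d hd v hv => hfpf d d.2 (fun h => hd (Subtype.ext h)) v hv) x y' q hq
          (Subtype.ext (mem_centralizer_iff.1 (hZc y'.2) x (hZQ x.2)))
          (Subtype.ext (hexp x x.2)) hord hx v₀
        exact hv₀ (eq_one_of_pow_pow ((Nat.coprime_primes hq hp).2 (Ne.symm hpq)) (hVp v₀) hvq)
      rw [← hord, ← Nat.card_zpowers, htop, Subgroup.card_top]
    have hE : Cfsg.IsExtraspecial q ↥Q := by
      rw [hZdef] at hZeqQ' hcardZ
      rw [hΦdef, hZdef] at hΦZ
      exact isExtraspecial_subgroup Q hQ hZeqQ' hΦZ hcardZ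
    rw [hZdef, hCdef] at hZeqC
    exact hnonab (apply_S3764 H hp hq hr hpq hpr hqr hVp X Q hX hE hXQ hZeqC.symm hfix)

end Reduced

end Cfsg.Agent.Lib.Helper72.HH
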