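import Mathlib
import Cfsg.Agent.Lib.Helper72.HHReduced

/-! Coprime Hall–Higman reduction (helper72), part 5: the induction. -/

set_option autoImplicit false
set_option linter.style.haveILetI false

namespace Cfsg.Agent.Lib.Helper72.HH

open Subgroup
open scoped commutatorElement

universe u

/-- the automorphisms acting trivially on a subgroup -/
def trivOn {V : Type*} [CommGroup V] (W : Subgroup V) : Subgroup (MulAut V) where
  carrier := {g | ∀ w ∈ W, g w = w}
  mul_mem' := by
    intro a b ha hb w hw
    rw [MulAut.mul_apply, hb w hw, ha w hw]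
  one_mem' := fun w _ => rfl
  inv_mem' := by
    intro a ha w hw
    have h1 := ha w hw
    calc a⁻¹ w = a⁻¹ (a w) := by rw [h1]
      _ = w := MulAut.inv_apply_self _ _ _

/-- **Coprime Hall–Higman for prime order**, abstract form. -/
theorem core (H : S3764Prop.{u}) {p q r : ℕ} (hp : p.Prime) (hq : q.Prime) (hr : r.Prime)
    (hpq : p ≠ q) (hpr : p ≠ r) (hqr : q ≠ r) :
    ∀ (n : ℕ) (V : Type u) [CommGroup V] [Finite V] (X Q : Subgroup (MulAut V)),
      Nat.card Q * Nat.card V ≤ n → (∀ v : V, v ^ p = 1) → Nat.card X = r → IsPGroup q Q →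
      X ≤ normalizer (Q : Set (MulAut V)) → ⁅Q, X⁆ ≠ ⊥ →
      (∀ v : V, (∀ x ∈ X, x v = v) → v = 1) →
      ((∀ a ∈ Q, ∀ b ∈ Q, a * b = b * a) ∨ ¬ (q = 2 ∧ ∃ k : ℕ, r = 2 ^ k + 1)) → False := by
  intro n
  induction n with
  | zero =>
    intro V _ _ X Q hn
    have h1 : 0 < Nat.card Q := Nat.card_pos
    have h2 : 0 < Nat.card V := Nat.card_pos
    have := Nat.mul_pos h1 h2
    omega
  | succ n ih =>
    intro V _ _ X Q hn hVp hX hQ hXQ hne hfix hex
    refine reduced H hp hq hr hpq hpr hqr hVp X Q hX hQ hXQ hne hfix hex ?_ ?_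
    · -- M1
      intro Q₁ hQ₁ hQ₁ne hXQ₁
      by_contra hcon
      have hlt : Nat.card Q₁ < Nat.card Q := by
        refine lt_of_le_of_ne (card_le_of_le hQ₁) ?_
        intro h
        exact hQ₁ne (eq_of_le_of_card_ge hQ₁ h.ge)
      have hmeas : Nat.card Q₁ * Nat.card V ≤ n := by
        have := Nat.mul_lt_mul_of_lt_of_le hlt (le_refl (Nat.card V)) Nat.card_pos
        omega
      refine ih V X Q₁ hmeas hVp hX (hQ.to_le hQ₁) hXQ₁ hcon hfix ?_
      rcases hex with h | h
      · exact Or.inl (fun a ha b hb => h a (hQ₁ ha) b (hQ₁ hb))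
      · exact Or.inr h
    · -- M2
      intro W hW hXW hQW
      by_contra hcon
      have hXS : X ≤ stabW W := fun x hx => mem_stabW_of_maps (hXW x hx)
      have hQS : Q ≤ stabW W := fun a ha => mem_stabW_of_maps (hQW a ha)
      obtain ⟨X', hX'def⟩ : ∃ X' : Subgroup (MulAut ↥W),
          X' = (X.subgroupOf (stabW W)).map (resW W) := ⟨_, rfl⟩
      obtain ⟨Q', hQ'def⟩ : ∃ Q' : Subgroup (MulAut ↥W),
          Q' = (Q.subgroupOf (stabW W)).map (resW W) := ⟨_, rfl⟩
      have hmemX : ∀ x (hx : x ∈ X), resW W ⟨x, hXS hx⟩ ∈ X' := by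
        intro x hx
        rw [hX'def]
        exact mem_map_of_mem _ (mem_subgroupOf.2 hx)
      have hmemQ : ∀ a (ha : a ∈ Q), resW W ⟨a, hQS ha⟩ ∈ Q' := by
        intro a ha
        rw [hQ'def]
        exact mem_map_of_mem _ (mem_subgroupOf.2 ha)
      -- the commutator is non-trivial
      have hne' : ⁅Q', X'⁆ ≠ ⊥ := by
        intro h
        apply hcon
        have hle : ⁅Q, X⁆ ≤ trivOn W := by
          rw [commutator_le]
          intro a ha x hx w hw
          have h1 : ⁅resW W ⟨a, hQS ha⟩, resW W ⟨x, hXS hx⟩⁆ ∈ ⁅Q', X'⁆ :=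
            commutator_mem_commutator (hmemQ a ha) (hmemX x hx)
          rw [h, mem_bot, ← map_commutatorElement] at h1
          have h2 := congrArg (fun f : MulAut ↥W => ((f ⟨w, hw⟩ : W) : V)) h1
          exact h2
        exact fun g hg w hw => hle hg w hw
      have hfix' : ∀ v : ↥W, (∀ x ∈ X', x v = v) → v = 1 := by
        intro v hv
        apply Subtype.ext
        apply hfix
        intro x hx
        have h1 := hv _ (hmemX x hx)
        exact congrArg Subtype.val h1
      have hcardX' : Nat.card X' = r := by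
        have h1 : Nat.card X' ∣ r := by
          rw [hX'def, ← hX, ← Nat.card_congr (subgroupOfEquivOfLe hXS).toEquiv]
          exact card_map_dvd _ _
        rcases hr.eq_one_or_self_of_dvd _ h1 with h2 | h2
        · exfalso
          have h3 : X' = ⊥ := eq_bot_of_card_eq X' h2
          apply hcon
          intro g _ w hw
          have h4 : (⟨w, hw⟩ : W) = 1 := by
            apply hfix'
            intro x hx
            rw [h3, mem_bot] at hx
            rw [hx]; rfl
          have h5 : w = 1 := congrArg Subtype.val h4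
          rw [h5, map_one]
        · exact h2
      have hQ'p : IsPGroup q Q' := by
        rw [hQ'def]
        exact (hQ.comap_subtype).map _
      have hXQ'n : X' ≤ normalizer (Q' : Set (MulAut ↥W)) := by
        rw [hX'def, hQ'def]
        exact map_le_normalizer_map _ (subgroupOf_le_normalizer _ hXQ)
      have hex' : (∀ a ∈ Q', ∀ b ∈ Q', a * b = b * a) ∨ ¬ (q = 2 ∧ ∃ k : ℕ, r = 2 ^ k + 1) := by
        rcases hex with h | h
        · left
          rw [hQ'def]
          rintro _ ⟨a, ha, rfl⟩ _ ⟨b, hb, rfl⟩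
          rw [← map_mul, ← map_mul]
          congr 1
          exact Subtype.ext (h _ (mem_subgroupOf.1 ha) _ (mem_subgroupOf.1 hb))
        · exact Or.inr h
      have hcardW : Nat.card W < Nat.card V := by
        refine lt_of_le_of_ne (card_le_card_group W) ?_
        intro h
        exact hW (eq_top_of_card_eq W h)
      have hcardQ' : Nat.card Q' ≤ Nat.card Q := by
        have h1 : Nat.card Q' ∣ Nat.card Q := by
          rw [hQ'def, ← Nat.card_congr (subgroupOfEquivOfLe hQS).toEquiv]
          exact card_map_dvd _ _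
        exact Nat.le_of_dvd Nat.card_pos h1
      have hmeas : Nat.card Q' * Nat.card W ≤ n := by
        have := Nat.mul_lt_mul_of_le_of_lt hcardQ' hcardW Nat.card_pos
        omega
      exact ih ↥W X' Q' hmeas (fun v => Subtype.ext (hVp v)) hcardX' hQ'p hXQ'n hne' hfix' hex'

end Cfsg.Agent.Lib.Helper72.HH
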