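import Mathlib
import Cfsg.Agent.Lib.Helper72.HHInd

/-! Coprime Hall–Higman reduction (helper72), part 6: the statement for subgroups of an
ambient group. -/

set_option autoImplicit false
set_option linter.style.haveILetI false

namespace Cfsg.Agent.Lib.Helper72.HH

open Subgroup
open scoped commutatorElement

universe u

/-- conjugation action of the normalizer on a subgroup -/
def conjHom {G : Type*} [Group G] (V : Subgroup G) : ↥(normalizer (V : Set G)) →* MulAut ↥V where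
  toFun g := conjEquiv V g g.2
  map_one' := by
    ext v
    simp [conjEquiv_coe]
  map_mul' := by
    intro a b
    ext v
    simp [conjEquiv_coe, mul_assoc]

theorem conjHom_apply {G : Type*} [Group G] (V : Subgroup G) (g : ↥(normalizer (V : Set G)))
    (v : V) : ((conjHom V g v : V) : G) = g * v * (g : G)⁻¹ := rfl

/-- **Coprime Hall–Higman for prime order**: if `X` of prime order `r` normalizes the `q`-group
`Q`, both normalize the elementary abelian `p`-group `V` and `[Q, X]` does not centralize `V`,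
then `C_V(X) ≠ 1` (outside the exceptional case). -/
theorem amb (H : S3764Prop.{u}) {G : Type u} [Group G] [Finite G] {p q r : ℕ}
    (hp : p.Prime) (hq : q.Prime) (hr : r.Prime) (hpq : p ≠ q) (hpr : p ≠ r) (hqr : q ≠ r)
    (X Q V : Subgroup G) (hX : Nat.card X = r) (hQ : IsPGroup q Q)
    (hXQ : X ≤ normalizer (Q : Set G)) (hV : Cfsg.IsElementaryAbelian p V)
    (hXV : X ≤ normalizer (V : Set G)) (hQV : Q ≤ normalizer (V : Set G))
    (hnc : ¬ ⁅Q, X⁆ ≤ centralizer (V : Set G))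
    (hex : (∀ a ∈ Q, ∀ b ∈ Q, a * b = b * a) ∨ ¬ (q = 2 ∧ ∃ k : ℕ, r = 2 ^ k + 1)) :
    V ⊓ centralizer (X : Set G) ≠ ⊥ := by
  intro hcon
  obtain ⟨hVc, hVp⟩ := hV
  letI : CommGroup ↥V :=
    { (inferInstance : Group ↥V) with
      mul_comm := fun a b => hVc.is_comm.comm a b }
  obtain ⟨X', hX'def⟩ : ∃ X' : Subgroup (MulAut ↥V),
      X' = (X.subgroupOf (normalizer (V : Set G))).map (conjHom V) := ⟨_, rfl⟩
  obtain ⟨Q', hQ'def⟩ : ∃ Q' : Subgroup (MulAut ↥V),
      Q' = (Q.subgroupOf (normalizer (V : Set G))).map (conjHom V) := ⟨_, rfl⟩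
  have hmemX : ∀ x (hx : x ∈ X), conjHom V ⟨x, hXV hx⟩ ∈ X' := by
    intro x hx
    rw [hX'def]
    exact mem_map_of_mem _ (mem_subgroupOf.2 hx)
  have hmemQ : ∀ a (ha : a ∈ Q), conjHom V ⟨a, hQV ha⟩ ∈ Q' := by
    intro a ha
    rw [hQ'def]
    exact mem_map_of_mem _ (mem_subgroupOf.2 ha)
  have hne' : ⁅Q', X'⁆ ≠ ⊥ := by
    intro h
    apply hnc
    rw [commutator_le]
    intro a ha x hx
    have h1 : ⁅conjHom V ⟨a, hQV ha⟩, conjHom V ⟨x, hXV hx⟩⁆ ∈ ⁅Q', X'⁆ :=
      commutator_mem_commutator (hmemQ a ha) (hmemX x hx)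
    rw [h, mem_bot, ← map_commutatorElement] at h1
    rw [mem_centralizer_iff]
    intro v hv
    have h2 := congrArg (fun f : MulAut ↥V => ((f ⟨v, hv⟩ : V) : G)) h1
    have h3 : ⁅a, x⁆ * v * ⁅a, x⁆⁻¹ = v := h2
    calc v * ⁅a, x⁆ = (⁅a, x⁆ * v * ⁅a, x⁆⁻¹) * ⁅a, x⁆ := by rw [h3]
      _ = ⁅a, x⁆ * v := by group
  have hfix' : ∀ v : ↥V, (∀ x ∈ X', x v = v) → v = 1 := by
    intro v hv
    have h1 : (v : G) ∈ V ⊓ centralizer (X : Set G) := by
      refine mem_inf.2 ⟨v.2, mem_centralizer_iff.2 ?_⟩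
      intro x hx
      have h2 := congrArg Subtype.val (hv _ (hmemX x hx))
      have h3 : x * (v : G) * x⁻¹ = v := h2
      calc x * (v : G) = (x * (v : G) * x⁻¹) * x := by group
        _ = v * x := by rw [h3]
    rw [hcon, mem_bot] at h1
    exact Subtype.ext h1
  have hcardX' : Nat.card X' = r := by
    have h1 : Nat.card X' ∣ r := by
      rw [hX'def, ← hX, ← Nat.card_congr (subgroupOfEquivOfLe hXV).toEquiv]
      exact card_map_dvd _ _
    rcases hr.eq_one_or_self_of_dvd _ h1 with h2 | h2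
    · exfalso
      have h3 : X' = ⊥ := eq_bot_of_card_eq X' h2
      apply hne'
      rw [h3]
      exact commutator_bot_right Q'
    · exact h2
  have hQ'p : IsPGroup q Q' := by
    rw [hQ'def]
    exact (hQ.comap_subtype).map _
  have hXQ'n : X' ≤ normalizer (Q' : Set (MulAut ↥V)) := by
    rw [hX'def, hQ'def]
    exact map_le_normalizer_map _ (subgroupOf_le_normalizer _ hXQ)
  have hex' : (∀ a ∈ Q', ∀ b ∈ Q', a * b = b * a) ∨ ¬ (q = 2 ∧ ∃ k : ℕ, r = 2 ^ k + 1) := by
    rcases hex with h | h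
    · left
      rw [hQ'def]
      rintro _ ⟨a, ha, rfl⟩ _ ⟨b, hb, rfl⟩
      rw [← map_mul, ← map_mul]
      congr 1
      exact Subtype.ext (h _ (mem_subgroupOf.1 ha) _ (mem_subgroupOf.1 hb))
    · exact Or.inr h
  exact core H hp hq hr hpq hpr hqr (Nat.card Q' * Nat.card V) ↥V X' Q' le_rfl
    (fun v => Subtype.ext (hVp v v.2)) hcardX' hQ'p hXQ'n hne' hfix' hex'

end Cfsg.Agent.Lib.Helper72.HH
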