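import Mathlib
import Cfsg.Agent.Lib.Helper72.HHAmb
import Cfsg.Agent.Lib.Helper1.Coprime2

/-! Consequences of the coprime Hall–Higman reduction (helper72), relative to `S3764Prop`. -/

set_option autoImplicit false
set_option linter.style.haveILetI false

namespace Cfsg.Agent.Lib.Helper72.HH

open Subgroup
open scoped commutatorElement

universe u

/-- statement S3765 relative to S3764 -/
theorem s3765_of (H : S3764Prop.{u}) {G : Type u} [Group G] [Finite G] {p q r : ℕ}
    (hp : p.Prime) (hq : q.Prime) (hr : r.Prime) (hpq : p ≠ q) (hpr : p ≠ r) (hqr : q ≠ r)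
    (X Q V : Subgroup G) (hX : Nat.card X = r) (hQ : IsPGroup q Q)
    (hXQ : X ≤ Subgroup.normalizer (Q : Set G))
    (hXfaith : X ⊓ Subgroup.centralizer (Q : Set G) = ⊥) (hV : Cfsg.IsElementaryAbelian p V)
    (hXV : X ≤ Subgroup.normalizer (V : Set G)) (hQV : Q ≤ Subgroup.normalizer (V : Set G))
    (hfaith : (X ⊔ Q) ⊓ Subgroup.centralizer (V : Set G) = ⊥)
    (hexc : q = 2 → (∃ n : ℕ, r = 2 ^ n + 1) → IsMulCommutative Q) :
    V ⊓ Subgroup.centralizer (X : Set G) ≠ ⊥ := by
  refine amb H hp hq hr hpq hpr hqr X Q V hX hQ hXQ hV hXV hQV ?_ ?_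
  · intro hle
    have h1 : ⁅Q, X⁆ ≤ (X ⊔ Q) ⊓ centralizer (V : Set G) :=
      le_inf ((commutator_le_left_of_normalizer hXQ).trans le_sup_right) hle
    rw [hfaith, le_bot_iff, commutator_eq_bot_iff_le_centralizer] at h1
    have h2 : X ≤ X ⊓ centralizer (Q : Set G) := le_inf le_rfl (le_centralizer_iff.1 h1)
    rw [hXfaith, le_bot_iff] at h2
    rw [h2, Subgroup.card_bot] at hX
    exact hr.one_lt.ne hX
  · by_cases hc : q = 2 ∧ ∃ k : ℕ, r = 2 ^ k + 1
    · left
      have hcomm := hexc hc.1 hc.2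
      intro a ha b hb
      exact congrArg Subtype.val (hcomm.is_comm.comm ⟨a, ha⟩ ⟨b, hb⟩)
    · exact Or.inr hc

theorem isSolvable_of_prime_card {G : Type*} [Group G] {r : ℕ} (hr : r.Prime) (R : Subgroup G)
    (hR : Nat.card R = r) : Group.IsSolvable R := by
  haveI : Fact r.Prime := ⟨hr⟩
  haveI : IsCyclic R := isCyclic_of_prime_card hR
  exact Group.isSolvable_of_comm (fun a b => (IsCyclic.commGroup (α := R)).mul_comm a b)

/-- a subgroup containing a Sylow subgroup for every prime is everything -/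
theorem eq_of_sylow_le {G : Type*} [Group G] [Finite G] {T K : Subgroup G} (hTK : T ≤ K)
    (h : ∀ (q : ℕ) [Fact q.Prime], ∃ P : Sylow q K, (P : Subgroup K).map K.subtype ≤ T) :
    T = K := by
  apply eq_of_le_of_card_ge hTK
  apply Nat.le_of_dvd Nat.card_pos
  have hT0 : Nat.card T ≠ 0 := Nat.card_pos.ne'
  have hK0 : Nat.card K ≠ 0 := Nat.card_pos.ne'
  rw [← Nat.factorization_prime_le_iff_dvd hK0 hT0]
  intro q hq
  haveI : Fact q.Prime := ⟨hq⟩
  obtain ⟨P, hP⟩ := h q
  have h1 : Nat.card ((P : Subgroup K).map K.subtype) ∣ Nat.card T := card_dvd_of_le hP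
  rw [card_map_of_injective K.subtype_injective, P.card_eq_multiplicity] at h1
  exact (hq.pow_dvd_iff_le_factorization hT0).1 h1

/-- the core of statement S3769 relative to S3764 -/
theorem s3769_core (H : S3764Prop.{u}) {G : Type u} [Group G] [Finite G] (K R V : Subgroup G)
    {ℓ r : ℕ} (hℓ : ℓ.Prime) (hr : r.Prime) (hR : Nat.card R = r)
    (hRK : R ≤ normalizer (K : Set G)) (hrK : ¬ r ∣ Nat.card K) (hKodd : Odd (Nat.card K))
    (hV : Cfsg.IsElementaryAbelian ℓ V) (hℓK : ¬ ℓ ∣ Nat.card K) (hℓr : ℓ ≠ r)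
    (hKV : K ≤ normalizer (V : Set G)) (hRV : R ≤ normalizer (V : Set G))
    (hCV : V ⊓ centralizer (R : Set G) = ⊥) : ⁅R, K⁆ ≤ centralizer (V : Set G) := by
  classical
  let T : Subgroup G :=
    { carrier := {k | k ∈ K ∧ ∀ x ∈ R, ⁅x, k⁆ ∈ centralizer (V : Set G)}
      mul_mem' := by
        rintro a b ⟨ha, ha'⟩ ⟨hb, hb'⟩
        refine ⟨mul_mem ha hb, fun x hx => ?_⟩
        have e : ⁅x, a * b⁆ = ⁅x, a⁆ * (a * ⁅x, b⁆ * a⁻¹) := by
          simp only [commutatorElement_def]; group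
        rw [e]
        exact mul_mem (ha' x hx)
          (conj_mem_of_mem_normalizer (mem_normalizer_centralizer (hKV ha)) (hb' x hx))
      one_mem' := ⟨one_mem _, fun x _ => by rw [commutatorElement_one_right]; exact one_mem _⟩
      inv_mem' := by
        rintro a ⟨ha, ha'⟩
        refine ⟨inv_mem ha, fun x hx => ?_⟩
        have e : ⁅x, a⁻¹⁆ = a⁻¹ * ⁅x, a⁆⁻¹ * a := by
          simp only [commutatorElement_def]; group
        rw [e]
        exact conj_mem_of_mem_normalizer' (mem_normalizer_centralizer (hKV ha))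
          (inv_mem (ha' x hx)) }
  have hTK : T ≤ K := fun k hk => hk.1
  have hcop : (Nat.card R).Coprime (Nat.card K) := by
    rw [hR]
    exact (Nat.Prime.coprime_iff_not_dvd hr).2 hrK
  have hT : T = K := by
    apply eq_of_sylow_le hTK
    intro q hqF
    have hq : q.Prime := hqF.out
    obtain ⟨P, hP⟩ := Cfsg.Agent.Lib.Helper1.exists_invariant_sylow hRK hcop
      (Or.inl (isSolvable_of_prime_card hr R hR)) q
    refine ⟨P, ?_⟩
    by_cases hqK : q ∣ Nat.card K
    · by_contra hcon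
      obtain ⟨a, ha, haT⟩ := SetLike.not_le_iff_exists.1 hcon
      have hQK : (P : Subgroup K).map K.subtype ≤ K := by
        rintro _ ⟨b, -, rfl⟩
        exact b.2
      have haK : a ∈ K := hQK ha
      have hex : ∃ x ∈ R, ⁅x, a⁆ ∉ centralizer (V : Set G) := by
        by_contra h
        push Not at h
        exact haT ⟨haK, h⟩
      obtain ⟨x, hx, hxa⟩ := hex
      have hqℓ : ℓ ≠ q := fun h => hℓK (h ▸ hqK)
      have hqr : q ≠ r := fun h => hrK (h ▸ hqK)
      have hq2 : q ≠ 2 := by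
        intro h
        rw [h] at hqK
        exact (Nat.not_even_iff_odd.2 hKodd) (even_iff_two_dvd.2 hqK)
      refine amb H hℓ hq hr hqℓ hℓr hqr R ((P : Subgroup K).map K.subtype) V hR
        (P.isPGroup'.map K.subtype) hP hV hRV (hQK.trans hKV) ?_ (Or.inr (fun h => hq2 h.1)) hCV
      intro hle
      apply hxa
      have h1 : ⁅a, x⁆ ∈ ⁅(P : Subgroup K).map K.subtype, R⁆ := commutator_mem_commutator ha hx
      have h2 := inv_mem (hle h1)
      rw [commutatorElement_inv] at h2
      exact h2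
    · have h1 : Nat.card (P : Subgroup K) = 1 := by
        rw [P.card_eq_multiplicity, Nat.factorization_eq_zero_of_not_dvd hqK, pow_zero]
      rw [eq_bot_of_card_eq _ h1, Subgroup.map_bot]
      exact bot_le
  rw [commutator_le]
  intro x hx k hk
  have hk' : k ∈ T := by rw [hT]; exact hk
  exact hk'.2 x hx

/-- statement S3769 relative to S3764 -/
theorem s3769_of (H : S3764Prop.{u}) {X : Type u} [Group X] [Finite X] (G : Subgroup X)
    (hodd : Odd (Nat.card G)) (V : Subgroup X) {ℓ : ℕ} (hℓ : ℓ.Prime)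
    (hV : Cfsg.IsElementaryAbelian ℓ V) (hℓG : ¬ ℓ ∣ Nat.card G)
    (hGV : G ≤ Subgroup.normalizer (V : Set X)) (K R : Subgroup X) (hKG : K ≤ G)
    (hKn : G ≤ Subgroup.normalizer (K : Set X))
    (hHall : (Nat.card K).Coprime (K.relIndex G)) (hRG : R ≤ G) (hR : (Nat.card R).Prime)
    (hKR : K ⊓ R = ⊥) (hCV : V ⊓ Subgroup.centralizer (R : Set X) = ⊥) :
    ⁅R, K⁆ ≤ Subgroup.centralizer (V : Set X) := by
  have hKdvd : Nat.card K ∣ Nat.card G := card_dvd_of_le hKG
  have hRdvd : Nat.card R ∣ Nat.card G := card_dvd_of_le hRG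
  have hrK : ¬ Nat.card R ∣ Nat.card K := by
    intro h
    haveI : (K.subgroupOf G).Normal := (normal_subgroupOf_iff_le_normalizer hKG).mpr hKn
    have h1 : (K.subgroupOf G).relIndex (R.subgroupOf G) ∣ (K.subgroupOf G).index :=
      relIndex_dvd_index_of_normal _ _
    rw [relIndex_subgroupOf hRG, ← inf_relIndex_right, hKR, relIndex_bot_left] at h1
    have h2 : Nat.card R ∣ K.relIndex G := h1
    have h3 := Nat.dvd_gcd h h2
    rw [Nat.Coprime.gcd_eq_one hHall] at h3
    exact hR.one_lt.ne' (Nat.dvd_one.1 h3)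
  exact s3769_core H K R V hℓ hR rfl (hRG.trans hKn) hrK (hodd.of_dvd_nat hKdvd) hV
    (fun h => hℓG (h.trans hKdvd)) (fun h => hℓG (h ▸ hRdvd)) (hKG.trans hGV) (hRG.trans hGV) hCV

end Cfsg.Agent.Lib.Helper72.HH
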