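import Mathlib
import Cfsg.Agent.Lib.Helper72.HHAmb
import Cfsg.Agent.Lib.Helper72.HHFinal
import Cfsg.Agent.Lib.Helper1.Coprime2

/-! Coprime Hall–Higman for a `q`-group acting on a `p`-group, via the Frattini quotient
(helper72). -/

set_option autoImplicit false
set_option linter.style.haveILetI false

namespace Cfsg.Agent.Lib.Helper72.HH

open Subgroup
open scoped commutatorElement

universe u

section QuotAut

variable {P : Type*} [Group P]

theorem char_map_coe (N : Subgroup P) [hN : N.Characteristic] (e : P ≃* P) :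
    N.map (e : P →* P) = N := by
  rw [← MulEquiv.toMonoidHom_eq_coe]
  exact characteristic_iff_map_eq.mp hN e

/-- automorphisms act on the quotient by a characteristic subgroup -/
def quotAut (N : Subgroup P) [hN : N.Characteristic] : MulAut P →* MulAut (P ⧸ N) where
  toFun e := QuotientGroup.congr N N e (char_map_coe N e)
  map_one' := by
    ext x
    induction x using QuotientGroup.induction_on with
    | H x => rw [QuotientGroup.congr_mk]; rfl
  map_mul' := by
    intro a b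
    ext x
    induction x using QuotientGroup.induction_on with
    | H x =>
      rw [MulAut.mul_apply, QuotientGroup.congr_mk, QuotientGroup.congr_mk,
        QuotientGroup.congr_mk]
      rfl

theorem quotAut_mk (N : Subgroup P) [hN : N.Characteristic] (e : MulAut P) (x : P) :
    quotAut N e (QuotientGroup.mk x) = QuotientGroup.mk (e x) :=
  QuotientGroup.congr_mk N N e (char_map_coe N e) x

/-- the Frattini quotient of a finite `p`-group is commutative -/
@[reducible] def fratCommGroup [Finite P] {ℓ : ℕ} [Fact ℓ.Prime] (hP : IsPGroup ℓ P) :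
    CommGroup (P ⧸ frattini P) :=
  { (inferInstance : Group (P ⧸ frattini P)) with
    mul_comm := by
      intro a b
      induction a using QuotientGroup.induction_on with
      | H a =>
        induction b using QuotientGroup.induction_on with
        | H b =>
          rw [← QuotientGroup.mk_mul, ← QuotientGroup.mk_mul, QuotientGroup.eq]
          have h := comm_mem_frattini hP b⁻¹ a⁻¹
          have e : (a * b)⁻¹ * (b * a) = b⁻¹ * a⁻¹ * b⁻¹⁻¹ * a⁻¹⁻¹ := by group
          rw [e]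
          exact h }

end QuotAut

section Act

/-- **Coprime Hall–Higman for prime order**, for an arbitrary action. -/
theorem act (H : S3764Prop.{u}) {Γ : Type*} [Group Γ] {V : Type u} [CommGroup V] [Finite V]
    (φ : Γ →* MulAut V) {p q r : ℕ} (hp : p.Prime) (hq : q.Prime) (hr : r.Prime) (hpq : p ≠ q)
    (hpr : p ≠ r) (hqr : q ≠ r) (hVp : ∀ v : V, v ^ p = 1) (X Q : Subgroup Γ)
    (hX : Nat.card X = r) (hQ : IsPGroup q Q) (hXQ : X ≤ normalizer (Q : Set Γ))
    (hfix : ∀ v : V, (∀ x ∈ X, φ x v = v) → v = 1)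
    (hex : (∀ a ∈ Q, ∀ b ∈ Q, a * b = b * a) ∨ ¬ (q = 2 ∧ ∃ k : ℕ, r = 2 ^ k + 1)) :
    ∀ g ∈ ⁅Q, X⁆, φ g = 1 := by
  by_contra hcon
  have hne' : ⁅Q.map φ, X.map φ⁆ ≠ ⊥ := by
    intro h
    apply hcon
    intro g hg
    have h1 : φ g ∈ (⁅Q, X⁆).map φ := mem_map_of_mem φ hg
    rw [map_commutator, h, mem_bot] at h1
    exact h1
  have hfix' : ∀ v : V, (∀ x ∈ X.map φ, x v = v) → v = 1 :=
    fun v hv => hfix v (fun x hx => hv _ (mem_map_of_mem φ hx))
  have hcardX' : Nat.card (X.map φ) = r := by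
    have h1 : Nat.card (X.map φ) ∣ r := hX ▸ card_map_dvd X φ
    rcases hr.eq_one_or_self_of_dvd _ h1 with h2 | h2
    · exfalso
      apply hne'
      rw [eq_bot_of_card_eq _ h2]
      exact commutator_bot_right _
    · exact h2
  have hex' : (∀ a ∈ Q.map φ, ∀ b ∈ Q.map φ, a * b = b * a) ∨
      ¬ (q = 2 ∧ ∃ k : ℕ, r = 2 ^ k + 1) := by
    rcases hex with h | h
    · left
      rintro _ ⟨a, ha, rfl⟩ _ ⟨b, hb, rfl⟩
      rw [← map_mul, ← map_mul, h a ha b hb]
    · exact Or.inr h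
  exact core H hp hq hr hpq hpr hqr (Nat.card (Q.map φ) * Nat.card V) V (X.map φ) (Q.map φ)
    le_rfl hVp hcardX' (hQ.map φ) (map_le_normalizer_map φ hXQ) hne' hfix' hex'

end Act

section NF

variable {G : Type u} [Group G] [Finite G]

/-- If `R₀` of prime order `r` normalizes the `t`-group `T` (`t` odd), both normalize the
`ℓ`-group `P`, and `C_P(R₀) = 1`, then `[T, R₀]` centralizes `P`. -/
theorem nf (H : S3764Prop.{u}) (P T R₀ : Subgroup G)
    {ℓ t r : ℕ} (hℓ : ℓ.Prime) (ht : t.Prime) (hr : r.Prime) (hℓt : ℓ ≠ t) (hℓr : ℓ ≠ r)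
    (htr : t ≠ r) (ht2 : t ≠ 2) (hR : Nat.card R₀ = r) (hT : IsPGroup t T) (hP : IsPGroup ℓ P)
    (hRT : R₀ ≤ normalizer (T : Set G)) (hTP : T ≤ normalizer (P : Set G))
    (hRP : R₀ ≤ normalizer (P : Set G)) (hfix : P ⊓ centralizer (R₀ : Set G) = ⊥) :
    ⁅T, R₀⁆ ≤ centralizer (P : Set G) := by
  classical
  haveI : Fact ℓ.Prime := ⟨hℓ⟩
  haveI : Fact t.Prime := ⟨ht⟩
  obtain ⟨Φ, hΦdef⟩ : ∃ Φ : Subgroup G, Φ = (frattini ↥P).map P.subtype := ⟨_, rfl⟩
  have hΦP : Φ ≤ P := hΦdef ▸ map_subtype_le _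
  have hΦn : normalizer (P : Set G) ≤ normalizer (Φ : Set G) := by
    rw [hΦdef]
    exact fun g hg => mem_normalizer_map_of_characteristic (frattini ↥P) hg
  have hΦcard : ∀ {m : ℕ}, m.Coprime ℓ → m.Coprime (Nat.card Φ) := by
    intro m hm
    obtain ⟨n, hn⟩ := IsPGroup.iff_card.1 (hP.to_le hΦP)
    rw [hn]
    exact Nat.Coprime.pow_right n hm
  have hmemΦ : ∀ a : ↥P, (a : G) ∈ Φ → a ∈ frattini ↥P := by
    intro a ha
    rw [hΦdef] at ha
    obtain ⟨b, hb, hba⟩ := ha
    have : b = a := Subtype.ext hba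
    rw [← this]
    exact hb
  letI : CommGroup (↥P ⧸ frattini ↥P) := fratCommGroup hP
  let φ : ↥(normalizer (P : Set G)) →* MulAut (↥P ⧸ frattini ↥P) :=
    (quotAut (frattini ↥P)).comp (conjHom P)
  have hφ : ∀ (g : ↥(normalizer (P : Set G))) (a : ↥P),
      φ g (QuotientGroup.mk a) = QuotientGroup.mk (conjHom P g a) :=
    fun g a => quotAut_mk _ _ _
  -- translation of triviality on a coset
  have htrans : ∀ (g : ↥(normalizer (P : Set G))) (a : ↥P),
      φ g (QuotientGroup.mk a) = QuotientGroup.mk a →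
      (a : G)⁻¹ * ((g : G) * a * (g : G)⁻¹) ∈ Φ := by
    intro g a h
    rw [hφ, QuotientGroup.eq] at h
    have h1 : ((a⁻¹ * conjHom P g a : ↥P) : G) ∈ Φ := by
      rw [hΦdef]
      refine ⟨a⁻¹ * conjHom P g a, ?_, rfl⟩
      have h2 := inv_mem h
      have e : ((conjHom P g a)⁻¹ * a)⁻¹ = a⁻¹ * conjHom P g a := by group
      rw [e] at h2
      exact h2
    exact h1
  have hVp : ∀ v : ↥P ⧸ frattini ↥P, v ^ ℓ = 1 := by
    intro v
    induction v using QuotientGroup.induction_on with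
    | H a =>
      rw [← QuotientGroup.mk_pow, QuotientGroup.eq_one_iff]
      exact pow_mem_frattini hP a
  have hsolvR : Group.IsSolvable ↥R₀ := isSolvable_of_prime_card hr R₀ hR
  have hfixV : ∀ v : ↥P ⧸ frattini ↥P,
      (∀ x ∈ R₀.subgroupOf (normalizer (P : Set G)), φ x v = v) → v = 1 := by
    intro v
    induction v using QuotientGroup.induction_on with
    | H a =>
      intro hv
      have hx : ∀ x ∈ R₀, (a : G)⁻¹ * (x * a * x⁻¹) ∈ Φ := by
        intro x hx
        exact htrans ⟨x, hRP hx⟩ a (hv ⟨x, hRP hx⟩ (mem_subgroupOf.2 hx))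
      obtain ⟨d, hd, hc⟩ := Cfsg.Agent.Lib.Helper1.coprime_coset_fixed (hRP.trans hΦn)
        (hΦcard (by rw [hR]; exact (Nat.coprime_primes hr hℓ).2 hℓr.symm))
        (Or.inl hsolvR) (a : G) hx
      have h1 : (a : G) * d ∈ P ⊓ centralizer (R₀ : Set G) :=
        mem_inf.2 ⟨mul_mem a.2 (hΦP hd), hc⟩
      rw [hfix, mem_bot] at h1
      have h2 : (a : G) = d⁻¹ := eq_inv_of_mul_eq_one_left h1
      rw [QuotientGroup.eq_one_iff]
      apply hmemΦ
      rw [h2]
      exact inv_mem hd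
  have hact := act H φ hℓ ht hr hℓt hℓr htr hVp (R₀.subgroupOf (normalizer (P : Set G)))
    (T.subgroupOf (normalizer (P : Set G)))
    (by rw [Nat.card_congr (subgroupOfEquivOfLe hRP).toEquiv, hR]) hT.comap_subtype
    (subgroupOf_le_normalizer _ hRT) hfixV (Or.inr (fun h => ht2 h.1))
  obtain ⟨D, hDdef⟩ : ∃ D : Subgroup G, D = ⁅T, R₀⁆ := ⟨_, rfl⟩
  rw [← hDdef]
  have hDT : D ≤ T := hDdef ▸ commutator_le_left_of_normalizer hRT
  have hDP : D ≤ normalizer (P : Set G) := hDT.trans hTP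
  have hmap : (⁅T.subgroupOf (normalizer (P : Set G)),
      R₀.subgroupOf (normalizer (P : Set G))⁆).map (normalizer (P : Set G)).subtype = D := by
    rw [map_commutator, map_subgroupOf_eq_of_le hTP, map_subgroupOf_eq_of_le hRP, hDdef]
  have hDtriv : ∀ d ∈ D, ∀ a ∈ P, a⁻¹ * (d * a * d⁻¹) ∈ Φ := by
    intro d hd a ha
    rw [← hmap] at hd
    obtain ⟨g, hg, rfl⟩ := hd
    have h1 := hact g hg
    have h2 : φ g (QuotientGroup.mk (⟨a, ha⟩ : ↥P)) = QuotientGroup.mk (⟨a, ha⟩ : ↥P) := by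
      rw [h1]; rfl
    exact htrans g ⟨a, ha⟩ h2
  haveI : Group.IsNilpotent ↥D := (hT.to_le hDT).isNilpotent
  have hcopD : (Nat.card D).Coprime (Nat.card Φ) := by
    apply hΦcard
    obtain ⟨k, hk⟩ := IsPGroup.iff_card.1 (hT.to_le hDT)
    rw [hk]
    exact Nat.Coprime.pow_left k ((Nat.coprime_primes ht hℓ).2 hℓt.symm)
  have hgen : ((P ⊓ centralizer (D : Set G)).subgroupOf P) ⊔ frattini ↥P = ⊤ := by
    rw [eq_top_iff]
    intro a _
    obtain ⟨c, hc, hac⟩ := Cfsg.Agent.Lib.Helper1.coprime_coset_fixed (hDP.trans hΦn) hcopD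
      (Or.inl inferInstance) (a : G) (fun d hd => hDtriv d hd a a.2)
    rw [hΦdef] at hc
    obtain ⟨c', hc', rfl⟩ := hc
    have e : a = (a * c') * c'⁻¹ := by group
    rw [e]
    refine mul_mem_sup ?_ (inv_mem hc')
    rw [mem_subgroupOf]
    exact mem_inf.2 ⟨(a * c').2, hac⟩
  have htop := frattini_nongenerating hgen
  rw [le_centralizer_iff]
  intro a ha
  have h1 : (⟨a, ha⟩ : ↥P) ∈ (P ⊓ centralizer (D : Set G)).subgroupOf P := by
    rw [htop]; exact mem_top _
  rw [mem_subgroupOf] at h1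
  exact (mem_inf.1 h1).2

end NF

end Cfsg.Agent.Lib.Helper72.HH
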