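import Mathlib
import Cfsg.Agent.Lib.Helper72.HHAmb
import Cfsg.Agent.Lib.Helper1.Coprime2

/-! Trace arguments for coprime actions on abelian subgroups of an ambient group (helper72). -/

set_option autoImplicit false
set_option linter.style.haveILetI false
set_option linter.unusedSectionVars false

namespace Cfsg.Agent.Lib.Helper72.ZG

open Subgroup
open scoped commutatorElement Pointwise

section NormH

variable {Γ : Type*} [Group Γ] [Fintype Γ] {V : Type*} [CommGroup V]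

/-- the trace of a finite group action on an abelian group -/
noncomputable def nrmH (φ : Γ →* MulAut V) : V →* V where
  toFun v := ∏ g : Γ, φ g v
  map_one' := Finset.prod_eq_one (fun g _ => map_one _)
  map_mul' v w := by
    rw [← Finset.prod_mul_distrib]
    exact Finset.prod_congr rfl (fun g _ => map_mul _ _ _)

theorem nrmH_apply (φ : Γ →* MulAut V) (v : V) : nrmH φ v = ∏ g : Γ, φ g v := rfl

theorem nrmH_fixed (φ : Γ →* MulAut V) (h : Γ) (v : V) : φ h (nrmH φ v) = nrmH φ v := by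
  rw [nrmH_apply, map_prod]
  refine Fintype.prod_equiv (Equiv.mulLeft h) _ _ (fun g => ?_)
  rw [Equiv.coe_mulLeft, map_mul, MulAut.mul_apply]

theorem nrmH_smul (φ : Γ →* MulAut V) (h : Γ) (v : V) : nrmH φ (φ h v) = nrmH φ v := by
  rw [nrmH_apply, nrmH_apply]
  refine Fintype.prod_equiv (Equiv.mulRight h) _ _ (fun g => ?_)
  rw [Equiv.coe_mulRight, map_mul, MulAut.mul_apply]

theorem nrmH_comm (φ : Γ →* MulAut V) {k : MulAut V} (hk : ∀ g : Γ, k * φ g = φ g * k) (v : V) :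
    nrmH φ (k v) = k (nrmH φ v) := by
  rw [nrmH_apply, nrmH_apply, map_prod]
  refine Finset.prod_congr rfl (fun g _ => ?_)
  have := congrArg (fun e : MulAut V => e v) (hk g)
  simpa [MulAut.mul_apply] using this.symm

theorem nrmH_of_fixed (φ : Γ →* MulAut V) {v : V} (hv : ∀ g : Γ, φ g v = v) :
    nrmH φ v = v ^ Nat.card Γ := by
  rw [nrmH_apply, Finset.prod_congr rfl (fun g _ => hv g), Finset.prod_const, Finset.card_univ,
    Nat.card_eq_fintype_card]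

end NormH

section Amb

variable {G : Type*} [Group G]

theorem eq_one_of_pow_of_pow {x : G} {m n : ℕ} (hcop : m.Coprime n) (hm : x ^ m = 1)
    (hn : x ^ n = 1) : x = 1 := by
  have h1 := Nat.dvd_gcd (orderOf_dvd_of_pow_eq_one hm) (orderOf_dvd_of_pow_eq_one hn)
  rw [Nat.Coprime.gcd_eq_one hcop] at h1
  exact orderOf_eq_one_iff.mp (Nat.dvd_one.mp h1)

theorem pow_card_of_mem {X : Subgroup G} [Finite X] {x : G} (hx : x ∈ X) :
    x ^ Nat.card X = 1 := by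
  have h := pow_card_eq_one' (G := ↥X) (x := ⟨x, hx⟩)
  exact congrArg Subtype.val h

theorem mem_centralizer_iff_conj {B : Subgroup G} {y : G} :
    y ∈ centralizer (B : Set G) ↔ ∀ b ∈ B, b * y * b⁻¹ = y := by
  rw [mem_centralizer_iff]
  constructor
  · intro h b hb
    rw [h b hb]; group
  · intro h b hb
    have := h b hb
    calc b * y = (b * y * b⁻¹) * b := by group
      _ = y * b := by rw [this]

/-- a subgroup containing a nontrivial element of a group of prime order contains the group -/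
theorem le_of_prime_card {R₀ X : Subgroup G} (hr : (Nat.card R₀).Prime) {ρ : G} (hρ : ρ ∈ R₀)
    (hρ1 : ρ ≠ 1) (hρX : ρ ∈ X) : R₀ ≤ X := by
  haveI : Finite ↥R₀ := Nat.finite_of_card_ne_zero hr.ne_zero
  have h1 : Nat.card (R₀ ⊓ X : Subgroup G) ∣ Nat.card R₀ := card_dvd_of_le inf_le_left
  rcases (Nat.dvd_prime hr).1 h1 with h2 | h2
  · exfalso
    have h3 : (R₀ ⊓ X : Subgroup G) = ⊥ := eq_bot_of_card_eq _ h2
    have h4 : ρ ∈ (R₀ ⊓ X : Subgroup G) := mem_inf.2 ⟨hρ, hρX⟩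
    rw [h3, mem_bot] at h4
    exact hρ1 h4
  · have h3 : (R₀ ⊓ X : Subgroup G) = R₀ := eq_of_le_of_card_ge inf_le_left h2.ge
    rw [← h3]
    exact inf_le_right

theorem mem_centralizer_sup {B B' : Subgroup G} {y : G} (h1 : y ∈ centralizer (B : Set G))
    (h2 : y ∈ centralizer (B' : Set G)) : y ∈ centralizer ((B ⊔ B' : Subgroup G) : Set G) := by
  have hB : B ≤ centralizer ((zpowers y : Subgroup G) : Set G) := by
    rw [le_centralizer_iff, zpowers_le]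
    exact h1
  have hB' : B' ≤ centralizer ((zpowers y : Subgroup G) : Set G) := by
    rw [le_centralizer_iff, zpowers_le]
    exact h2
  have h3 := sup_le hB hB'
  rw [le_centralizer_iff, zpowers_le] at h3
  exact h3

theorem conj_mem_centralizer_conj {B : Subgroup G} {y : G} (ρ : G)
    (hy : y ∈ centralizer (B : Set G)) :
    ρ * y * ρ⁻¹ ∈ centralizer ((MulAut.conj ρ • B : Subgroup G) : Set G) := by
  rw [mem_centralizer_iff]
  intro h hh
  have hh' : ρ⁻¹ * h * ρ ∈ B := (Cfsg.Agent.Lib.Helper1.mem_conj_smul_iff ρ h B).1 hh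
  have h1 := (mem_centralizer_iff.1 hy) _ hh'
  calc h * (ρ * y * ρ⁻¹) = ρ * ((ρ⁻¹ * h * ρ) * y) * ρ⁻¹ := by group
    _ = ρ * (y * (ρ⁻¹ * h * ρ)) * ρ⁻¹ := by rw [h1]
    _ = ρ * y * ρ⁻¹ * h := by group

theorem conj_smul_le_normalizer {Y B : Subgroup G} {ρ : G} (hρ : ρ ∈ normalizer (Y : Set G))
    (hB : B ≤ normalizer (Y : Set G)) :
    (MulAut.conj ρ • B : Subgroup G) ≤ normalizer (Y : Set G) := by
  intro x hx
  have hx' : ρ⁻¹ * x * ρ ∈ B := (Cfsg.Agent.Lib.Helper1.mem_conj_smul_iff ρ x B).1 hx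
  have h1 := mul_mem (mul_mem hρ (hB hx')) (inv_mem hρ)
  have e : ρ * (ρ⁻¹ * x * ρ) * ρ⁻¹ = x := by group
  rwa [e] at h1

/-- a commutative group structure on an abelian subgroup -/
@[reducible] def commGroupOf (Y : Subgroup G) (hYc : ∀ a ∈ Y, ∀ b ∈ Y, a * b = b * a) :
    CommGroup ↥Y :=
  { (inferInstance : Group ↥Y) with
    mul_comm := fun a b => Subtype.ext (hYc a a.2 b b.2) }

/-- the conjugation action of a subgroup of the normalizer -/
def cj (Y B : Subgroup G) (hB : B ≤ normalizer (Y : Set G)) : ↥B →* MulAut ↥Y :=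
  (HH.conjHom Y).comp (Subgroup.inclusion hB)

theorem cj_coe (Y B : Subgroup G) (hB : B ≤ normalizer (Y : Set G)) (b : ↥B) (y : ↥Y) :
    ((cj Y B hB b y : ↥Y) : G) = b * y * (b : G)⁻¹ := rfl

end Amb

section Fin

variable {G : Type*} [Group G] [Finite G]

theorem exists_ne_one_of_ne_bot {H : Subgroup G} (h : H ≠ ⊥) : ∃ x ∈ H, x ≠ 1 :=
  H.bot_or_exists_ne_one.resolve_left h

/-- **(D1)** coprime action on an abelian group: `C_Y(B) ∩ [Y, B] = 1` -/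
theorem cent_inf_commutator {Y B : Subgroup G} (hYc : ∀ a ∈ Y, ∀ b ∈ Y, a * b = b * a)
    (hB : B ≤ normalizer (Y : Set G)) (hcop : (Nat.card B).Coprime (Nat.card Y)) :
    Y ⊓ centralizer (B : Set G) ⊓ ⁅Y, B⁆ = ⊥ := by
  classical
  letI := commGroupOf Y hYc
  haveI : Fintype ↥B := Fintype.ofFinite _
  rw [eq_bot_iff]
  intro y hy
  obtain ⟨hy1, hyD⟩ := mem_inf.1 hy
  obtain ⟨hyY, hyC⟩ := mem_inf.1 hy1
  have hker : ⁅Y, B⁆ ≤ (nrmH (cj Y B hB)).ker.map Y.subtype := by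
    rw [commutator_le]
    intro a ha b hb
    have hb' : b * a⁻¹ * b⁻¹ ∈ Y := HH.conj_mem_of_mem_normalizer (hB hb) (inv_mem ha)
    refine ⟨⟨a, ha⟩ * ⟨b * a⁻¹ * b⁻¹, hb'⟩, ?_, ?_⟩
    · show nrmH (cj Y B hB) (⟨a, ha⟩ * ⟨b * a⁻¹ * b⁻¹, hb'⟩) = 1
      rw [map_mul]
      have e : (⟨b * a⁻¹ * b⁻¹, hb'⟩ : ↥Y) = cj Y B hB ⟨b, hb⟩ (⟨a, ha⟩ : ↥Y)⁻¹ := Subtype.ext rfl
      rw [e, nrmH_smul, map_inv, mul_inv_cancel]
    · show a * (b * a⁻¹ * b⁻¹) = ⁅a, b⁆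
      rw [commutatorElement_def]; group
  obtain ⟨z, hz, hzy⟩ := hker hyD
  have hz' : z = ⟨y, hyY⟩ := Subtype.ext hzy
  rw [hz'] at hz
  have h1 : nrmH (cj Y B hB) ⟨y, hyY⟩ = 1 := hz
  have h2 : nrmH (cj Y B hB) ⟨y, hyY⟩ = (⟨y, hyY⟩ : ↥Y) ^ Nat.card B := by
    apply nrmH_of_fixed
    intro b
    apply Subtype.ext
    rw [cj_coe]
    exact (mem_centralizer_iff_conj.1 hyC) b b.2
  rw [h2] at h1
  have h3 : y ^ Nat.card B = 1 := congrArg Subtype.val h1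
  rw [mem_bot]
  exact eq_one_of_pow_of_pow hcop h3 (pow_card_of_mem hyY)

/-- **(D2)** coprime action on an abelian group: `Y = C_Y(B) [Y, B]` -/
theorem le_cent_sup_commutator {Y B : Subgroup G} (hYc : ∀ a ∈ Y, ∀ b ∈ Y, a * b = b * a)
    (hB : B ≤ normalizer (Y : Set G)) (hcop : (Nat.card B).Coprime (Nat.card Y)) :
    ∀ y ∈ Y, ∃ c ∈ Y ⊓ centralizer (B : Set G), ∃ d ∈ ⁅Y, B⁆, y = c * d := by
  intro y hy
  have hDY : ⁅Y, B⁆ ≤ Y := HH.commutator_le_left_of_normalizer hB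
  have hsolv : Group.IsSolvable ↥(⁅Y, B⁆ : Subgroup G) :=
    Group.isSolvable_of_comm (fun a b => Subtype.ext (hYc a (hDY a.2) b (hDY b.2)))
  obtain ⟨d, hd, hc⟩ := Cfsg.Agent.Lib.Helper1.coprime_coset_fixed (A := B) (D := ⁅Y, B⁆)
    (normalizer_commutator_ge_right Y B)
    (Nat.Coprime.coprime_dvd_right (card_dvd_of_le hDY) hcop) (Or.inr hsolv) y (by
      intro a ha
      have h1 := commutator_mem_commutator (inv_mem hy) ha
      have e : y⁻¹ * (a * y * a⁻¹) = ⁅y⁻¹, a⁆ := by rw [commutatorElement_def]; group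
      rw [e]
      exact h1)
  exact ⟨y * d, mem_inf.2 ⟨mul_mem hy (hDY hd), hc⟩, d⁻¹, inv_mem hd, by group⟩

/-- **(F)** an element of a coprime group centralizing `[V, A]` centralizes `V` -/
theorem centralizes_of_centralizes_commutator {V A : Subgroup G}
    (hVc : ∀ a ∈ V, ∀ b ∈ V, a * b = b * a) (hA : A ≤ normalizer (V : Set G))
    (hcop : (Nat.card A).Coprime (Nat.card V)) {x : G} (hx : x ∈ A)
    (hxc : x ∈ centralizer ((⁅V, A⁆ : Subgroup G) : Set G)) : x ∈ centralizer (V : Set G) := by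
  rw [mem_centralizer_iff]
  intro v hv
  obtain ⟨c, hc, d, hd, rfl⟩ := le_cent_sup_commutator hVc hA hcop v hv
  have h1 : x * c = c * x := (mem_centralizer_iff.1 (mem_inf.1 hc).2) x hx
  have h2 : d * x = x * d := (mem_centralizer_iff.1 hxc) d hd
  calc c * d * x = c * (d * x) := by group
    _ = c * (x * d) := by rw [h2]
    _ = (c * x) * d := by group
    _ = x * c * d := by rw [h1]
    _ = x * (c * d) := by group

/-- the `B`-trace kills `C_Y(C)` when `B` and `C` commute and have no common fixed points -/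
theorem trace_kill {Y B C : Subgroup G} (hYc : ∀ a ∈ Y, ∀ b ∈ Y, a * b = b * a)
    (hB : B ≤ normalizer (Y : Set G)) (hC : C ≤ normalizer (Y : Set G)) [Fintype ↥B]
    (hBC : ∀ b ∈ B, ∀ c ∈ C, b * c = c * b)
    (hfix : Y ⊓ centralizer (B : Set G) ⊓ centralizer (C : Set G) = ⊥)
    (v : ↥Y) (hv : (v : G) ∈ centralizer (C : Set G)) :
    letI := commGroupOf Y hYc
    nrmH (cj Y B hB) v = 1 := by
  letI := commGroupOf Y hYc
  have h1 : ((nrmH (cj Y B hB) v : ↥Y) : G) ∈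
      Y ⊓ centralizer (B : Set G) ⊓ centralizer (C : Set G) := by
    refine mem_inf.2 ⟨mem_inf.2 ⟨(nrmH (cj Y B hB) v).2, ?_⟩, ?_⟩
    · rw [mem_centralizer_iff_conj]
      intro b hb
      exact congrArg Subtype.val (nrmH_fixed (cj Y B hB) ⟨b, hb⟩ v)
    · rw [mem_centralizer_iff_conj]
      intro c hc
      have hk : ∀ g : ↥B, cj Y C hC ⟨c, hc⟩ * cj Y B hB g = cj Y B hB g * cj Y C hC ⟨c, hc⟩ := by
        intro g
        ext y
        show c * ((g : G) * y * (g : G)⁻¹) * c⁻¹ = (g : G) * (c * y * c⁻¹) * (g : G)⁻¹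
        have hgc : (g : G) * c = c * g := hBC g g.2 c hc
        calc c * ((g : G) * y * (g : G)⁻¹) * c⁻¹ = (c * g) * y * (c * g)⁻¹ := by group
          _ = ((g : G) * c) * y * ((g : G) * c)⁻¹ := by rw [hgc]
          _ = (g : G) * (c * y * c⁻¹) * (g : G)⁻¹ := by group
      have h2 := nrmH_comm (cj Y B hB) hk v
      have h3 : cj Y C hC ⟨c, hc⟩ v = v :=
        Subtype.ext (by rw [cj_coe]; exact (mem_centralizer_iff_conj.1 hv) c hc)
      rw [h3] at h2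
      exact (congrArg Subtype.val h2).symm
  rw [hfix, mem_bot] at h1
  exact Subtype.ext h1

/-- the `R₀`-trace is injective on `C_Y(B)` when the `R₀`-conjugates of `B` are independent -/
theorem trace_inj {Y B R₀ : Subgroup G} {p : ℕ} (hYc : ∀ a ∈ Y, ∀ b ∈ Y, a * b = b * a)
    (hYp : ∀ y ∈ Y, y ^ p = 1) (hB : B ≤ normalizer (Y : Set G))
    (hR : R₀ ≤ normalizer (Y : Set G)) [Fintype ↥B] [Fintype ↥R₀]
    (hBp : (Nat.card B).Coprime p)
    (hind : ∀ ρ ∈ R₀, ρ ≠ 1 →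
      (∀ b ∈ B, ∀ c ∈ (MulAut.conj ρ • B : Subgroup G), b * c = c * b) ∧
      Y ⊓ centralizer (B : Set G) ⊓
        centralizer ((MulAut.conj ρ • B : Subgroup G) : Set G) = ⊥)
    (y : ↥Y) (hy : (y : G) ∈ centralizer (B : Set G)) :
    letI := commGroupOf Y hYc
    nrmH (cj Y R₀ hR) y = 1 → y = 1 := by
  classical
  letI := commGroupOf Y hYc
  intro hτ
  have h1 : nrmH (cj Y B hB) (nrmH (cj Y R₀ hR) y) = 1 := by rw [hτ, map_one]
  rw [nrmH_apply (cj Y R₀ hR), map_prod, Fintype.prod_eq_single (1 : ↥R₀)] at h1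
  · rw [map_one, MulAut.one_apply] at h1
    have h2 : nrmH (cj Y B hB) y = y ^ Nat.card B := by
      apply nrmH_of_fixed
      intro b
      apply Subtype.ext
      rw [cj_coe]
      exact (mem_centralizer_iff_conj.1 hy) b b.2
    rw [h2] at h1
    have h3 : (y : G) ^ Nat.card B = 1 := congrArg Subtype.val h1
    exact Subtype.ext (eq_one_of_pow_of_pow hBp h3 (hYp y y.2))
  · intro ρ hρ
    have hρ1 : (ρ : G) ≠ 1 := fun h => hρ (Subtype.ext h)
    obtain ⟨hc, hf⟩ := hind ρ ρ.2 hρ1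
    exact trace_kill hYc hB (conj_smul_le_normalizer (hR ρ.2) hB) hc hf _
      (conj_mem_centralizer_conj (ρ : G) hy)

/-- **(I1')** `C_Y(B)` is cyclic when the `R₀`-conjugates of `B` are independent and
`C_Y(R₀)` is cyclic -/
theorem cyc_of_indep {Y B R₀ : Subgroup G} {p : ℕ} (hYc : ∀ a ∈ Y, ∀ b ∈ Y, a * b = b * a)
    (hYp : ∀ y ∈ Y, y ^ p = 1) (hB : B ≤ normalizer (Y : Set G))
    (hR : R₀ ≤ normalizer (Y : Set G)) (hBp : (Nat.card B).Coprime p)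
    (hind : ∀ ρ ∈ R₀, ρ ≠ 1 →
      (∀ b ∈ B, ∀ c ∈ (MulAut.conj ρ • B : Subgroup G), b * c = c * b) ∧
      Y ⊓ centralizer (B : Set G) ⊓
        centralizer ((MulAut.conj ρ • B : Subgroup G) : Set G) = ⊥)
    (hcyc : ∀ x ∈ Y ⊓ centralizer (R₀ : Set G), ∀ y ∈ Y ⊓ centralizer (R₀ : Set G), x ≠ 1 →
      ∃ k : ℕ, y = x ^ k) :
    ∀ x ∈ Y ⊓ centralizer (B : Set G), ∀ y ∈ Y ⊓ centralizer (B : Set G), x ≠ 1 →
      ∃ k : ℕ, y = x ^ k := by
  classical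
  letI := commGroupOf Y hYc
  haveI : Fintype ↥B := Fintype.ofFinite _
  haveI : Fintype ↥R₀ := Fintype.ofFinite _
  have hinj : ∀ y : ↥Y, (y : G) ∈ centralizer (B : Set G) → nrmH (cj Y R₀ hR) y = 1 → y = 1 :=
    fun y hy => trace_inj hYc hYp hB hR hBp hind y hy
  intro x hx y hy hx1
  obtain ⟨hxY, hxB⟩ := mem_inf.1 hx
  obtain ⟨hyY, hyB⟩ := mem_inf.1 hy
  have hfix : ∀ w : ↥Y, ((nrmH (cj Y R₀ hR) w : ↥Y) : G) ∈ Y ⊓ centralizer (R₀ : Set G) := by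
    intro w
    refine mem_inf.2 ⟨(nrmH (cj Y R₀ hR) w).2, mem_centralizer_iff_conj.2 ?_⟩
    intro b hb
    exact congrArg Subtype.val (nrmH_fixed (cj Y R₀ hR) ⟨b, hb⟩ w)
  have hτx : ((nrmH (cj Y R₀ hR) ⟨x, hxY⟩ : ↥Y) : G) ≠ 1 := by
    intro h
    have := hinj ⟨x, hxY⟩ hxB (Subtype.ext h)
    exact hx1 (congrArg Subtype.val this)
  obtain ⟨k, hk⟩ := hcyc _ (hfix ⟨x, hxY⟩) _ (hfix ⟨y, hyY⟩) hτx
  refine ⟨k, ?_⟩
  have h1 : nrmH (cj Y R₀ hR) (⟨y, hyY⟩ * (⟨x, hxY⟩ ^ k)⁻¹) = 1 := by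
    rw [map_mul, map_inv, map_pow]
    have : nrmH (cj Y R₀ hR) ⟨y, hyY⟩ = nrmH (cj Y R₀ hR) ⟨x, hxY⟩ ^ k := Subtype.ext hk
    rw [this, mul_inv_cancel]
  have h2 := hinj _ (by
    show y * (x ^ k)⁻¹ ∈ centralizer (B : Set G)
    exact mul_mem hyB (inv_mem (pow_mem hxB k))) h1
  have h3 : y * (x ^ k)⁻¹ = 1 := congrArg Subtype.val h2
  exact mul_inv_eq_one.1 h3

/-- **(I2')** two independent families of conjugates cannot both have fixed points when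
`C_Y(R₀)` is cyclic -/
theorem indep_orbits {Y B B' R₀ : Subgroup G} {p : ℕ} (hYc : ∀ a ∈ Y, ∀ b ∈ Y, a * b = b * a)
    (hYp : ∀ y ∈ Y, y ^ p = 1) (hB : B ≤ normalizer (Y : Set G))
    (hB' : B' ≤ normalizer (Y : Set G)) (hR : R₀ ≤ normalizer (Y : Set G))
    (hBp : (Nat.card B).Coprime p) (hB'p : (Nat.card B').Coprime p)
    (hself : ∀ ρ ∈ R₀, ρ ≠ 1 →
      (∀ b ∈ B, ∀ c ∈ (MulAut.conj ρ • B : Subgroup G), b * c = c * b) ∧
      Y ⊓ centralizer (B : Set G) ⊓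
        centralizer ((MulAut.conj ρ • B : Subgroup G) : Set G) = ⊥)
    (hself' : ∀ ρ ∈ R₀, ρ ≠ 1 →
      (∀ b ∈ B', ∀ c ∈ (MulAut.conj ρ • B' : Subgroup G), b * c = c * b) ∧
      Y ⊓ centralizer (B' : Set G) ⊓
        centralizer ((MulAut.conj ρ • B' : Subgroup G) : Set G) = ⊥)
    (hother : ∀ ρ ∈ R₀,
      (∀ b ∈ B', ∀ c ∈ (MulAut.conj ρ • B : Subgroup G), b * c = c * b) ∧
      Y ⊓ centralizer (B' : Set G) ⊓
        centralizer ((MulAut.conj ρ • B : Subgroup G) : Set G) = ⊥)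
    (hcyc : ∀ x ∈ Y ⊓ centralizer (R₀ : Set G), ∀ y ∈ Y ⊓ centralizer (R₀ : Set G), x ≠ 1 →
      ∃ k : ℕ, y = x ^ k)
    (hx : Y ⊓ centralizer (B : Set G) ≠ ⊥) : Y ⊓ centralizer (B' : Set G) = ⊥ := by
  classical
  letI := commGroupOf Y hYc
  haveI : Fintype ↥B := Fintype.ofFinite _
  haveI : Fintype ↥B' := Fintype.ofFinite _
  haveI : Fintype ↥R₀ := Fintype.ofFinite _
  have hinj : ∀ y : ↥Y, (y : G) ∈ centralizer (B : Set G) → nrmH (cj Y R₀ hR) y = 1 → y = 1 :=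
    fun y hy => trace_inj hYc hYp hB hR hBp hself y hy
  rw [eq_bot_iff]
  intro y hy
  obtain ⟨hyY, hyB'⟩ := mem_inf.1 hy
  obtain ⟨x, hxm, hx1⟩ := exists_ne_one_of_ne_bot hx
  obtain ⟨hxY, hxB⟩ := mem_inf.1 hxm
  have hfix : ∀ w : ↥Y, ((nrmH (cj Y R₀ hR) w : ↥Y) : G) ∈ Y ⊓ centralizer (R₀ : Set G) := by
    intro w
    refine mem_inf.2 ⟨(nrmH (cj Y R₀ hR) w).2, mem_centralizer_iff_conj.2 ?_⟩
    intro b hb
    exact congrArg Subtype.val (nrmH_fixed (cj Y R₀ hR) ⟨b, hb⟩ w)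
  have hτx : ((nrmH (cj Y R₀ hR) ⟨x, hxY⟩ : ↥Y) : G) ≠ 1 := by
    intro h
    have := hinj ⟨x, hxY⟩ hxB (Subtype.ext h)
    exact hx1 (congrArg Subtype.val this)
  obtain ⟨k, hk⟩ := hcyc _ (hfix ⟨x, hxY⟩) _ (hfix ⟨y, hyY⟩) hτx
  have h1 : nrmH (cj Y R₀ hR) (⟨y, hyY⟩ * (⟨x, hxY⟩ ^ k)⁻¹) = 1 := by
    rw [map_mul, map_inv, map_pow]
    have : nrmH (cj Y R₀ hR) ⟨y, hyY⟩ = nrmH (cj Y R₀ hR) ⟨x, hxY⟩ ^ k := Subtype.ext hk
    rw [this, mul_inv_cancel]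
  have h2 : nrmH (cj Y B' hB') (nrmH (cj Y R₀ hR) (⟨y, hyY⟩ * (⟨x, hxY⟩ ^ k)⁻¹)) = 1 := by
    rw [h1, map_one]
  rw [nrmH_apply (cj Y R₀ hR), map_prod] at h2
  have h3 : ∀ ρ : ↥R₀, nrmH (cj Y B' hB') (cj Y R₀ hR ρ (⟨y, hyY⟩ * (⟨x, hxY⟩ ^ k)⁻¹))
      = nrmH (cj Y B' hB') (cj Y R₀ hR ρ ⟨y, hyY⟩) := by
    intro ρ
    rw [map_mul, map_inv, map_pow, map_mul, map_inv, map_pow]
    have h4 : nrmH (cj Y B' hB') (cj Y R₀ hR ρ ⟨x, hxY⟩) = 1 :=
      trace_kill hYc hB' (conj_smul_le_normalizer (hR ρ.2) hB) (hother ρ ρ.2).1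
        (hother ρ ρ.2).2 _ (conj_mem_centralizer_conj (ρ : G) hxB)
    rw [h4, one_pow, inv_one, mul_one]
  rw [Finset.prod_congr rfl (fun ρ _ => h3 ρ), Fintype.prod_eq_single (1 : ↥R₀)] at h2
  · rw [map_one, MulAut.one_apply] at h2
    have h5 : nrmH (cj Y B' hB') ⟨y, hyY⟩ = (⟨y, hyY⟩ : ↥Y) ^ Nat.card B' := by
      apply nrmH_of_fixed
      intro b
      apply Subtype.ext
      rw [cj_coe]
      exact (mem_centralizer_iff_conj.1 hyB') b b.2
    rw [h5] at h2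
    have h6 : y ^ Nat.card B' = 1 := congrArg Subtype.val h2
    rw [mem_bot]
    exact eq_one_of_pow_of_pow hB'p h6 (hYp y hyY)
  · intro ρ hρ
    have hρ1 : (ρ : G) ≠ 1 := fun h => hρ (Subtype.ext h)
    obtain ⟨hc, hf⟩ := hself' ρ ρ.2 hρ1
    exact trace_kill hYc hB' (conj_smul_le_normalizer (hR ρ.2) hB') hc hf _
      (conj_mem_centralizer_conj (ρ : G) hyB')

omit [Finite G] in
/-- **(Cyc)** a `p`-element normalizing a cyclic group of exponent `p` centralizes it -/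
theorem centralizes_of_cyc {X : Subgroup G} {p : ℕ} [hp : Fact p.Prime]
    (hXp : ∀ x ∈ X, x ^ p = 1)
    (hcyc : ∀ x ∈ X, ∀ y ∈ X, x ≠ 1 → ∃ k : ℕ, y = x ^ k) {s : G}
    (hs : s ∈ normalizer (X : Set G)) {n : ℕ} (hsn : s ^ (p ^ n) = 1) :
    s ∈ centralizer (X : Set G) := by
  rw [mem_centralizer_iff]
  intro x hx
  by_cases hx1 : x = 1
  · rw [hx1]; simp
  obtain ⟨k, hk⟩ := hcyc x hx (s * x * s⁻¹) (HH.conj_mem_of_mem_normalizer hs hx) hx1
  have hpow : ∀ j : ℕ, s ^ j * x * (s ^ j)⁻¹ = x ^ (k ^ j) := by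
    intro j
    induction j with
    | zero => simp
    | succ j ih =>
      have e : s ^ (j + 1) * x * (s ^ (j + 1))⁻¹ = s * (s ^ j * x * (s ^ j)⁻¹) * s⁻¹ := by
        rw [pow_succ']; group
      rw [e, ih, ← conj_pow, hk, ← pow_mul, pow_succ']
  have h1 := hpow (p ^ n)
  rw [hsn] at h1
  have h2 : x ^ 1 = x ^ (k ^ p ^ n) := by rw [pow_one]; simpa using h1
  have hord : orderOf x = p := orderOf_eq_prime (hXp x hx) hx1
  rw [pow_eq_pow_iff_modEq, hord] at h2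
  have h3 : ((k : ZMod p)) = 1 := by
    have h4 : ((1 : ℕ) : ZMod p) = ((k ^ p ^ n : ℕ) : ZMod p) :=
      (ZMod.natCast_eq_natCast_iff _ _ _).2 h2
    rw [Nat.cast_pow, ZMod.pow_card_pow, Nat.cast_one] at h4
    exact h4.symm
  have h5 : k ≡ 1 [MOD p] := (ZMod.natCast_eq_natCast_iff _ _ _).1 (by rw [h3, Nat.cast_one])
  have h6 : x ^ k = x ^ 1 := by rw [pow_eq_pow_iff_modEq, hord]; exact h5
  rw [pow_one] at h6
  rw [h6] at hk
  calc x * s = (s * x * s⁻¹) * s := by rw [hk]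
    _ = s * x := by group

end Fin

end Cfsg.Agent.Lib.Helper72.ZG
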