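import Mathlib
import Cfsg.Agent.Lib.Helper72.ZGTrace
import Cfsg.Agent.Lib.Helper34.Fpf

/-! Hyperplanes of an elementary abelian group acting on an abelian group (helper72). -/

set_option autoImplicit false
set_option linter.style.haveILetI false
set_option linter.unusedSectionVars false

namespace Cfsg.Agent.Lib.Helper72.ZG

open Subgroup
open scoped commutatorElement Pointwise

variable {G : Type*} [Group G] [Finite G]

/-- `B` is a subgroup of index `q` in `E` -/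
def IsHyp (q : ℕ) (B E : Subgroup G) : Prop := B ≤ E ∧ Nat.card B * q = Nat.card E

theorem conj_smul_le_of_mem_normalizer {B E : Subgroup G} {g : G}
    (hg : g ∈ normalizer (E : Set G)) (hBE : B ≤ E) : (MulAut.conj g • B : Subgroup G) ≤ E := by
  intro x hx
  have hx' : g⁻¹ * x * g ∈ B := (Cfsg.Agent.Lib.Helper1.mem_conj_smul_iff g x B).1 hx
  have h1 := HH.conj_mem_of_mem_normalizer hg (hBE hx')
  have e : g * (g⁻¹ * x * g) * g⁻¹ = x := by group
  rwa [e] at h1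

theorem isHyp_conj {q : ℕ} {B E : Subgroup G} {g : G} (hg : g ∈ normalizer (E : Set G))
    (h : IsHyp q B E) : IsHyp q (MulAut.conj g • B) E :=
  ⟨conj_smul_le_of_mem_normalizer hg h.1, by
    rw [Cfsg.Agent.Lib.Helper1.card_conj_smul]; exact h.2⟩

/-- two distinct hyperplanes generate -/
theorem sup_eq_of_isHyp {q : ℕ} (hq : q.Prime) {B B' E : Subgroup G} (h : IsHyp q B E)
    (h' : IsHyp q B' E) (hne : B ≠ B') : B ⊔ B' = E := by
  have hle : B ⊔ B' ≤ E := sup_le h.1 h'.1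
  obtain ⟨m, hm⟩ := card_dvd_of_le (le_sup_left : B ≤ B ⊔ B')
  have h1 : Nat.card (B ⊔ B' : Subgroup G) ∣ Nat.card E := card_dvd_of_le hle
  rw [hm, ← h.2] at h1
  have hB0 : 0 < Nat.card B := Nat.card_pos
  have h2 : m ∣ q := Nat.dvd_of_mul_dvd_mul_left hB0 h1
  rcases (Nat.dvd_prime hq).1 h2 with h3 | h3
  · exfalso
    rw [h3, mul_one] at hm
    have h4 : B = B ⊔ B' := eq_of_le_of_card_ge le_sup_left hm.le
    have h5 : B' ≤ B := by rw [h4]; exact le_sup_right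
    have hcard : Nat.card B' = Nat.card B := by
      have := h'.2.trans h.2.symm
      exact Nat.eq_of_mul_eq_mul_right hq.pos this
    exact hne (eq_of_le_of_card_ge h5 hcard.ge).symm
  · rw [h3] at hm
    exact eq_of_le_of_card_ge hle (by rw [hm, h.2])

theorem mem_centralizer_bot (y : G) : y ∈ centralizer (((⊥ : Subgroup G) : Subgroup G) : Set G) := by
  rw [mem_centralizer_iff]
  intro h hh
  have : h = 1 := mem_bot.1 hh
  rw [this]; simp

theorem mem_centralizer_zpowers {e v : G} (h : e * v * e⁻¹ = v) :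
    v ∈ centralizer ((zpowers e : Subgroup G) : Set G) := by
  rw [mem_centralizer_iff]
  intro x hx
  obtain ⟨i, rfl⟩ := mem_zpowers_iff.1 hx
  have hc : Commute e v := by
    show e * v = v * e
    calc e * v = (e * v * e⁻¹) * e := by group
      _ = v * e := by rw [h]
  exact (hc.zpow_left i).eq

/-- **(T2')** an elementary abelian `q`-group acting without fixed points on a nontrivial
abelian `p`-group has a hyperplane with fixed points -/
theorem exists_hyp {E Y : Subgroup G} {p q : ℕ} (hq : q.Prime) (hqp : q.Coprime p)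
    (hEc : ∀ a ∈ E, ∀ b ∈ E, a * b = b * a) (hEq : ∀ a ∈ E, a ^ q = 1)
    (hYc : ∀ a ∈ Y, ∀ b ∈ Y, a * b = b * a) (hYp : ∀ y ∈ Y, y ^ p = 1)
    (hE : E ≤ normalizer (Y : Set G)) (hY : Y ≠ ⊥)
    (hfix : Y ⊓ centralizer (E : Set G) = ⊥) :
    ∃ B : Subgroup G, IsHyp q B E ∧ Y ⊓ centralizer (B : Set G) ≠ ⊥ := by
  classical
  haveI : Nonempty {B : Subgroup G // B ≤ E ∧ Y ⊓ centralizer (B : Set G) ≠ ⊥} :=
    ⟨⟨⊥, bot_le, by
      intro h
      apply hY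
      rw [eq_bot_iff, ← h]
      exact fun y hy => mem_inf.2 ⟨hy, mem_centralizer_bot y⟩⟩⟩
  obtain ⟨⟨B, hBE, hBfix⟩, hmax⟩ := Finite.exists_max
    (fun B : {B : Subgroup G // B ≤ E ∧ Y ⊓ centralizer (B : Set G) ≠ ⊥} => Nat.card B.1)
  have hmax' : ∀ B₂ : Subgroup G, B₂ ≤ E → Y ⊓ centralizer (B₂ : Set G) ≠ ⊥ → B ≤ B₂ → B₂ = B := by
    intro B₂ h1 h2 h3
    exact (eq_of_le_of_card_ge h3 (hmax ⟨B₂, h1, h2⟩)).symm
  refine ⟨B, ⟨hBE, ?_⟩, hBfix⟩
  obtain ⟨Y₁, hY₁def⟩ : ∃ Y₁ : Subgroup G, Y₁ = Y ⊓ centralizer (B : Set G) := ⟨_, rfl⟩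
  rw [← hY₁def] at hBfix
  have hY₁Y : Y₁ ≤ Y := hY₁def ▸ inf_le_left
  have hY₁B : Y₁ ≤ centralizer (B : Set G) := hY₁def ▸ inf_le_right
  have hEB : E ≤ normalizer (B : Set G) := by
    intro e he
    rw [mem_normalizer_iff]
    intro b
    constructor
    · intro hb
      have : e * b * e⁻¹ = b := by rw [hEc e he b (hBE hb)]; group
      rw [this]; exact hb
    · intro hb
      have h1 : e * b * e⁻¹ ∈ E := hBE hb
      have h2 : b ∈ E := by
        have := mul_mem (mul_mem (inv_mem he) h1) he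
        have e' : e⁻¹ * (e * b * e⁻¹) * e = b := by group
        rwa [e'] at this
      have : e * b * e⁻¹ = b := by rw [hEc e he b h2]; group
      rwa [this] at hb
  have hE₁ : E ≤ normalizer (Y₁ : Set G) := by
    intro e he
    rw [hY₁def]
    exact HH.mem_normalizer_inf (hE he) (HH.mem_normalizer_centralizer (hEB he))
  have hY₁c : ∀ a ∈ Y₁, ∀ b ∈ Y₁, a * b = b * a := fun a ha b hb => hYc a (hY₁Y ha) b (hY₁Y hb)
  letI := commGroupOf Y₁ hY₁c
  obtain ⟨ψ, hψdef⟩ : ∃ ψ : ↥E →* MulAut ↥Y₁, ψ = cj Y₁ E hE₁ := ⟨_, rfl⟩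
  have hψ : ∀ (e : ↥E) (y : ↥Y₁), ((ψ e y : ↥Y₁) : G) = e * y * (e : G)⁻¹ := by
    intro e y; rw [hψdef]; rfl
  -- the kernel is `B`
  have hkerB : ∀ e : ↥E, ψ e = 1 ↔ (e : G) ∈ B := by
    intro e
    constructor
    · intro h
      obtain ⟨B₂, hB₂def⟩ : ∃ B₂ : Subgroup G, B₂ = B ⊔ zpowers (e : G) := ⟨_, rfl⟩
      have hB₂E : B₂ ≤ E := hB₂def ▸ sup_le hBE (by rw [zpowers_le]; exact e.2)
      have hB₂fix : Y ⊓ centralizer (B₂ : Set G) ≠ ⊥ := by
        intro h0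
        apply hBfix
        rw [eq_bot_iff, ← h0]
        intro y hy
        refine mem_inf.2 ⟨hY₁Y hy, ?_⟩
        rw [hB₂def]
        refine mem_centralizer_sup (hY₁B hy) (mem_centralizer_zpowers ?_)
        have h1 := hψ e ⟨y, hy⟩
        rw [h] at h1
        exact h1.symm
      have h2 := hmax' B₂ hB₂E hB₂fix (hB₂def ▸ le_sup_left)
      rw [← h2, hB₂def]
      exact mem_sup_right (mem_zpowers _)
    · intro h
      ext y
      rw [hψ]
      exact (mem_centralizer_iff_conj.1 (hY₁B y.2)) e h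
  have hfpf : ∀ d : ↥ψ.range, d ≠ 1 → ∀ v : ↥Y₁, (ψ.range.subtype d) v = v → v = 1 := by
    rintro ⟨d, e, rfl⟩ hd v hv
    by_contra hv1
    apply hd
    apply Subtype.ext
    show ψ e = 1
    rw [hkerB]
    obtain ⟨B₂, hB₂def⟩ : ∃ B₂ : Subgroup G, B₂ = B ⊔ zpowers (e : G) := ⟨_, rfl⟩
    have hB₂E : B₂ ≤ E := hB₂def ▸ sup_le hBE (by rw [zpowers_le]; exact e.2)
    have hB₂fix : Y ⊓ centralizer (B₂ : Set G) ≠ ⊥ := by
      intro h0
      apply hv1
      have h1 : (v : G) ∈ Y ⊓ centralizer (B₂ : Set G) := by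
        refine mem_inf.2 ⟨hY₁Y v.2, ?_⟩
        rw [hB₂def]
        refine mem_centralizer_sup (hY₁B v.2) (mem_centralizer_zpowers ?_)
        have h2 : ψ e v = v := hv
        rw [← hψ, h2]
      rw [h0, mem_bot] at h1
      exact Subtype.ext h1
    have h2 := hmax' B₂ hB₂E hB₂fix (hB₂def ▸ le_sup_left)
    rw [← h2, hB₂def]
    exact mem_sup_right (mem_zpowers _)
  -- the range has order `q`
  have hrange_ne : ∃ y : ↥ψ.range, y ≠ 1 := by
    by_contra hcon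
    push Not at hcon
    apply hBfix
    rw [eq_bot_iff, ← hfix]
    intro y hy
    refine mem_inf.2 ⟨hY₁Y hy, mem_centralizer_iff_conj.2 ?_⟩
    intro e he
    have h1 : (⟨ψ ⟨e, he⟩, ⟨e, he⟩, rfl⟩ : ↥ψ.range) = 1 := hcon _
    have h2 : ψ ⟨e, he⟩ = 1 := congrArg Subtype.val h1
    have h3 := hψ ⟨e, he⟩ ⟨y, hy⟩
    rw [h2] at h3
    exact h3.symm
  obtain ⟨y, hy1⟩ := hrange_ne
  have hpowq : ∀ d : ↥ψ.range, d ^ q = 1 := by
    rintro ⟨d, e, rfl⟩
    apply Subtype.ext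
    show ψ e ^ q = 1
    rw [← map_pow]
    have : e ^ q = 1 := Subtype.ext (hEq e e.2)
    rw [this, map_one]
  have hcommD : ∀ a b : ↥ψ.range, a * b = b * a := by
    rintro ⟨a, e, rfl⟩ ⟨b, f, rfl⟩
    apply Subtype.ext
    show ψ e * ψ f = ψ f * ψ e
    rw [← map_mul, ← map_mul]
    congr 1
    exact Subtype.ext (hEc e e.2 f f.2)
  haveI : Fact q.Prime := ⟨hq⟩
  have hyord : orderOf y = q := orderOf_eq_prime (hpowq y) hy1
  have hall : ∀ x : ↥ψ.range, x ∈ zpowers y := by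
    intro x
    by_contra hx
    obtain ⟨v, hv, hv1⟩ := exists_ne_one_of_ne_bot hBfix
    have h1 := Cfsg.Agent.Lib.Helper34.fpf_noncyclic_pow ψ.range.subtype hfpf x y q hq
      (hcommD x y) (hpowq x) hyord hx ⟨v, hv⟩
    have h2 : v ^ q = 1 := congrArg Subtype.val h1
    exact hv1 (eq_one_of_pow_of_pow hqp h2 (hYp v (hY₁Y hv)))
  have hcardD : Nat.card ψ.range = q := by
    have h1 : (zpowers y : Subgroup ↥ψ.range) = ⊤ := by
      rw [eq_top_iff]; exact fun x _ => hall x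
    rw [← hyord, ← Nat.card_zpowers, h1, card_top]
  have hcardK : Nat.card ψ.ker = Nat.card B := by
    have h1 : ψ.ker.map E.subtype = B := by
      ext x
      constructor
      · rintro ⟨e, he, rfl⟩
        exact (hkerB e).1 he
      · intro hx
        exact ⟨⟨x, hBE hx⟩, (hkerB ⟨x, hBE hx⟩).2 hx, rfl⟩
    rw [← h1, card_map_of_injective E.subtype_injective]
  have h3 := card_mul_index ψ.ker
  rw [index_ker, hcardD, hcardK] at h3
  exact h3

/-- **(I1)** the fixed points of a hyperplane which is not `R₀`-invariant form a cyclic group -/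
theorem cyc_of_hyp {E Y B R₀ : Subgroup G} {p q : ℕ} (hq : q.Prime)
    (hEc : ∀ a ∈ E, ∀ b ∈ E, a * b = b * a) (hE : E ≤ normalizer (Y : Set G))
    (hYc : ∀ a ∈ Y, ∀ b ∈ Y, a * b = b * a) (hYp : ∀ y ∈ Y, y ^ p = 1)
    (hRE : R₀ ≤ normalizer (E : Set G)) (hRY : R₀ ≤ normalizer (Y : Set G))
    (hr : (Nat.card R₀).Prime) (hEp : (Nat.card E).Coprime p)
    (hfixE : Y ⊓ centralizer (E : Set G) = ⊥) (hB : IsHyp q B E)
    (hBR : ¬ R₀ ≤ normalizer (B : Set G))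
    (hcyc : ∀ x ∈ Y ⊓ centralizer (R₀ : Set G), ∀ y ∈ Y ⊓ centralizer (R₀ : Set G), x ≠ 1 →
      ∃ k : ℕ, y = x ^ k) :
    ∀ x ∈ Y ⊓ centralizer (B : Set G), ∀ y ∈ Y ⊓ centralizer (B : Set G), x ≠ 1 →
      ∃ k : ℕ, y = x ^ k := by
  refine cyc_of_indep hYc hYp (hB.1.trans hE) hRY
    (Nat.Coprime.coprime_dvd_left (card_dvd_of_le hB.1) hEp) ?_ hcyc
  intro ρ hρ hρ1
  have hne : B ≠ MulAut.conj ρ • B := by
    intro h
    apply hBR
    exact le_of_prime_card hr hρ hρ1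
      ((Cfsg.Agent.Lib.Helper1.mem_normalizer_iff_conj_smul ρ B).2 h.symm)
  have hB' := isHyp_conj (hRE hρ) hB
  have hsup := sup_eq_of_isHyp hq hB hB' hne
  refine ⟨fun b hb c hc => hEc b (hB.1 hb) c (hB'.1 hc), ?_⟩
  rw [eq_bot_iff, ← hfixE]
  intro y hy
  refine mem_inf.2 ⟨(mem_inf.1 (mem_inf.1 hy).1).1, ?_⟩
  rw [← hsup]
  exact mem_centralizer_sup (mem_inf.1 (mem_inf.1 hy).1).2 (mem_inf.1 hy).2

/-- **(I2)** two hyperplanes with fixed points which are not `R₀`-invariant are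
`R₀`-conjugate -/
theorem conj_of_hyp {E Y B B' R₀ : Subgroup G} {p q : ℕ} (hq : q.Prime)
    (hEc : ∀ a ∈ E, ∀ b ∈ E, a * b = b * a) (hE : E ≤ normalizer (Y : Set G))
    (hYc : ∀ a ∈ Y, ∀ b ∈ Y, a * b = b * a) (hYp : ∀ y ∈ Y, y ^ p = 1)
    (hRE : R₀ ≤ normalizer (E : Set G)) (hRY : R₀ ≤ normalizer (Y : Set G))
    (hr : (Nat.card R₀).Prime) (hEp : (Nat.card E).Coprime p)
    (hfixE : Y ⊓ centralizer (E : Set G) = ⊥) (hB : IsHyp q B E) (hB' : IsHyp q B' E)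
    (hBR : ¬ R₀ ≤ normalizer (B : Set G)) (hB'R : ¬ R₀ ≤ normalizer (B' : Set G))
    (hBfix : Y ⊓ centralizer (B : Set G) ≠ ⊥) (hB'fix : Y ⊓ centralizer (B' : Set G) ≠ ⊥)
    (hcyc : ∀ x ∈ Y ⊓ centralizer (R₀ : Set G), ∀ y ∈ Y ⊓ centralizer (R₀ : Set G), x ≠ 1 →
      ∃ k : ℕ, y = x ^ k) :
    ∃ ρ ∈ R₀, B' = MulAut.conj ρ • B := by
  by_contra hcon
  push Not at hcon
  have key : ∀ {B₁ B₂ : Subgroup G}, IsHyp q B₁ E → IsHyp q B₂ E → B₁ ≠ B₂ →
      (∀ b ∈ B₁, ∀ c ∈ B₂, b * c = c * b) ∧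
      Y ⊓ centralizer (B₁ : Set G) ⊓ centralizer (B₂ : Set G) = ⊥ := by
    intro B₁ B₂ h1 h2 hne
    have hsup := sup_eq_of_isHyp hq h1 h2 hne
    refine ⟨fun b hb c hc => hEc b (h1.1 hb) c (h2.1 hc), ?_⟩
    rw [eq_bot_iff, ← hfixE]
    intro y hy
    refine mem_inf.2 ⟨(mem_inf.1 (mem_inf.1 hy).1).1, ?_⟩
    rw [← hsup]
    exact mem_centralizer_sup (mem_inf.1 (mem_inf.1 hy).1).2 (mem_inf.1 hy).2
  have hne : ∀ {B₁ : Subgroup G}, ¬ R₀ ≤ normalizer (B₁ : Set G) → ∀ ρ ∈ R₀, ρ ≠ 1 →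
      B₁ ≠ MulAut.conj ρ • B₁ := by
    intro B₁ hB₁ ρ hρ hρ1 h
    apply hB₁
    exact le_of_prime_card hr hρ hρ1
      ((Cfsg.Agent.Lib.Helper1.mem_normalizer_iff_conj_smul ρ B₁).2 h.symm)
  apply hB'fix
  exact indep_orbits hYc hYp (hB.1.trans hE) (hB'.1.trans hE) hRY
    (Nat.Coprime.coprime_dvd_left (card_dvd_of_le hB.1) hEp)
    (Nat.Coprime.coprime_dvd_left (card_dvd_of_le hB'.1) hEp)
    (fun ρ hρ hρ1 => key hB (isHyp_conj (hRE hρ) hB) (hne hBR ρ hρ hρ1))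
    (fun ρ hρ hρ1 => key hB' (isHyp_conj (hRE hρ) hB') (hne hB'R ρ hρ hρ1))
    (fun ρ hρ => key hB' (isHyp_conj (hRE hρ) hB) (hcon ρ hρ)) hcyc hBfix

end Cfsg.Agent.Lib.Helper72.ZG
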