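import Mathlib
import Cfsg.Agent.Lib.Helper72.ZGTrace
import Cfsg.Agent.Lib.Helper72.HHFinal

/-! A permutation lemma: a `p`-group `S` with a fixed-point-free automorphism group `R₀` of
prime order fixes every member of an `S`-invariant family of subgroups in which the members
not fixed by `R₀` form a single `R₀`-orbit (helper72). -/

set_option autoImplicit false
set_option linter.style.haveILetI false
set_option linter.unusedSectionVars false

namespace Cfsg.Agent.Lib.Helper72.ZG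

open Subgroup
open scoped commutatorElement Pointwise

universe u

variable {G : Type u} [Group G] [Finite G]

theorem perm_fix {S R₀ : Subgroup G} {p : ℕ} [Fact p.Prime] (hS : IsPGroup p S)
    (hr : (Nat.card R₀).Prime) (hpr : p ≠ Nat.card R₀) (hodd : Odd (Nat.card G))
    (hRS : R₀ ≤ normalizer (S : Set G)) (hfix : S ⊓ centralizer (R₀ : Set G) = ⊥)
    (Ω : Subgroup G → Prop) (hΩS : ∀ B, Ω B → ∀ s ∈ S, Ω (MulAut.conj s • B))
    (hconj : ∀ B B', Ω B → Ω B' → ¬ R₀ ≤ normalizer (B : Set G) →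
      ¬ R₀ ≤ normalizer (B' : Set G) → ∃ ρ ∈ R₀, B' = MulAut.conj ρ • B) :
    ∀ B, Ω B → S ≤ normalizer (B : Set G) := by
  classical
  haveI : Fact (Nat.card R₀).Prime := ⟨hr⟩
  have hsolvR : Group.IsSolvable ↥R₀ := HH.isSolvable_of_prime_card hr R₀ rfl
  have hcopS : ∀ T : Subgroup G, T ≤ S → (Nat.card R₀).Coprime (Nat.card T) := by
    intro T hT
    obtain ⟨k, hk⟩ := IsPGroup.iff_card.1 (hS.to_le hT)
    rw [hk]
    exact Nat.Coprime.pow_right k ((Nat.coprime_primes hr Fact.out).2 hpr.symm)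
  have hrodd : Odd (Nat.card R₀) := hodd.of_dvd_nat (card_subgroup_dvd_card R₀)
  -- part (a)
  have partA : ∀ B, Ω B → R₀ ≤ normalizer (B : Set G) → S ≤ normalizer (B : Set G) := by
    intro B hB hRB
    by_contra hSB
    obtain ⟨T, hTdef⟩ : ∃ T : Subgroup G, T = S ⊓ normalizer (B : Set G) := ⟨_, rfl⟩
    have hTS : T ≤ S := hTdef ▸ inf_le_left
    have hTB : T ≤ normalizer (B : Set G) := hTdef ▸ inf_le_right
    have hRT : R₀ ≤ normalizer (T : Set G) := by
      intro a ha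
      rw [hTdef]
      exact HH.mem_normalizer_inf (hRS ha) (le_normalizer (hRB ha))
    have hcoset : ∀ u ∈ S, (∀ a ∈ R₀, u⁻¹ * (a * u * a⁻¹) ∈ T) → u ∈ T := by
      intro u hu h
      obtain ⟨d, hd, hc⟩ := Cfsg.Agent.Lib.Helper1.coprime_coset_fixed hRT (hcopS T hTS)
        (Or.inl hsolvR) u h
      have h1 : u * d ∈ S ⊓ centralizer (R₀ : Set G) := mem_inf.2 ⟨mul_mem hu (hTS hd), hc⟩
      rw [hfix, mem_bot] at h1
      have h2 : u = d⁻¹ := eq_inv_of_mul_eq_one_left h1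
      rw [h2]; exact inv_mem hd
    have ha0 : ∀ u ∈ S, R₀ ≤ normalizer ((MulAut.conj u • B : Subgroup G) : Set G) → u ∈ T := by
      intro u hu h
      apply hcoset u hu
      intro a ha
      rw [hTdef]
      refine mem_inf.2 ⟨mul_mem (inv_mem hu) (HH.conj_mem_of_mem_normalizer (hRS ha) hu), ?_⟩
      rw [Cfsg.Agent.Lib.Helper1.mem_normalizer_iff_conj_smul]
      have h1 := (Cfsg.Agent.Lib.Helper1.mem_normalizer_iff_conj_smul a⁻¹ B).1 (hRB (inv_mem ha))
      have h2 := (Cfsg.Agent.Lib.Helper1.mem_normalizer_iff_conj_smul a _).1 (h ha)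
      have e : u⁻¹ * (a * u * a⁻¹) = u⁻¹ * (a * (u * a⁻¹)) := by group
      rw [e, map_mul, map_mul, map_mul, mul_smul, mul_smul, mul_smul, h1, h2, ← mul_smul,
        ← map_mul, inv_mul_cancel, map_one, one_smul]
    -- normalizer condition
    haveI : Group.IsNilpotent ↥S := hS.isNilpotent
    have hlt : T.subgroupOf S < ⊤ := by
      rw [lt_top_iff_ne_top]
      intro h
      apply hSB
      intro s hs
      have : (⟨s, hs⟩ : ↥S) ∈ T.subgroupOf S := by rw [h]; exact mem_top _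
      exact hTB (mem_subgroupOf.1 this)
    obtain ⟨s', hs'N, hs'T⟩ := SetLike.exists_of_lt (Group.normalizerCondition_of_isNilpotent _ hlt)
    obtain ⟨s, hsdef⟩ : ∃ s : G, s = (s' : G) := ⟨_, rfl⟩
    have hsS : s ∈ S := hsdef ▸ s'.2
    have hsT : s ∉ T := fun h => hs'T (mem_subgroupOf.2 (hsdef ▸ h))
    have hsN : s ∈ normalizer (T : Set G) := by
      rw [mem_normalizer_iff]
      intro h
      constructor
      · intro hh
        have h1 := (mem_normalizer_iff.1 hs'N ⟨h, hTS hh⟩).1 (mem_subgroupOf.2 hh)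
        rw [hsdef]
        exact mem_subgroupOf.1 h1
      · intro hh
        rw [hsdef] at hh
        have hhS : h ∈ S := by
          have := mul_mem (mul_mem (inv_mem s'.2) (hTS hh)) s'.2
          have e : (s' : G)⁻¹ * (s' * h * (s' : G)⁻¹) * s' = h := by group
          rwa [e] at this
        have h1 := (mem_normalizer_iff.1 hs'N ⟨h, hhS⟩).2 (mem_subgroupOf.2 hh)
        exact mem_subgroupOf.1 h1
    have hB₁ : ¬ R₀ ≤ normalizer ((MulAut.conj s • B : Subgroup G) : Set G) :=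
      fun h => hsT (ha0 s hsS h)
    have hB₂ : ¬ R₀ ≤ normalizer ((MulAut.conj s⁻¹ • B : Subgroup G) : Set G) := by
      intro h
      apply hsT
      have := ha0 s⁻¹ (inv_mem hsS) h
      simpa using inv_mem this
    obtain ⟨ρ, hρ, hρB⟩ := hconj _ _ (hΩS B hB s hsS) (hΩS B hB s⁻¹ (inv_mem hsS)) hB₁ hB₂
    have ht₁ : s * (ρ * s * ρ⁻¹) ∈ T := by
      rw [hTdef]
      refine mem_inf.2 ⟨mul_mem hsS (HH.conj_mem_of_mem_normalizer (hRS hρ) hsS), ?_⟩
      rw [Cfsg.Agent.Lib.Helper1.mem_normalizer_iff_conj_smul]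
      have h1 := (Cfsg.Agent.Lib.Helper1.mem_normalizer_iff_conj_smul ρ⁻¹ B).1 (hRB (inv_mem hρ))
      have e : s * (ρ * s * ρ⁻¹) = s * (ρ * (s * ρ⁻¹)) := by group
      rw [e, map_mul, map_mul, map_mul, mul_smul, mul_smul, mul_smul, h1, ← hρB, ← mul_smul,
        ← map_mul, mul_inv_cancel, map_one, one_smul]
    have hρ1 : ρ ≠ 1 := by
      intro h
      rw [h] at ht₁
      have h2 : s * s ∈ T := by simpa using ht₁
      apply hsT
      obtain ⟨m, hm⟩ := hodd.of_dvd_nat (orderOf_dvd_natCard s)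
      have h3 : (s * s) ^ (m + 1) = s := by
        rw [← pow_two, ← pow_mul]
        have : 2 * (m + 1) = orderOf s + 1 := by omega
        rw [this, pow_succ, pow_orderOf_eq_one, one_mul]
      rw [← h3]; exact pow_mem h2 _
    have hρρ : ρ * ρ ≠ 1 := by
      intro h
      apply hρ1
      exact eq_one_of_pow_of_pow (m := 2) (n := Nat.card R₀) (Nat.coprime_two_left.2 hrodd)
        (by rw [pow_two]; exact h) (pow_card_of_mem hρ)
    have h2 : s⁻¹ * (ρ * ρ * s * (ρ * ρ)⁻¹) ∈ T := by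
      have e : s⁻¹ * (ρ * ρ * s * (ρ * ρ)⁻¹)
          = (s⁻¹ * (s * (ρ * s * ρ⁻¹))⁻¹ * s) * (ρ * (s * (ρ * s * ρ⁻¹)) * ρ⁻¹) := by group
      rw [e]
      exact mul_mem (HH.conj_mem_of_mem_normalizer' hsN (inv_mem ht₁))
        (HH.conj_mem_of_mem_normalizer (hRT hρ) ht₁)
    let A : Subgroup G :=
      { carrier := {a | a ∈ R₀ ∧ s⁻¹ * (a * s * a⁻¹) ∈ T}
        mul_mem' := by
          rintro a b ⟨ha, ha'⟩ ⟨hb, hb'⟩
          refine ⟨mul_mem ha hb, ?_⟩
          have e : s⁻¹ * (a * b * s * (a * b)⁻¹)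
              = (s⁻¹ * (a * s * a⁻¹)) * (a * (s⁻¹ * (b * s * b⁻¹)) * a⁻¹) := by group
          rw [e]
          exact mul_mem ha' (HH.conj_mem_of_mem_normalizer (hRT ha) hb')
        one_mem' := ⟨one_mem _, by simp⟩
        inv_mem' := by
          rintro a ⟨ha, ha'⟩
          refine ⟨inv_mem ha, ?_⟩
          have e : s⁻¹ * (a⁻¹ * s * a⁻¹⁻¹) = a⁻¹ * (s⁻¹ * (a * s * a⁻¹))⁻¹ * a := by group
          rw [e]
          exact HH.conj_mem_of_mem_normalizer' (hRT ha) (inv_mem ha') }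
    have hRA : R₀ ≤ A := le_of_prime_card hr (mul_mem hρ hρ) hρρ ⟨mul_mem hρ hρ, h2⟩
    exact hsT (hcoset s hsS (fun a ha => (hRA ha).2))
  -- part (b)
  intro B hB
  by_cases hRB : R₀ ≤ normalizer (B : Set G)
  · exact partA B hB hRB
  by_contra hSB
  obtain ⟨s, hsS, hsB⟩ := SetLike.not_le_iff_exists.1 hSB
  have hB'R : ¬ R₀ ≤ normalizer ((MulAut.conj s • B : Subgroup G) : Set G) := by
    intro h
    have h1 := partA _ (hΩS B hB s hsS) h
    have h2 := (Cfsg.Agent.Lib.Helper1.mem_normalizer_iff_conj_smul s _).1 (h1 hsS)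
    have h3 : MulAut.conj s • B = B := smul_left_cancel (MulAut.conj s) h2
    exact hsB ((Cfsg.Agent.Lib.Helper1.mem_normalizer_iff_conj_smul s B).2 h3)
  obtain ⟨ρ, hρ, hρB⟩ := hconj B _ hB (hΩS B hB s hsS) hRB hB'R
  have hρ1 : ρ ≠ 1 := by
    intro h
    rw [h, map_one, one_smul] at hρB
    exact hsB ((Cfsg.Agent.Lib.Helper1.mem_normalizer_iff_conj_smul s B).2 hρB)
  have hmB : ρ⁻¹ * s ∈ normalizer (B : Set G) := by
    rw [Cfsg.Agent.Lib.Helper1.mem_normalizer_iff_conj_smul, map_mul, mul_smul, hρB, ← mul_smul,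
      ← map_mul, inv_mul_cancel, map_one, one_smul]
  have hpowS : ∀ k : ℕ, ρ ^ k * (ρ⁻¹ * s) ^ k ∈ S := by
    intro k
    induction k with
    | zero => simp
    | succ k ih =>
      have e : ρ ^ (k + 1) * (ρ⁻¹ * s) ^ (k + 1) = ρ * (ρ ^ k * (ρ⁻¹ * s) ^ k) * ρ⁻¹ * s := by
        rw [pow_succ', pow_succ]; group
      rw [e]
      exact mul_mem (HH.conj_mem_of_mem_normalizer (hRS hρ) ih) hsS
  obtain ⟨n, hn⟩ : ∃ n, n = Nat.card S := ⟨_, rfl⟩
  have hρr : ρ ^ Nat.card R₀ = 1 := pow_card_of_mem hρ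
  have hm'r : ((ρ⁻¹ * s) ^ n) ^ Nat.card R₀ = 1 := by
    have h1 := hpowS (Nat.card R₀)
    rw [hρr, one_mul] at h1
    have h2 := pow_card_of_mem h1
    rw [← hn] at h2
    rw [← pow_mul, mul_comm, pow_mul]; exact h2
  have hm'1 : (ρ⁻¹ * s) ^ n ≠ 1 := by
    intro h
    have h1 := hpowS n
    rw [h, mul_one] at h1
    have h2 : ρ ^ n ∈ S ⊓ R₀ := mem_inf.2 ⟨h1, pow_mem hρ n⟩
    rw [Cfsg.Agent.Lib.Helper1.inf_eq_bot_of_coprime_card ((hcopS S le_rfl).symm), mem_bot] at h2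
    exact hρ1 (eq_one_of_pow_of_pow (by rw [hn]; exact (hcopS S le_rfl).symm) h2 hρr)
  have hcardR₁ : Nat.card (zpowers ((ρ⁻¹ * s) ^ n)) = Nat.card R₀ := by
    rw [Nat.card_zpowers]; exact orderOf_eq_prime hm'r hm'1
  have hR₁le : zpowers ((ρ⁻¹ * s) ^ n) ≤ R₀ ⊔ S := by
    rw [zpowers_le]
    exact pow_mem (mul_mem (mem_sup_left (inv_mem hρ)) (mem_sup_right hsS)) n
  obtain ⟨k, hk, hkR⟩ := Cfsg.Agent.Lib.Helper1.sz_conj_rel hRS (hcopS S le_rfl)
    (Or.inl hsolvR) hR₁le hcardR₁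
  have hR₁B : zpowers ((ρ⁻¹ * s) ^ n) ≤ normalizer (B : Set G) := by
    rw [zpowers_le]; exact pow_mem hmB n
  have hB₀R : R₀ ≤ normalizer ((MulAut.conj k⁻¹ • B : Subgroup G) : Set G) := by
    intro a ha
    have h1 : k * a * k⁻¹ ∈ MulAut.conj k • R₀ := by
      rw [Cfsg.Agent.Lib.Helper1.mem_conj_smul_iff]
      have e : k⁻¹ * (k * a * k⁻¹) * k = a := by group
      rw [e]; exact ha
    rw [hkR] at h1
    have h2 := (Cfsg.Agent.Lib.Helper1.mem_normalizer_iff_conj_smul _ B).1 (hR₁B h1)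
    rw [Cfsg.Agent.Lib.Helper1.mem_normalizer_iff_conj_smul, ← mul_smul, ← map_mul]
    have e : a * k⁻¹ = k⁻¹ * (k * a * k⁻¹) := by group
    rw [e, map_mul, mul_smul, h2]
  have h3 := partA _ (hΩS B hB k⁻¹ (inv_mem hk)) hB₀R
  have h4 := (Cfsg.Agent.Lib.Helper1.mem_normalizer_iff_conj_smul k _).1 (h3 hk)
  rw [← mul_smul, ← map_mul, mul_inv_cancel, map_one, one_smul] at h4
  rw [← h4] at hB₀R
  exact hRB hB₀R

end Cfsg.Agent.Lib.Helper72.ZG
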