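import Mathlib
import Cfsg.Agent.Lib.Helper72.ZGHyp
import Cfsg.Agent.Lib.Helper72.ZGPerm
import Cfsg.Agent.Lib.Helper72.HHFit

/-! The abelian case of the key lemma for `Z`-group centralizers (helper72). -/

set_option autoImplicit false
set_option linter.style.haveILetI false
set_option linter.unusedSectionVars false

namespace Cfsg.Agent.Lib.Helper72.ZG

open Subgroup
open scoped commutatorElement Pointwise

universe u

variable {G : Type u} [Group G] [Finite G]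

theorem cent_conj_ne_bot {Y B : Subgroup G} {g : G} (hg : g ∈ normalizer (Y : Set G))
    (h : Y ⊓ centralizer (B : Set G) ≠ ⊥) :
    Y ⊓ centralizer ((MulAut.conj g • B : Subgroup G) : Set G) ≠ ⊥ := by
  obtain ⟨x, hx, hx1⟩ := exists_ne_one_of_ne_bot h
  intro h0
  have h1 : g * x * g⁻¹ ∈ Y ⊓ centralizer ((MulAut.conj g • B : Subgroup G) : Set G) :=
    mem_inf.2 ⟨HH.conj_mem_of_mem_normalizer hg (mem_inf.1 hx).1,
      conj_mem_centralizer_conj g (mem_inf.1 hx).2⟩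
  rw [h0, mem_bot] at h1
  apply hx1
  have e : x = g⁻¹ * (g * x * g⁻¹) * g := by group
  rw [e, h1]; group

/-- if `S` centralizes `X` and `Q` normalizes `X`, then `[Q, S]` centralizes `X` -/
theorem commutator_le_centralizer {Q S X : Subgroup G} (hQX : Q ≤ normalizer (X : Set G))
    (hSX : S ≤ centralizer (X : Set G)) : ⁅Q, S⁆ ≤ centralizer (X : Set G) := by
  rw [commutator_le]
  intro a ha s hs
  have h1 : a * s * a⁻¹ ∈ centralizer (X : Set G) :=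
    HH.conj_mem_of_mem_normalizer (HH.mem_normalizer_centralizer (hQX ha)) (hSX hs)
  have e : ⁅a, s⁆ = (a * s * a⁻¹) * s⁻¹ := by rw [commutatorElement_def]
  rw [e]
  exact mul_mem h1 (inv_mem (hSX hs))

/-- commutators of elements normalizing a cyclic group centralize it -/
theorem comm_centralizes_of_gen {X : Subgroup G} {g : G} (hg : g ∈ X)
    (hgen : ∀ y ∈ X, ∃ k : ℕ, y = g ^ k) {s ρ : G} (hs : s ∈ normalizer (X : Set G))
    (hρ : ρ ∈ normalizer (X : Set G)) : ⁅s, ρ⁆ ∈ centralizer (X : Set G) := by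
  obtain ⟨i, hi⟩ := hgen _ (HH.conj_mem_of_mem_normalizer hs hg)
  obtain ⟨j, hj⟩ := hgen _ (HH.conj_mem_of_mem_normalizer hρ hg)
  have hy : (ρ * s)⁻¹ * g * (ρ * s) ∈ X := by
    have := HH.conj_mem_of_mem_normalizer (inv_mem (mul_mem hρ hs)) hg
    simpa using this
  obtain ⟨m, hm⟩ := hgen _ hy
  have h1 : (s * ρ) * g ^ m * (s * ρ)⁻¹ = g ^ (i * (j * m)) := by
    have e : (s * ρ) * g ^ m * (s * ρ)⁻¹ = s * (ρ * g ^ m * ρ⁻¹) * s⁻¹ := by group
    rw [e, ← conj_pow, hj, ← pow_mul, ← conj_pow, hi, ← pow_mul]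
  have h2 : (ρ * s) * g ^ m * (ρ * s)⁻¹ = g ^ (j * (i * m)) := by
    have e : (ρ * s) * g ^ m * (ρ * s)⁻¹ = ρ * (s * g ^ m * s⁻¹) * ρ⁻¹ := by group
    rw [e, ← conj_pow, hi, ← pow_mul, ← conj_pow, hj, ← pow_mul]
  have h3 : g = (ρ * s) * g ^ m * (ρ * s)⁻¹ := by rw [← hm]; group
  have h4 : ⁅s, ρ⁆ * g * ⁅s, ρ⁆⁻¹ = g := by
    have e : ⁅s, ρ⁆ * g * ⁅s, ρ⁆⁻¹ = (s * ρ) * ((ρ * s)⁻¹ * g * (ρ * s)) * (s * ρ)⁻¹ := by
      rw [commutatorElement_def]; group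
    rw [e, hm, h1]
    have e2 : i * (j * m) = j * (i * m) := by ring
    rw [e2, ← h2, ← h3]
  rw [mem_centralizer_iff]
  intro y hy
  obtain ⟨k, rfl⟩ := hgen y hy
  have hc : Commute ⁅s, ρ⁆ g := by
    show ⁅s, ρ⁆ * g = g * ⁅s, ρ⁆
    calc ⁅s, ρ⁆ * g = (⁅s, ρ⁆ * g * ⁅s, ρ⁆⁻¹) * ⁅s, ρ⁆ := by group
      _ = g * ⁅s, ρ⁆ := by rw [h4]
  exact ((hc.pow_right k).eq).symm

theorem exists_gen_of_isCyclic {X : Subgroup G} (h : IsCyclic ↥X) :
    ∃ g ∈ X, ∀ y ∈ X, ∃ k : ℕ, y = g ^ k := by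
  obtain ⟨g, hg⟩ := h.exists_generator
  refine ⟨g, g.2, fun y hy => ?_⟩
  have h1 := hg ⟨y, hy⟩
  rw [← mem_powers_iff_mem_zpowers] at h1
  obtain ⟨k, hk⟩ := (Submonoid.mem_powers_iff _ _).1 h1
  exact ⟨k, (congrArg Subtype.val hk).symm⟩

/-- coprime action without fixed points: `X = [X, R₀]` -/
theorem le_commutator_of_fix_eq_bot {X R₀ : Subgroup G} (hRX : R₀ ≤ normalizer (X : Set G))
    (hcop : (Nat.card R₀).Coprime (Nat.card X)) (hsolv : Group.IsSolvable ↥R₀)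
    (hfix : X ⊓ centralizer (R₀ : Set G) = ⊥) : X ≤ ⁅X, R₀⁆ := by
  intro x hx
  have hDX : ⁅X, R₀⁆ ≤ X := HH.commutator_le_left_of_normalizer hRX
  obtain ⟨d, hd, hc⟩ := Cfsg.Agent.Lib.Helper1.coprime_coset_fixed (A := R₀) (D := ⁅X, R₀⁆)
    (normalizer_commutator_ge_right X R₀)
    (Nat.Coprime.coprime_dvd_right (card_dvd_of_le hDX) hcop) (Or.inl hsolv) x (by
      intro a ha
      have h1 := commutator_mem_commutator (inv_mem hx) ha
      have e : x⁻¹ * (a * x * a⁻¹) = ⁅x⁻¹, a⁆ := by rw [commutatorElement_def]; group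
      rw [e]
      exact h1)
  have h1 : x * d ∈ X ⊓ centralizer (R₀ : Set G) := mem_inf.2 ⟨mul_mem hx (hDX hd), hc⟩
  rw [hfix, mem_bot] at h1
  have h2 : x = d⁻¹ := eq_inv_of_mul_eq_one_left h1
  rw [h2]; exact inv_mem hd

/-- an element of an abelian group normalizes every subgroup -/
theorem le_normalizer_of_abelian {Q B : Subgroup G} (hQc : ∀ a ∈ Q, ∀ b ∈ Q, a * b = b * a)
    (hBQ : B ≤ Q) : Q ≤ normalizer (B : Set G) := by
  apply HH.le_normalizer_of_conj_mem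
  intro a ha b hb
  have : a * b * a⁻¹ = b := by rw [hQc a ha b (hBQ hb)]; group
  rw [this]; exact hb

/-- **abelian case** of the key lemma -/
theorem pcore_abelian (hodd : Odd (Nat.card G)) {V Q S R₀ : Subgroup G} {p : ℕ} [Fact p.Prime]
    (hVc : ∀ a ∈ V, ∀ b ∈ V, a * b = b * a) (hVp : ∀ v ∈ V, v ^ p = 1)
    (hQp : (Nat.card Q).Coprime p) (hS : IsPGroup p S) (hr : (Nat.card R₀).Prime)
    (hrp : p ≠ Nat.card R₀) (hSQ : S ≤ normalizer (Q : Set G))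
    (hRQ : R₀ ≤ normalizer (Q : Set G)) (hRS : R₀ ≤ normalizer (S : Set G))
    (hQV : Q ≤ normalizer (V : Set G)) (hSV : S ≤ normalizer (V : Set G))
    (hRV : R₀ ≤ normalizer (V : Set G)) (hSfix : S ⊓ centralizer (R₀ : Set G) = ⊥)
    (hfaith : Q ⊓ centralizer (V : Set G) = ⊥)
    (hcyc : ∀ x ∈ V ⊓ centralizer (R₀ : Set G), ∀ y ∈ V ⊓ centralizer (R₀ : Set G), x ≠ 1 →
      ∃ k : ℕ, y = x ^ k)
    (hQS : ⁅Q, S⁆ = Q)
    (hm2 : ∀ Q₀ : Subgroup G, Q₀ ≤ Q → Q₀ ≠ Q → S ≤ normalizer (Q₀ : Set G) →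
      R₀ ≤ normalizer (Q₀ : Set G) → ⁅Q₀, S⁆ = ⊥)
    (hVQ : V ⊓ centralizer (Q : Set G) = ⊥) (hQc : ∀ a ∈ Q, ∀ b ∈ Q, a * b = b * a) :
    Q = ⊥ := by
  classical
  by_contra hQ
  have hp : p.Prime := Fact.out
  have hsolvR : Group.IsSolvable ↥R₀ := HH.isSolvable_of_prime_card hr R₀ rfl
  have hcopSQ : (Nat.card S).Coprime (Nat.card Q) := by
    obtain ⟨k, hk⟩ := IsPGroup.iff_card.1 hS
    rw [hk]
    exact Nat.Coprime.pow_left k hQp.symm
  have hcopRS : (Nat.card R₀).Coprime (Nat.card S) := by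
    obtain ⟨k, hk⟩ := IsPGroup.iff_card.1 hS
    rw [hk]
    exact Nat.Coprime.pow_right k ((Nat.coprime_primes hr hp).2 hrp.symm)
  -- `C_Q(S) = 1`
  have hCQS : Q ⊓ centralizer (S : Set G) = ⊥ := by
    have h1 := cent_inf_commutator hQc hSQ hcopSQ
    rw [hQS] at h1
    rw [← h1]
    exact (inf_eq_left.2 inf_le_left).symm
  have hSRS : S ≤ ⁅S, R₀⁆ := le_commutator_of_fix_eq_bot hRS hcopRS hsolvR hSfix
  -- a prime divisor of `|Q|`
  have hcardQ : Nat.card Q ≠ 1 := fun h => hQ (eq_bot_of_card_eq Q h)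
  obtain ⟨q, hq, hqQ⟩ := Nat.exists_prime_and_dvd hcardQ
  haveI : Fact q.Prime := ⟨hq⟩
  have hqp : q.Coprime p := Nat.Coprime.coprime_dvd_left hqQ hQp
  -- `Q` has exponent `q`
  have hQq : ∀ a ∈ Q, a ^ q = 1 := by
    let Qq : Subgroup G :=
      { carrier := {x | ∃ y ∈ Q, y ^ q = x}
        mul_mem' := by
          rintro _ _ ⟨y₁, h1, rfl⟩ ⟨y₂, h2, rfl⟩
          exact ⟨y₁ * y₂, mul_mem h1 h2,
            (show Commute y₁ y₂ from hQc y₁ h1 y₂ h2).mul_pow q⟩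
        one_mem' := ⟨1, one_mem _, one_pow _⟩
        inv_mem' := by
          rintro _ ⟨y, h1, rfl⟩
          exact ⟨y⁻¹, inv_mem h1, inv_pow _ _⟩ }
    have hQqQ : Qq ≤ Q := by
      rintro _ ⟨y, h1, rfl⟩
      exact pow_mem h1 q
    have hQqne : Qq ≠ Q := by
      intro h
      obtain ⟨y₀, hy₀⟩ := exists_prime_orderOf_dvd_card' (G := ↥Q) q hqQ
      have hinj : ¬ Function.Injective (fun y : ↥Q => y ^ q) := by
        intro hi
        have h1 : y₀ ^ q = (1 : ↥Q) ^ q := by rw [← hy₀, pow_orderOf_eq_one, one_pow]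
        have h2 : y₀ = 1 := hi h1
        rw [h2, orderOf_one] at hy₀
        exact hq.one_lt.ne hy₀
      apply hinj
      apply Finite.injective_iff_surjective.2
      intro x
      have hx : (x : G) ∈ Qq := by rw [h]; exact x.2
      obtain ⟨y, h1, h2⟩ := hx
      exact ⟨⟨y, h1⟩, Subtype.ext h2⟩
    have hnorm : ∀ {X : Subgroup G}, X ≤ normalizer (Q : Set G) →
        X ≤ normalizer (Qq : Set G) := by
      intro X hX
      apply HH.le_normalizer_of_conj_mem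
      rintro g hg _ ⟨y, h1, rfl⟩
      exact ⟨g * y * g⁻¹, HH.conj_mem_of_mem_normalizer (hX hg) h1, conj_pow⟩
    have h1 := hm2 Qq hQqQ hQqne (hnorm hSQ) (hnorm hRQ)
    rw [commutator_eq_bot_iff_le_centralizer] at h1
    intro a ha
    have h2 : a ^ q ∈ Q ⊓ centralizer (S : Set G) :=
      mem_inf.2 ⟨pow_mem ha q, h1 ⟨a, ha, rfl⟩⟩
    rw [hCQS, mem_bot] at h2
    exact h2
  have hV : V ≠ ⊥ := by
    intro h
    apply hQ
    rw [eq_bot_iff, ← hfaith]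
    intro a ha
    refine mem_inf.2 ⟨ha, ?_⟩
    rw [h]
    exact mem_centralizer_bot a
  obtain ⟨B₀, hB₀, hB₀fix⟩ := exists_hyp hq hqp hQc hQq hVc hVp hQV hV hVQ
  -- `S` normalizes `B₀`
  have hSB₀ : S ≤ normalizer (B₀ : Set G) := by
    refine perm_fix hS hr hrp hodd hRS hSfix
      (fun B => IsHyp q B Q ∧ V ⊓ centralizer (B : Set G) ≠ ⊥) ?_ ?_ B₀ ⟨hB₀, hB₀fix⟩
    · rintro B ⟨h1, h2⟩ s hs
      exact ⟨isHyp_conj (hSQ hs) h1, cent_conj_ne_bot (hSV hs) h2⟩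
    · rintro B B' ⟨h1, h2⟩ ⟨h1', h2'⟩ h3 h3'
      exact conj_of_hyp hq hQc hQV hVc hVp hRQ hRV hr hQp hVQ h1 h1' h3 h3' h2 h2' hcyc
  by_cases hRB₀ : R₀ ≤ normalizer (B₀ : Set G)
  · -- `B₀ = 1` and `Q` has order `q`
    have hB₀ne : B₀ ≠ Q := by
      intro h
      have h1 := hB₀.2
      rw [h] at h1
      have h2 : Nat.card Q * q = Nat.card Q * 1 := by rw [h1, mul_one]
      have h3 := Nat.eq_of_mul_eq_mul_left Nat.card_pos h2
      exact hq.one_lt.ne' h3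
    have h1 := hm2 B₀ hB₀.1 hB₀ne hSB₀ hRB₀
    rw [commutator_eq_bot_iff_le_centralizer] at h1
    have h2 : B₀ ≤ Q ⊓ centralizer (S : Set G) := le_inf hB₀.1 h1
    rw [hCQS, le_bot_iff] at h2
    have hcard : Nat.card Q = q := by
      have h3 := hB₀.2
      rw [h2, card_bot, one_mul] at h3
      exact h3.symm
    obtain ⟨g, hg, hgen⟩ := exists_gen_of_isCyclic (isCyclic_of_prime_card hcard)
    have h4 : ⁅S, R₀⁆ ≤ centralizer (Q : Set G) := by
      rw [commutator_le]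
      intro s hs ρ hρ
      exact comm_centralizes_of_gen hg hgen (hSQ hs) (hRQ hρ)
    have h5 : S ≤ centralizer (Q : Set G) := hSRS.trans h4
    apply hQ
    rw [← hQS, commutator_eq_bot_iff_le_centralizer, le_centralizer_iff]
    exact h5
  · -- `C_V(B₀)` has order `p`
    obtain ⟨X, hXdef⟩ : ∃ X : Subgroup G, X = V ⊓ centralizer (B₀ : Set G) := ⟨_, rfl⟩
    have hXcyc := cyc_of_hyp hq hQc hQV hVc hVp hRQ hRV hr hQp hVQ hB₀ hRB₀ hcyc
    rw [← hXdef] at hXcyc hB₀fix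
    have hXV : X ≤ V := hXdef ▸ inf_le_left
    have hSX : S ≤ normalizer (X : Set G) := by
      intro s hs
      rw [hXdef]
      exact HH.mem_normalizer_inf (hSV hs) (HH.mem_normalizer_centralizer (hSB₀ hs))
    have hQX : Q ≤ normalizer (X : Set G) := by
      intro a ha
      rw [hXdef]
      exact HH.mem_normalizer_inf (hQV ha)
        (HH.mem_normalizer_centralizer (le_normalizer_of_abelian hQc hB₀.1 ha))
    have hScX : S ≤ centralizer (X : Set G) := by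
      intro s hs
      obtain ⟨n, hn⟩ := hS ⟨s, hs⟩
      exact centralizes_of_cyc (fun x hx => hVp x (hXV hx)) hXcyc (hSX hs)
        (congrArg Subtype.val hn)
    have h1 := commutator_le_centralizer hQX hScX
    rw [hQS, le_centralizer_iff] at h1
    apply hB₀fix
    rw [eq_bot_iff, ← hVQ]
    exact le_inf hXV h1

end Cfsg.Agent.Lib.Helper72.ZG
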