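import Mathlib
import Cfsg.Agent.Lib.Helper72.ZGAb
import Cfsg.Agent.Lib.Helper72.HHBurn

/-! Tools for the nonabelian case of the key lemma for `Z`-group centralizers (helper72). -/

set_option autoImplicit false
set_option linter.style.haveILetI false
set_option linter.unusedSectionVars false

namespace Cfsg.Agent.Lib.Helper72.ZG

open Subgroup
open scoped commutatorElement Pointwise

universe u

section NF

variable {G : Type u} [Group G] [Finite G]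

/-- If `R₀` of prime order `r` normalizes the `t`-group `T` (`t` odd), both normalize the
`ℓ`-group `P`, and `C_P(R₀) ≤ Φ(P)`, then `[T, R₀]` centralizes `P`. -/
theorem nf' (H : HH.S3764Prop.{u}) (P T R₀ : Subgroup G)
    {ℓ t r : ℕ} (hℓ : ℓ.Prime) (ht : t.Prime) (hr : r.Prime) (hℓt : ℓ ≠ t) (hℓr : ℓ ≠ r)
    (htr : t ≠ r) (ht2 : t ≠ 2) (hR : Nat.card R₀ = r) (hT : IsPGroup t T) (hP : IsPGroup ℓ P)
    (hRT : R₀ ≤ normalizer (T : Set G)) (hTP : T ≤ normalizer (P : Set G))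
    (hRP : R₀ ≤ normalizer (P : Set G))
    (hfix : P ⊓ centralizer (R₀ : Set G) ≤ (frattini ↥P).map P.subtype) :
    ⁅T, R₀⁆ ≤ centralizer (P : Set G) := by
  classical
  haveI : Fact ℓ.Prime := ⟨hℓ⟩
  haveI : Fact t.Prime := ⟨ht⟩
  obtain ⟨Φ, hΦdef⟩ : ∃ Φ : Subgroup G, Φ = (frattini ↥P).map P.subtype := ⟨_, rfl⟩
  rw [← hΦdef] at hfix
  have hΦP : Φ ≤ P := hΦdef ▸ map_subtype_le _
  have hΦn : normalizer (P : Set G) ≤ normalizer (Φ : Set G) := by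
    rw [hΦdef]
    exact fun g hg => HH.mem_normalizer_map_of_characteristic (frattini ↥P) hg
  have hΦcard : ∀ {m : ℕ}, m.Coprime ℓ → m.Coprime (Nat.card Φ) := by
    intro m hm
    obtain ⟨n, hn⟩ := IsPGroup.iff_card.1 (hP.to_le hΦP)
    rw [hn]
    exact Nat.Coprime.pow_right n hm
  have hmemΦ : ∀ a : ↥P, (a : G) ∈ Φ → a ∈ frattini ↥P := by
    intro a ha
    rw [hΦdef] at ha
    obtain ⟨b, hb, hba⟩ := ha
    have : b = a := Subtype.ext hba
    rw [← this]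
    exact hb
  letI : CommGroup (↥P ⧸ frattini ↥P) := HH.fratCommGroup hP
  let φ : ↥(normalizer (P : Set G)) →* MulAut (↥P ⧸ frattini ↥P) :=
    (HH.quotAut (frattini ↥P)).comp (HH.conjHom P)
  have hφ : ∀ (g : ↥(normalizer (P : Set G))) (a : ↥P),
      φ g (QuotientGroup.mk a) = QuotientGroup.mk (HH.conjHom P g a) :=
    fun g a => HH.quotAut_mk _ _ _
  have htrans : ∀ (g : ↥(normalizer (P : Set G))) (a : ↥P),
      φ g (QuotientGroup.mk a) = QuotientGroup.mk a →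
      (a : G)⁻¹ * ((g : G) * a * (g : G)⁻¹) ∈ Φ := by
    intro g a h
    rw [hφ, QuotientGroup.eq] at h
    have h1 : ((a⁻¹ * HH.conjHom P g a : ↥P) : G) ∈ Φ := by
      rw [hΦdef]
      refine ⟨a⁻¹ * HH.conjHom P g a, ?_, rfl⟩
      have h2 := inv_mem h
      have e : ((HH.conjHom P g a)⁻¹ * a)⁻¹ = a⁻¹ * HH.conjHom P g a := by group
      rw [e] at h2
      exact h2
    exact h1
  have hVp : ∀ v : ↥P ⧸ frattini ↥P, v ^ ℓ = 1 := by
    intro v
    induction v using QuotientGroup.induction_on with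
    | H a =>
      rw [← QuotientGroup.mk_pow, QuotientGroup.eq_one_iff]
      exact pow_mem_frattini hP a
  have hsolvR : Group.IsSolvable ↥R₀ := HH.isSolvable_of_prime_card hr R₀ hR
  have hfixV : ∀ v : ↥P ⧸ frattini ↥P,
      (∀ x ∈ R₀.subgroupOf (normalizer (P : Set G)), φ x v = v) → v = 1 := by
    intro v
    induction v using QuotientGroup.induction_on with
    | H a =>
      intro hv
      have hx : ∀ x ∈ R₀, (a : G)⁻¹ * (x * a * x⁻¹) ∈ Φ := by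
        intro x hx
        exact htrans ⟨x, hRP hx⟩ a (hv ⟨x, hRP hx⟩ (mem_subgroupOf.2 hx))
      obtain ⟨d, hd, hc⟩ := Cfsg.Agent.Lib.Helper1.coprime_coset_fixed (hRP.trans hΦn)
        (hΦcard (by rw [hR]; exact (Nat.coprime_primes hr hℓ).2 hℓr.symm))
        (Or.inl hsolvR) (a : G) hx
      have h1 : (a : G) * d ∈ Φ := hfix (mem_inf.2 ⟨mul_mem a.2 (hΦP hd), hc⟩)
      have h2 : (a : G) ∈ Φ := by
        have := mul_mem h1 (inv_mem hd)
        simpa using this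
      rw [QuotientGroup.eq_one_iff]
      exact hmemΦ a h2
  have hact := HH.act H φ hℓ ht hr hℓt hℓr htr hVp (R₀.subgroupOf (normalizer (P : Set G)))
    (T.subgroupOf (normalizer (P : Set G)))
    (by rw [Nat.card_congr (subgroupOfEquivOfLe hRP).toEquiv, hR]) hT.comap_subtype
    (HH.subgroupOf_le_normalizer _ hRT) hfixV (Or.inr (fun h => ht2 h.1))
  obtain ⟨D, hDdef⟩ : ∃ D : Subgroup G, D = ⁅T, R₀⁆ := ⟨_, rfl⟩
  rw [← hDdef]
  have hDT : D ≤ T := hDdef ▸ HH.commutator_le_left_of_normalizer hRT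
  have hDP : D ≤ normalizer (P : Set G) := hDT.trans hTP
  have hmap : (⁅T.subgroupOf (normalizer (P : Set G)),
      R₀.subgroupOf (normalizer (P : Set G))⁆).map (normalizer (P : Set G)).subtype = D := by
    rw [map_commutator, map_subgroupOf_eq_of_le hTP, map_subgroupOf_eq_of_le hRP, hDdef]
  have hDtriv : ∀ d ∈ D, ∀ a ∈ P, a⁻¹ * (d * a * d⁻¹) ∈ Φ := by
    intro d hd a ha
    rw [← hmap] at hd
    obtain ⟨g, hg, rfl⟩ := hd
    have h1 := hact g hg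
    have h2 : φ g (QuotientGroup.mk (⟨a, ha⟩ : ↥P)) = QuotientGroup.mk (⟨a, ha⟩ : ↥P) := by
      rw [h1]; rfl
    exact htrans g ⟨a, ha⟩ h2
  haveI : Group.IsNilpotent ↥D := (hT.to_le hDT).isNilpotent
  have hcopD : (Nat.card D).Coprime (Nat.card Φ) := by
    apply hΦcard
    obtain ⟨k, hk⟩ := IsPGroup.iff_card.1 (hT.to_le hDT)
    rw [hk]
    exact Nat.Coprime.pow_left k ((Nat.coprime_primes ht hℓ).2 hℓt.symm)
  have hgen : ((P ⊓ centralizer (D : Set G)).subgroupOf P) ⊔ frattini ↥P = ⊤ := by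
    rw [eq_top_iff]
    intro a _
    obtain ⟨c, hc, hac⟩ := Cfsg.Agent.Lib.Helper1.coprime_coset_fixed (hDP.trans hΦn) hcopD
      (Or.inl inferInstance) (a : G) (fun d hd => hDtriv d hd a a.2)
    rw [hΦdef] at hc
    obtain ⟨c', hc', rfl⟩ := hc
    have e : a = (a * c') * c'⁻¹ := by group
    rw [e]
    refine mul_mem_sup ?_ (inv_mem hc')
    rw [mem_subgroupOf]
    exact mem_inf.2 ⟨(a * c').2, hac⟩
  have htop := frattini_nongenerating hgen
  rw [le_centralizer_iff]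
  intro a ha
  have h1 : (⟨a, ha⟩ : ↥P) ∈ (P ⊓ centralizer (D : Set G)).subgroupOf P := by
    rw [htop]; exact mem_top _
  rw [mem_subgroupOf] at h1
  exact (mem_inf.1 h1).2

/-- **Fact Z.** If the `q`-group `Q` equals `[Q, S]` for a coprime group `S`, then
`C_Q(S) ≤ Φ(Q)`. -/
theorem cent_le_frattini {Q S : Subgroup G} {q : ℕ} [Fact q.Prime] (hQ : IsPGroup q Q)
    (hSQ : S ≤ normalizer (Q : Set G)) (hcop : (Nat.card S).Coprime q) (hQS : Q ≤ ⁅Q, S⁆) :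
    Q ⊓ centralizer (S : Set G) ≤ (frattini ↥Q).map Q.subtype := by
  classical
  letI : CommGroup (↥Q ⧸ frattini ↥Q) := HH.fratCommGroup hQ
  haveI : Fintype ↥S := Fintype.ofFinite _
  let ψ : ↥S →* MulAut (↥Q ⧸ frattini ↥Q) :=
    ((HH.quotAut (frattini ↥Q)).comp (HH.conjHom Q)).comp (Subgroup.inclusion hSQ)
  have hψ : ∀ (s : ↥S) (a : ↥Q),
      ψ s (QuotientGroup.mk a) = QuotientGroup.mk (HH.conjHom Q (Subgroup.inclusion hSQ s) a) :=
    fun s a => HH.quotAut_mk _ _ _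
  have hker : ⁅Q, S⁆ ≤
      (((nrmH ψ).comp (QuotientGroup.mk' (frattini ↥Q))).ker).map Q.subtype := by
    rw [commutator_le]
    intro a ha s hs
    have hb' : s * a⁻¹ * s⁻¹ ∈ Q := HH.conj_mem_of_mem_normalizer (hSQ hs) (inv_mem ha)
    refine ⟨⟨a, ha⟩ * ⟨s * a⁻¹ * s⁻¹, hb'⟩, ?_, ?_⟩
    · show nrmH ψ (QuotientGroup.mk' (frattini ↥Q) (⟨a, ha⟩ * ⟨s * a⁻¹ * s⁻¹, hb'⟩)) = 1
      rw [map_mul, map_mul]
      have e : QuotientGroup.mk' (frattini ↥Q) (⟨s * a⁻¹ * s⁻¹, hb'⟩ : ↥Q)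
          = ψ ⟨s, hs⟩ (QuotientGroup.mk' (frattini ↥Q) (⟨a, ha⟩ : ↥Q)⁻¹) := by
        rw [QuotientGroup.mk'_apply, QuotientGroup.mk'_apply, hψ]
        rfl
      rw [e, nrmH_smul, map_inv, map_inv, mul_inv_cancel]
    · show a * (s * a⁻¹ * s⁻¹) = ⁅a, s⁆
      rw [commutatorElement_def]; group
  intro x hx
  obtain ⟨hxQ, hxS⟩ := mem_inf.1 hx
  obtain ⟨z, hz, hzx⟩ := hker (hQS hxQ)
  have hz' : z = ⟨x, hxQ⟩ := Subtype.ext hzx
  rw [hz'] at hz
  have h1 : nrmH ψ (QuotientGroup.mk (⟨x, hxQ⟩ : ↥Q)) = 1 := hz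
  have h2 : nrmH ψ (QuotientGroup.mk (⟨x, hxQ⟩ : ↥Q))
      = (QuotientGroup.mk (⟨x, hxQ⟩ : ↥Q) : ↥Q ⧸ frattini ↥Q) ^ Nat.card S := by
    apply nrmH_of_fixed
    intro s
    rw [hψ]
    congr 1
    apply Subtype.ext
    show (s : G) * x * (s : G)⁻¹ = x
    exact (mem_centralizer_iff_conj.1 hxS) s s.2
  rw [h2] at h1
  have h3 : (QuotientGroup.mk (⟨x, hxQ⟩ : ↥Q) : ↥Q ⧸ frattini ↥Q) ^ q = 1 := by
    rw [← QuotientGroup.mk_pow, QuotientGroup.eq_one_iff]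
    exact pow_mem_frattini hQ _
  have h4 := eq_one_of_pow_of_pow hcop h1 h3
  rw [QuotientGroup.eq_one_iff] at h4
  exact ⟨⟨x, hxQ⟩, h4, rfl⟩

end NF

section Red

variable {G : Type u} [Group G] [Finite G]

/-- **(m2')** a proper invariant normal subgroup of `Q = [Q, S]` is central -/
theorem le_centralizer_of_m2 {Q S R₀ Q₀ : Subgroup G} (hQS : ⁅Q, S⁆ = Q)
    (hm2 : ∀ Q₀ : Subgroup G, Q₀ ≤ Q → Q₀ ≠ Q → S ≤ normalizer (Q₀ : Set G) →
      R₀ ≤ normalizer (Q₀ : Set G) → ⁅Q₀, S⁆ = ⊥)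
    (h1 : Q₀ ≤ Q) (h2 : Q₀ ≠ Q) (h3 : S ≤ normalizer (Q₀ : Set G))
    (h4 : R₀ ≤ normalizer (Q₀ : Set G)) (h5 : Q ≤ normalizer (Q₀ : Set G)) :
    Q₀ ≤ centralizer (Q : Set G) := by
  have h6 := hm2 Q₀ h1 h2 h3 h4
  have h7 : ⁅⁅Q, Q₀⁆, S⁆ = ⊥ := by
    rw [eq_bot_iff, ← h6]
    apply commutator_mono _ le_rfl
    rw [commutator_comm]
    exact HH.commutator_le_left_of_normalizer h5
  have h8 : ⁅⁅Q₀, S⁆, Q⁆ = ⊥ := by rw [h6]; exact commutator_bot_left Q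
  have h9 := commutator_commutator_eq_bot_of_rotate h7 h8
  rw [commutator_comm S Q, hQS, commutator_eq_bot_iff_le_centralizer] at h9
  rw [le_centralizer_iff]
  exact h9

/-- **(n1)** `Q` is a group of prime power order -/
theorem exists_prime_isPGroup [Group.IsSolvable G] {Q S R₀ : Subgroup G} {p : ℕ} [Fact p.Prime]
    (hQ : Q ≠ ⊥) (hQp : (Nat.card Q).Coprime p) (hS : IsPGroup p S)
    (hrQ : (Nat.card Q).Coprime (Nat.card R₀)) (hrp : (Nat.card R₀).Coprime p)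
    (hSQ : S ≤ normalizer (Q : Set G)) (hRQ : R₀ ≤ normalizer (Q : Set G))
    (hRS : R₀ ≤ normalizer (S : Set G)) (hQS : ⁅Q, S⁆ = Q)
    (hm2 : ∀ Q₀ : Subgroup G, Q₀ ≤ Q → Q₀ ≠ Q → S ≤ normalizer (Q₀ : Set G) →
      R₀ ≤ normalizer (Q₀ : Set G) → ⁅Q₀, S⁆ = ⊥) :
    ∃ q : ℕ, q.Prime ∧ IsPGroup q Q := by
  classical
  by_contra hcon
  push Not at hcon
  have hcopRS : (Nat.card R₀).Coprime (Nat.card S) := by
    obtain ⟨k, hk⟩ := IsPGroup.iff_card.1 hS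
    rw [hk]
    exact Nat.Coprime.pow_right k hrp
  have hcardA : Nat.card (R₀ ⊔ S : Subgroup G) = Nat.card S * Nat.card R₀ := by
    haveI := Subgroup.normal_subgroupOf_sup_of_le_normalizer hRS
    have h1 := Cfsg.Agent.Lib.Helper1.card_subgroupOf_sup_eq_index hRS hcopRS
    have h2 := card_mul_index (S.subgroupOf (R₀ ⊔ S))
    rw [← h1, Cfsg.Agent.Lib.Helper1.card_subgroupOf_of_le le_sup_right,
      Cfsg.Agent.Lib.Helper1.card_subgroupOf_of_le le_sup_left] at h2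
    exact h2.symm
  have hcopA : (Nat.card (R₀ ⊔ S : Subgroup G)).Coprime (Nat.card Q) := by
    rw [hcardA]
    apply Nat.Coprime.mul_left _ hrQ.symm
    obtain ⟨k, hk⟩ := IsPGroup.iff_card.1 hS
    rw [hk]
    exact Nat.Coprime.pow_left k hQp.symm
  have hAQ : R₀ ⊔ S ≤ normalizer (Q : Set G) := sup_le hRQ hSQ
  have hT : Q ⊓ centralizer (S : Set G) = Q := by
    apply HH.eq_of_sylow_le inf_le_left
    intro q hqF
    obtain ⟨P, hP⟩ := Cfsg.Agent.Lib.Helper1.exists_invariant_sylow hAQ hcopA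
      (Or.inl inferInstance) q
    refine ⟨P, ?_⟩
    have hPQ : (P : Subgroup ↥Q).map Q.subtype ≤ Q := map_subtype_le _
    have hne : (P : Subgroup ↥Q).map Q.subtype ≠ Q := by
      intro h
      apply hcon q hqF.out
      rw [← h]
      exact P.isPGroup'.map Q.subtype
    have h1 := hm2 _ hPQ hne (le_sup_right.trans hP) (le_sup_left.trans hP)
    rw [commutator_eq_bot_iff_le_centralizer] at h1
    exact le_inf hPQ h1
  apply hQ
  have h2 : Q ≤ centralizer (S : Set G) := by rw [← hT]; exact inf_le_right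
  rw [← hQS, commutator_eq_bot_iff_le_centralizer]
  exact h2

/-- **(K)** if `R₀` acts trivially on `Q / C` and `S = [S, R₀]`, then `S` acts trivially on
`Q / C` -/
theorem commutator_le_of_trivial {Q C S R₀ : Subgroup G}
    (hSQ : S ≤ normalizer (Q : Set G)) (hSC : S ≤ normalizer (C : Set G))
    (hRQ : R₀ ≤ normalizer (Q : Set G)) (hRC : R₀ ≤ normalizer (C : Set G))
    (hR : ⁅R₀, Q⁆ ≤ C) (hS : S ≤ ⁅S, R₀⁆) : ⁅Q, S⁆ ≤ C := by
  let Ker : Subgroup G :=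
    { carrier := {g | g ∈ normalizer (Q : Set G) ∧ g ∈ normalizer (C : Set G) ∧
        ∀ x ∈ Q, g * x * g⁻¹ * x⁻¹ ∈ C}
      mul_mem' := by
        rintro g h ⟨hg1, hg2, hg3⟩ ⟨hh1, hh2, hh3⟩
        refine ⟨mul_mem hg1 hh1, mul_mem hg2 hh2, fun x hx => ?_⟩
        have e : g * h * x * (g * h)⁻¹ * x⁻¹
            = (g * (h * x * h⁻¹ * x⁻¹) * g⁻¹) * (g * x * g⁻¹ * x⁻¹) := by group
        rw [e]
        exact mul_mem (HH.conj_mem_of_mem_normalizer hg2 (hh3 x hx)) (hg3 x hx)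
      one_mem' := ⟨one_mem _, one_mem _, fun x _ => by simp⟩
      inv_mem' := by
        rintro g ⟨hg1, hg2, hg3⟩
        refine ⟨inv_mem hg1, inv_mem hg2, fun x hx => ?_⟩
        have h1 := hg3 _ (HH.conj_mem_of_mem_normalizer' hg1 hx)
        have e : g⁻¹ * x * g⁻¹⁻¹ * x⁻¹ = (g * (g⁻¹ * x * g) * g⁻¹ * (g⁻¹ * x * g)⁻¹)⁻¹ := by
          group
        rw [e]
        exact inv_mem h1 }
  have hRK : R₀ ≤ Ker := by
    intro ρ hρ
    refine ⟨hRQ hρ, hRC hρ, fun x hx => ?_⟩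
    exact hR (commutator_mem_commutator hρ hx)
  have hSK : ⁅S, R₀⁆ ≤ Ker := by
    rw [commutator_le]
    intro s hs ρ hρ
    have h1 : s * ρ * s⁻¹ ∈ Ker := by
      obtain ⟨h1, h2, h3⟩ := hRK hρ
      refine ⟨mul_mem (mul_mem (hSQ hs) h1) (inv_mem (hSQ hs)),
        mul_mem (mul_mem (hSC hs) h2) (inv_mem (hSC hs)), fun x hx => ?_⟩
      have h4 := h3 _ (HH.conj_mem_of_mem_normalizer' (hSQ hs) hx)
      have e : s * ρ * s⁻¹ * x * (s * ρ * s⁻¹)⁻¹ * x⁻¹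
          = s * (ρ * (s⁻¹ * x * s) * ρ⁻¹ * (s⁻¹ * x * s)⁻¹) * s⁻¹ := by group
      rw [e]
      exact HH.conj_mem_of_mem_normalizer (hSC hs) h4
    have e : ⁅s, ρ⁆ = (s * ρ * s⁻¹) * ρ⁻¹ := by rw [commutatorElement_def]
    rw [e]
    exact mul_mem h1 (inv_mem (hRK hρ))
  rw [commutator_le]
  intro x hx s hs
  obtain ⟨-, -, h3⟩ := hSK (hS hs)
  have h4 := inv_mem (h3 x hx)
  have e : (s * x * s⁻¹ * x⁻¹)⁻¹ = ⁅x, s⁆ := by rw [commutatorElement_def]; group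
  rw [e] at h4
  exact h4

/-- coprime action: `X = C_X(A) [X, A]` -/
theorem le_cent_mul_commutator {X A : Subgroup G} (hAX : A ≤ normalizer (X : Set G))
    (hcop : (Nat.card A).Coprime (Nat.card X))
    (hsolv : Group.IsSolvable ↥A ∨ Group.IsSolvable ↥X) :
    ∀ x ∈ X, ∃ c ∈ X ⊓ centralizer (A : Set G), ∃ d ∈ ⁅X, A⁆, x = c * d := by
  intro x hx
  have hDX : ⁅X, A⁆ ≤ X := HH.commutator_le_left_of_normalizer hAX
  obtain ⟨d, hd, hc⟩ := Cfsg.Agent.Lib.Helper1.coprime_coset_fixed (A := A) (D := ⁅X, A⁆)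
    (normalizer_commutator_ge_right X A)
    (Nat.Coprime.coprime_dvd_right (card_dvd_of_le hDX) hcop)
    (Cfsg.Agent.Lib.Helper1.solvable_or_of_le hDX hsolv) x (by
      intro a ha
      have h1 := commutator_mem_commutator (inv_mem hx) ha
      have e : x⁻¹ * (a * x * a⁻¹) = ⁅x⁻¹, a⁆ := by rw [commutatorElement_def]; group
      rw [e]
      exact h1)
  exact ⟨x * d, mem_inf.2 ⟨mul_mem hx (hDX hd), hc⟩, d⁻¹, inv_mem hd, by group⟩

/-- coprime action: `[X, A, A] = [X, A]` -/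
theorem commutator_commutator_eq {X A : Subgroup G} (hAX : A ≤ normalizer (X : Set G))
    (h : ∀ x ∈ X, ∃ c ∈ X ⊓ centralizer (A : Set G), ∃ d ∈ ⁅X, A⁆, x = c * d) :
    ⁅⁅X, A⁆, A⁆ = ⁅X, A⁆ := by
  have hDX : ⁅X, A⁆ ≤ X := HH.commutator_le_left_of_normalizer hAX
  apply le_antisymm (commutator_mono hDX le_rfl)
  rw [commutator_le]
  intro x hx a ha
  obtain ⟨c, hc, d, hd, rfl⟩ := h x hx
  have hca : a * c = c * a := (mem_centralizer_iff.1 (mem_inf.1 hc).2) a ha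
  have hcd : c * d * c⁻¹ ∈ ⁅X, A⁆ :=
    HH.conj_mem_of_mem_normalizer (normalizer_commutator_ge_left X A (mem_inf.1 hc).1) hd
  have h1 : c⁻¹ * a * c = a := by rw [mul_assoc, hca]; group
  have e : ⁅c * d, a⁆ = ⁅c * d * c⁻¹, a⁆ := by
    calc ⁅c * d, a⁆ = c * d * a * d⁻¹ * c⁻¹ * a⁻¹ := by rw [commutatorElement_def]; group
      _ = c * d * (c⁻¹ * a * c) * d⁻¹ * c⁻¹ * a⁻¹ := by rw [h1]
      _ = ⁅c * d * c⁻¹, a⁆ := by rw [commutatorElement_def]; group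
  rw [e]
  exact commutator_mem_commutator hcd ha

end Red

end Cfsg.Agent.Lib.Helper72.ZG
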