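import Mathlib
import Cfsg.Agent.Lib.Helper48.QADefs

/-! Project QA (helper48, S2787), piece QA-BR (helper72): braid relation + `(XY)³ = 1` for
quadratic elements forces `N = M`. -/

set_option autoImplicit false

universe u

namespace Cfsg.Agent.Lib.Helper48.QA

open Matrix Polynomial

/-- QA-BR -/
theorem braid_eq {R : Type*} [Ring R] (h2 : IsUnit (2 : R)) (N M : R) (hN : N * N = 0)
    (hM : M * M = 0) (hb : (1 + N) * (1 + M) * (1 + N) = (1 + M) * (1 + N) * (1 + M))
    (h3 : ((1 + N) * (1 + M)) ^ 3 = 1) : N = M := by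
  -- (*) N + N M N = M + M N M
  have hstar : N + N * M * N = M + M * N * M := by
    have e : N + N * M * N - (M + M * N * M) =
        ((1 + N) * (1 + M) * (1 + N) - (1 + M) * (1 + N) * (1 + M)) - N * N + M * M := by
      noncomm_ring
    rw [hb, sub_self, hN, hM, sub_zero, add_zero] at e
    exact sub_eq_zero.mp e
  -- P + P² = 0 for P = N M
  have hP : N * M + N * M * (N * M) = 0 := by
    have e : N * M + N * M * (N * M) = N * (M + M * N * M) := by noncomm_ring
    rw [e, ← hstar]
    have e2 : N * (N + N * M * N) = N * N * (1 + M * N) := by noncomm_ring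
    rw [e2, hN, zero_mul]
  have h1 : (1 + N) * (1 + M) * (N * M) = M * (N * M) := by
    have e : (1 + N) * (1 + M) * (N * M) - M * (N * M) =
        N * N * M + (N * M + N * M * (N * M)) := by noncomm_ring
    rw [hN, hP, zero_mul, add_zero] at e
    exact sub_eq_zero.mp e
  have h2' : (1 + N) * (1 + M) * (M * (N * M)) = M * (N * M) - N * M := by
    have e : (1 + N) * (1 + M) * (M * (N * M)) - (M * (N * M) - N * M) =
        (N * M + N * M * (N * M)) + M * M * (N * M) + N * (M * M) * (N * M) := by noncomm_ring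
    rw [hM, hP, zero_mul, mul_zero, zero_mul, add_zero, add_zero] at e
    exact sub_eq_zero.mp e
  have hW3 : ((1 + N) * (1 + M)) ^ 3 * (N * M) = -(N * M) := by
    calc ((1 + N) * (1 + M)) ^ 3 * (N * M)
        = (1 + N) * (1 + M) * ((1 + N) * (1 + M) * ((1 + N) * (1 + M) * (N * M))) := by
          rw [pow_succ, pow_two]; simp only [mul_assoc]
      _ = (1 + N) * (1 + M) * ((1 + N) * (1 + M) * (M * (N * M))) := by rw [h1]
      _ = (1 + N) * (1 + M) * (M * (N * M) - N * M) := by rw [h2']
      _ = (1 + N) * (1 + M) * (M * (N * M)) - (1 + N) * (1 + M) * (N * M) := mul_sub _ _ _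
      _ = (M * (N * M) - N * M) - M * (N * M) := by rw [h2', h1]
      _ = -(N * M) := by abel
  rw [h3, one_mul] at hW3
  have h2P : (2 : R) * (N * M) = 0 := by
    rw [two_mul]
    nth_rewrite 1 [hW3]
    exact neg_add_cancel _
  have hNM : N * M = 0 := (h2.mul_right_eq_zero).mp h2P
  have hN' : N = M + M * N * M := by
    have := hstar
    rw [hNM, zero_mul, add_zero] at this
    exact this
  have hMN : M * N = 0 := by
    have e : M * N = M * (M + M * N * M) := by rw [← hN']
    rw [e]
    have e2 : M * (M + M * N * M) = M * M * (1 + N * M) := by noncomm_ring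
    rw [e2, hM, zero_mul]
  rw [hN']
  rw [hMN, zero_mul, add_zero]

end Cfsg.Agent.Lib.Helper48.QA
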