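import Mathlib
import Cfsg.Agent.Lib.Helper81.AQDefs

/-! Project AQ (helper81, S3911), piece SUP (helper72). -/

set_option autoImplicit false

namespace Cfsg.Agent.Lib.Helper81.AQ

variable {G : Type*} [Group G]

-- piece SUP
theorem sup_eq_of_fact [Finite G] (M A L : Subgroup G) (hML : M ≤ L) (hAL : A ≤ L)
    (hF : FactC A L (M.relIndex L)) : A ⊔ M = L := by
  have hle : A ⊔ M ≤ L := sup_le hAL hML
  have hcard : Nat.card M * M.relIndex L = Nat.card L := by
    have h := Subgroup.relIndex_mul_relIndex (⊥ : Subgroup G) M L bot_le hML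
    rw [Subgroup.relIndex_bot_left, Subgroup.relIndex_bot_left] at h
    exact h
  have hLpos : Nat.card L ≠ 0 := Nat.card_pos.ne'
  have hSpos : Nat.card (A ⊔ M : Subgroup G) ≠ 0 := Nat.card_pos.ne'
  have hMpos : Nat.card M ≠ 0 := Nat.card_pos.ne'
  have hApos : Nat.card A ≠ 0 := Nat.card_pos.ne'
  have hdpos : M.relIndex L ≠ 0 := by
    intro h0
    rw [h0, mul_zero] at hcard
    exact hLpos hcard.symm
  have hA : Nat.card A ∣ Nat.card (A ⊔ M : Subgroup G) := Subgroup.card_dvd_of_le le_sup_left
  have hM : Nat.card M ∣ Nat.card (A ⊔ M : Subgroup G) := Subgroup.card_dvd_of_le le_sup_right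
  have hdvd : Nat.card L ∣ Nat.card (A ⊔ M : Subgroup G) := by
    rw [← Nat.factorization_le_iff_dvd hLpos hSpos]
    intro q
    by_cases hq : q.Prime
    · by_cases hqd : q ∣ M.relIndex L
      · have h1 := hF q hq
        rw [if_pos hqd] at h1
        rw [← h1]
        exact (Nat.factorization_le_iff_dvd hApos hSpos).mpr hA q
      · have h1 : (Nat.card L).factorization q = (Nat.card M).factorization q := by
          rw [← hcard, Nat.factorization_mul hMpos hdpos]
          simp [Nat.factorization_eq_zero_of_not_dvd hqd]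
        rw [h1]
        exact (Nat.factorization_le_iff_dvd hMpos hSpos).mpr hM q
    · simp [Nat.factorization_eq_zero_of_not_prime _ hq]
  exact Subgroup.eq_of_le_of_card_ge hle (Nat.le_of_dvd Nat.card_pos hdvd)

end Cfsg.Agent.Lib.Helper81.AQ
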