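import Mathlib

set_option autoImplicit false
set_option linter.style.haveILetI false

namespace Cfsg.Agent.Lib.Helper72

open Polynomial

section Lin

variable {p q : ℕ} [hp : Fact p.Prime] [hq : Fact q.Prime]

/-- `Φ_q(T) = 0` for a fixed-point-free endomorphism with `T ^ q = 1`. -/
theorem aeval_cyclotomic_eq_zero {M : Type*} [AddCommGroup M] [Module (ZMod p) M]
    (T : Module.End (ZMod p) M) (hTq : T ^ q = 1) (hfix : ∀ v, T v = v → v = 0) :
    aeval T (cyclotomic q (ZMod p)) = 0 := by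
  have h1 : aeval T (cyclotomic q (ZMod p) * (X - 1)) = 0 := by
    rw [cyclotomic_prime_mul_X_sub_one]
    simp [hTq]
  have h2 : (aeval T (X - 1 : (ZMod p)[X])) * aeval T (cyclotomic q (ZMod p)) = 0 := by
    rw [← map_mul, mul_comm]; exact h1
  ext v
  apply hfix
  have h3 := congrArg (fun f : Module.End (ZMod p) M => f v) h2
  simp only [map_sub, aeval_X, map_one, Module.End.mul_apply, LinearMap.sub_apply,
    Module.End.one_apply, LinearMap.zero_apply] at h3
  exact sub_eq_zero.1 h3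

theorem irreducible_cyclotomic_of_orderOf (hpq : p ≠ q) (hprim : orderOf (p : ZMod q) = q - 1) :
    Irreducible (cyclotomic q (ZMod p)) := by
  have hndvd : ¬ p ∣ q := fun h => hpq ((Nat.prime_dvd_prime_iff_eq hp.out hq.out).1 h)
  apply ZMod.irreducible_of_dvd_cyclotomic_of_natDegree hndvd dvd_rfl
  rw [natDegree_cyclotomic, Nat.totient_prime hq.out, ← hprim, ← orderOf_units,
    ZMod.coe_unitOfCoprime]

end Lin

section Lin2

variable {p q : ℕ} [hp : Fact p.Prime] [hq : Fact q.Prime]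

/-- The ring homomorphism `F_p[X]/(Φ_q) → End(M)` sending the root to `T`. -/
noncomputable def rhoHom {M : Type*} [AddCommGroup M] [Module (ZMod p) M]
    (T : Module.End (ZMod p) M) (hT : aeval T (cyclotomic q (ZMod p)) = 0) :
    AdjoinRoot (cyclotomic q (ZMod p)) →+* Module.End (ZMod p) M :=
  Ideal.Quotient.lift (Ideal.span {cyclotomic q (ZMod p)})
    ((aeval T : (ZMod p)[X] →ₐ[ZMod p] Module.End (ZMod p) M) : (ZMod p)[X] →+* _)
    (by
      intro a ha
      obtain ⟨y, rfl⟩ := Ideal.mem_span_singleton.1 ha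
      simp [hT])

theorem rhoHom_root {M : Type*} [AddCommGroup M] [Module (ZMod p) M]
    (T : Module.End (ZMod p) M) (hT : aeval T (cyclotomic q (ZMod p)) = 0) :
    rhoHom T hT (AdjoinRoot.root _) = T := by
  have h : rhoHom T hT (AdjoinRoot.mk _ X) = aeval T (X : (ZMod p)[X]) :=
    Ideal.Quotient.lift_mk _ _ _
  rw [aeval_X] at h
  exact h

theorem exists_twist_and_trans {M : Type*} [AddCommGroup M] [Module (ZMod p) M] [Finite M]
    (T : Module.End (ZMod p) M) (hT : aeval T (cyclotomic q (ZMod p)) = 0)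
    (hirr : Irreducible (cyclotomic q (ZMod p))) :
    (∃ σ : M ≃+ M, ∀ v, σ (T v) = (T ^ p) (σ v)) ∧
    (∀ v w : M, v ≠ 0 → w ≠ 0 → ∃ φ : M ≃+ M, (∀ u, φ (T u) = T (φ u)) ∧ φ v = w) := by
  haveI : Fact (Irreducible (cyclotomic q (ZMod p))) := ⟨hirr⟩
  letI : Module (AdjoinRoot (cyclotomic q (ZMod p))) M := Module.compHom M (rhoHom T hT)
  have hsmul : ∀ (a : AdjoinRoot (cyclotomic q (ZMod p))) (u : M), a • u = rhoHom T hT a u :=
    fun _ _ => rfl
  have hroot : ∀ u : M, (AdjoinRoot.root (cyclotomic q (ZMod p))) • u = T u := by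
    intro u; rw [hsmul, rhoHom_root]
  haveI : Module.Finite (AdjoinRoot (cyclotomic q (ZMod p))) M := Module.Finite.of_finite
  constructor
  · haveI : CharP (AdjoinRoot (cyclotomic q (ZMod p))) p :=
      charP_of_injective_algebraMap
        (algebraMap (ZMod p) (AdjoinRoot (cyclotomic q (ZMod p)))).injective p
    obtain ⟨n, ⟨b⟩⟩ : ∃ n : ℕ, Nonempty (Module.Basis (Fin n)
        (AdjoinRoot (cyclotomic q (ZMod p))) M) := ⟨_, ⟨Module.finBasis _ M⟩⟩
    obtain ⟨F, hF⟩ : ∃ F : (Fin n → AdjoinRoot (cyclotomic q (ZMod p))) →+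
        (Fin n → AdjoinRoot (cyclotomic q (ZMod p))), ∀ f i, F f i = (f i) ^ p :=
      ⟨((frobenius (AdjoinRoot (cyclotomic q (ZMod p))) p :
        AdjoinRoot (cyclotomic q (ZMod p)) →+* _) : _ →+ _).compLeft (Fin n), fun f i => rfl⟩
    have hFinj : Function.Injective F := by
      intro f g hfg
      funext i
      have h1 := congrFun hfg i
      rw [hF, hF] at h1
      exact frobenius_inj (AdjoinRoot (cyclotomic q (ZMod p))) p h1
    have hFsmul : ∀ (a : AdjoinRoot (cyclotomic q (ZMod p))) f, F (a • f) = a ^ p • F f := by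
      intro a f
      funext i
      rw [hF, Pi.smul_apply, Pi.smul_apply, hF, smul_eq_mul, smul_eq_mul, mul_pow]
    obtain ⟨σ₀, hσ₀⟩ : ∃ σ₀ : M →+ M, ∀ v, σ₀ v = b.equivFun.symm (F (b.equivFun v)) :=
      ⟨(b.equivFun.symm.toAddEquiv.toAddMonoidHom.comp
        (F.comp b.equivFun.toAddEquiv.toAddMonoidHom)), fun v => rfl⟩
    have hinj : Function.Injective σ₀ := by
      intro v w hvw
      rw [hσ₀, hσ₀] at hvw
      exact b.equivFun.injective (hFinj (b.equivFun.symm.injective hvw))
    refine ⟨AddEquiv.ofBijective σ₀ ⟨hinj, Finite.injective_iff_surjective.1 hinj⟩, ?_⟩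
    intro v
    show σ₀ (T v) = (T ^ p) (σ₀ v)
    rw [hσ₀, hσ₀, ← hroot, map_smul, hFsmul, map_smul, hsmul, map_pow, rhoHom_root]
  · intro v w hv hw
    obtain ⟨g, hg⟩ := Submodule.exists_linearEquiv_restrict_eq
      ((LinearEquiv.toSpanNonzeroSingleton (AdjoinRoot (cyclotomic q (ZMod p))) M v hv).symm ≪≫ₗ
        (LinearEquiv.toSpanNonzeroSingleton (AdjoinRoot (cyclotomic q (ZMod p))) M w hw))
    refine ⟨g.toAddEquiv, ?_, ?_⟩
    · intro u
      rw [← hroot, ← hroot]
      exact g.map_smul _ _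
    · have h1 := hg ⟨v, Submodule.mem_span_singleton_self v⟩
      have h2 : (LinearEquiv.toSpanNonzeroSingleton (AdjoinRoot (cyclotomic q (ZMod p))) M v hv).symm
          ⟨v, Submodule.mem_span_singleton_self v⟩ = 1 := by
        rw [LinearEquiv.symm_apply_eq]
        apply Subtype.ext
        simp
      rw [LinearEquiv.trans_apply, h2] at h1
      have h3 : g v = ((LinearEquiv.toSpanNonzeroSingleton
          (AdjoinRoot (cyclotomic q (ZMod p))) M w hw) 1 : M) := h1.symm
      show g v = w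
      rw [h3]
      simp

end Lin2

section Lin3

variable {p q : ℕ} [hp : Fact p.Prime] [hq : Fact q.Prime]
variable {M : Type*} [AddCommGroup M] [Module (ZMod p) M]

/-- A twisting relation `φ T = T^k φ` propagates to polynomials in `T`. -/
theorem twist_aeval (T φ : Module.End (ZMod p) M) (k : ℕ) (h : φ * T = T ^ k * φ)
    (f : (ZMod p)[X]) : φ * aeval T f = aeval (T ^ k) f * φ := by
  induction f using Polynomial.induction_on' with
  | add f g hf hg => rw [map_add, map_add, mul_add, add_mul, hf, hg]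
  | monomial n a =>
    rw [aeval_monomial, aeval_monomial]
    have h1 : φ * T ^ n = (T ^ k) ^ n * φ := by
      induction n with
      | zero => simp
      | succ n ih => rw [pow_succ, ← mul_assoc, ih, mul_assoc, h, ← mul_assoc, ← pow_succ]
    rw [← mul_assoc, ← Algebra.commutes, mul_assoc, h1, mul_assoc]

theorem orderOf_eq_of_transitive [Finite M] [Nontrivial M] (hpq : p ≠ q)
    (T : Module.End (ZMod p) M) (hTq : T ^ q = 1) (hfix : ∀ v, T v = v → v = 0)
    (htw : ∀ i, 1 ≤ i → i < q →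
      ∃ σ : Module.End (ZMod p) M, Function.Injective σ ∧ σ * T = T ^ i * σ)
    (htr : ∀ v w : M, v ≠ 0 → w ≠ 0 →
      ∃ φ : Module.End (ZMod p) M, Function.Injective φ ∧ φ v = w ∧ ∃ k, φ * T = T ^ k * φ) :
    orderOf (p : ZMod q) = q - 1 := by
  classical
  obtain ⟨R, hR⟩ : ∃ R : Subalgebra (ZMod p) (Module.End (ZMod p) M),
      R = Algebra.adjoin (ZMod p) {T} := ⟨_, rfl⟩
  have hmem : ∀ r : Module.End (ZMod p) M, r ∈ R ↔ ∃ f : (ZMod p)[X], aeval T f = r := by
    intro r
    rw [hR, Algebra.adjoin_singleton_eq_range_aeval (ZMod p) T]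
    exact Iff.rfl
  have hTR : T ∈ R := (hmem T).2 ⟨X, aeval_X T⟩
  have hcomm : ∀ r ∈ R, ∀ s ∈ R, r * s = s * r := by
    intro r hr s hs
    obtain ⟨f, rfl⟩ := (hmem r).1 hr
    obtain ⟨g, rfl⟩ := (hmem s).1 hs
    rw [← map_mul, ← map_mul, mul_comm]
  obtain ⟨V, hV⟩ : ∃ V : M → Set M, ∀ v u, u ∈ V v ↔ ∃ r ∈ R, r v = u :=
    ⟨fun v => {u | ∃ r ∈ R, r v = u}, fun v u => Iff.rfl⟩
  have hV1 : ∀ v, v ∈ V v := fun v => (hV v v).2 ⟨1, R.one_mem, rfl⟩
  have hV2 : ∀ v v', v' ∈ V v → V v' ⊆ V v := by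
    intro v v' hv' u hu
    obtain ⟨s, hs, rfl⟩ := (hV v v').1 hv'
    obtain ⟨r, hr, rfl⟩ := (hV _ u).1 hu
    exact (hV v _).2 ⟨r * s, R.mul_mem hr hs, rfl⟩
  have hV3 : ∀ v w, v ≠ 0 → w ≠ 0 → (V v).ncard ≤ (V w).ncard := by
    intro v w hv hw
    obtain ⟨φ, hφinj, hφv, k, hφ⟩ := htr v w hv hw
    have hsub : φ '' (V v) ⊆ V w := by
      rintro _ ⟨u, hu, rfl⟩
      obtain ⟨r, hr, rfl⟩ := (hV v u).1 hu
      obtain ⟨f, rfl⟩ := (hmem r).1 hr
      refine (hV w _).2 ⟨aeval (T ^ k) f, ?_, ?_⟩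
      · have h1 : aeval (T ^ k) f = aeval T (f.comp (X ^ k)) := by
          rw [aeval_comp, map_pow, aeval_X]
        rw [h1]; exact (hmem _).2 ⟨_, rfl⟩
      · rw [← hφv]
        have h1 := congrArg (fun g : Module.End (ZMod p) M => g v) (twist_aeval T φ k hφ f)
        exact h1.symm
    calc (V v).ncard = (φ '' V v).ncard := (Set.ncard_image_of_injective _ hφinj).symm
      _ ≤ (V w).ncard := Set.ncard_le_ncard hsub (Set.toFinite _)
  have hV4 : ∀ v v', v ≠ 0 → v' ≠ 0 → v' ∈ V v → V v' = V v := by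
    intro v v' hv hv' hmem'
    exact Set.eq_of_subset_of_ncard_le (hV2 v v' hmem') (hV3 v v' hv hv') (Set.toFinite _)
  have hkey : ∀ r ∈ R, ∀ w : M, w ≠ 0 → r w = 0 → r = 0 := by
    intro r hr w hw hrw
    ext v
    rw [LinearMap.zero_apply]
    by_cases hvw : v ∈ V w
    · obtain ⟨s, hs, rfl⟩ := (hV w v).1 hvw
      have h1 : r (s w) = (r * s) w := rfl
      rw [h1, hcomm r hr s hs]
      have h2 : (s * r) w = s (r w) := rfl
      rw [h2, hrw, map_zero]
    · by_contra hz
      have hv0 : v ≠ 0 := by rintro rfl; exact hz (map_zero r)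
      have hu0 : v + w ≠ 0 := by
        intro h
        apply hvw
        refine (hV w v).2 ⟨-1, R.neg_mem R.one_mem, ?_⟩
        rw [LinearMap.neg_apply, Module.End.one_apply]
        exact (eq_neg_of_add_eq_zero_left h).symm
      have hz1 : r v ∈ V v := (hV v _).2 ⟨r, hr, rfl⟩
      have hz2 : r v ∈ V (v + w) := (hV _ _).2 ⟨r, hr, by rw [map_add, hrw, add_zero]⟩
      have e1 : V (r v) = V v := hV4 v (r v) hv0 hz hz1
      have e2 : V (r v) = V (v + w) := hV4 (v + w) (r v) hu0 hz hz2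
      have h3 : v + w ∈ V v := by rw [← e1, e2]; exact hV1 _
      obtain ⟨s, hs, hsv⟩ := (hV v _).1 h3
      have h4 : w ∈ V v := by
        refine (hV v w).2 ⟨s - 1, R.sub_mem hs R.one_mem, ?_⟩
        rw [LinearMap.sub_apply, Module.End.one_apply, hsv, add_sub_cancel_left]
      have e3 : V w = V v := hV4 v w hv0 hw h4
      exact hvw (e3 ▸ hV1 v)
  letI instCR : CommRing R :=
    { (inferInstance : Ring R) with mul_comm := fun a b => Subtype.ext (hcomm a a.2 b b.2) }
  have hone : (1 : Module.End (ZMod p) M) ≠ 0 := by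
    intro h
    obtain ⟨v, hv⟩ := exists_ne (0 : M)
    apply hv
    have h1 := congrArg (fun g : Module.End (ZMod p) M => g v) h
    simpa using h1
  haveI : Nontrivial R := ⟨⟨0, 1, fun h => hone (congrArg Subtype.val h).symm⟩⟩
  haveI : NoZeroDivisors R := ⟨by
    intro a b hab
    by_contra hne
    push Not at hne
    have hb : (b : Module.End (ZMod p) M) ≠ 0 := fun h => hne.2 (Subtype.ext h)
    obtain ⟨v, hv⟩ : ∃ v, (b : Module.End (ZMod p) M) v ≠ 0 := by
      by_contra hcon
      push Not at hcon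
      exact hb (LinearMap.ext hcon)
    have h1 : (a : Module.End (ZMod p) M) ((b : Module.End (ZMod p) M) v) = 0 := by
      have h2 := congrArg (fun r : R => (r : Module.End (ZMod p) M) v) hab
      simpa using h2
    exact hne.1 (Subtype.ext (hkey a a.2 _ hv h1))⟩
  haveI : IsDomain R := NoZeroDivisors.to_isDomain R
  obtain ⟨xR, hxR⟩ : ∃ xR : R, (xR : Module.End (ZMod p) M) = T := ⟨⟨T, hTR⟩, rfl⟩
  have hcoe : ∀ (y : R) (f : (ZMod p)[X]),
      ((aeval y f : R) : Module.End (ZMod p) M) = aeval (y : Module.End (ZMod p) M) f := by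
    intro y f
    exact (aeval_algHom_apply R.val y f).symm
  have hint : IsIntegral (ZMod p) xR := Algebra.IsIntegral.isIntegral xR
  have hgirr : Irreducible (minpoly (ZMod p) xR) := minpoly.irreducible hint
  have hgdvd : minpoly (ZMod p) xR ∣ cyclotomic q (ZMod p) := by
    apply minpoly.dvd
    apply Subtype.ext
    rw [hcoe, hxR]
    exact aeval_cyclotomic_eq_zero T hTq hfix
  have hcop : p.Coprime q := (Nat.coprime_primes hp.out hq.out).2 hpq
  have hdeg := natDegree_of_dvd_cyclotomic_of_irreducible (K := ZMod p) (p := p) (f := 1)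
    (n := q) (by simp) hcop hgdvd hgirr
  have hord : orderOf (ZMod.unitOfCoprime (p ^ 1) (hcop.pow_left 1)) = orderOf (p : ZMod q) := by
    rw [← orderOf_units, ZMod.coe_unitOfCoprime, pow_one]
  rw [hord] at hdeg
  -- lower bound
  have hroot : ∀ i, 1 ≤ i → i < q → aeval (xR ^ i) (minpoly (ZMod p) xR) = 0 := by
    intro i hi1 hiq
    obtain ⟨σ, hσinj, hσ⟩ := htw i hi1 hiq
    have hσsurj := Finite.injective_iff_surjective.1 hσinj
    have h1 := twist_aeval T σ i hσ (minpoly (ZMod p) xR)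
    have h2 : aeval T (minpoly (ZMod p) xR) = 0 := by
      have h3 := congrArg Subtype.val (minpoly.aeval (ZMod p) xR)
      rw [hcoe, hxR] at h3
      exact h3
    rw [h2, mul_zero] at h1
    apply Subtype.ext
    rw [hcoe]
    show aeval ((xR : Module.End (ZMod p) M) ^ i) (minpoly (ZMod p) xR) = 0
    rw [hxR]
    ext v
    obtain ⟨u, rfl⟩ := hσsurj v
    exact congrArg (fun f : Module.End (ZMod p) M => f u) h1.symm
  have hTne : T ≠ 1 := by
    intro h
    obtain ⟨v, hv⟩ := exists_ne (0 : M)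
    exact hv (hfix v (by rw [h]; rfl))
  have hordT : orderOf xR = q := by
    have h1 : xR ^ q = 1 := by
      apply Subtype.ext
      show (xR : Module.End (ZMod p) M) ^ q = 1
      rw [hxR, hTq]
    have h2 : orderOf xR ∣ q := orderOf_dvd_of_pow_eq_one h1
    rcases (Nat.dvd_prime hq.out).1 h2 with h3 | h3
    · exfalso
      rw [orderOf_eq_one_iff] at h3
      apply hTne
      rw [← hxR, h3]; rfl
    · exact h3
  have hle : q - 1 ≤ (minpoly (ZMod p) xR).natDegree := by
    have hinj : Set.InjOn (fun i : ℕ => xR ^ i) (Finset.Icc 1 (q - 1) : Finset ℕ) := by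
      intro i hi j hj hij
      apply pow_injOn_Iio_orderOf _ _ hij
      · rw [hordT]; simp only [Finset.coe_Icc, Set.mem_Icc] at hi; simp only [Set.mem_Iio]; omega
      · rw [hordT]; simp only [Finset.coe_Icc, Set.mem_Icc] at hj; simp only [Set.mem_Iio]; omega
    have hsub : ((Finset.Icc 1 (q - 1)).image (fun i : ℕ => xR ^ i)).val ⊆
        ((minpoly (ZMod p) xR).map (algebraMap (ZMod p) R)).roots := by
      intro y hy
      rw [Finset.mem_val, Finset.mem_image] at hy
      obtain ⟨i, hi, rfl⟩ := hy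
      rw [Finset.mem_Icc] at hi
      have hq2 := hq.out.two_le
      have h1 := hroot i hi.1 (by omega)
      have h2 : (minpoly (ZMod p) xR) ≠ 0 := minpoly.ne_zero hint
      exact (mem_aroots.2 ⟨h2, h1⟩)
    have h3 := card_le_degree_of_subset_roots hsub
    rw [Finset.card_image_of_injOn hinj, Nat.card_Icc, natDegree_map] at h3
    omega
  have hup : orderOf (p : ZMod q) ≤ q - 1 := by
    rw [← hord, ← ZMod.card_units q]
    exact orderOf_le_card_univ
  omega

end Lin3

section Bridge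

variable {p q : ℕ} [hp : Fact p.Prime] [hq : Fact q.Prime]
variable {A : Type*} [CommGroup A]

/-- The `ZMod p`-linear endomorphism of `Additive A` attached to an endomorphism of `A`. -/
noncomputable def linOf (hA : ∀ a : A, a ^ p = 1) (T : A →* A) :
    letI : Module (ZMod p) (Additive A) := AddCommGroup.zmodModule (n := p) (fun x => hA x.toMul)
    Module.End (ZMod p) (Additive A) :=
  letI : Module (ZMod p) (Additive A) := AddCommGroup.zmodModule (n := p) (fun x => hA x.toMul)
  (MonoidHom.toAdditive T).toZModLinearMap p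

theorem linOf_apply (hA : ∀ a : A, a ^ p = 1) (T : A →* A) (v : Additive A) :
    linOf hA T v = Additive.ofMul (T v.toMul) := rfl

theorem linOf_pow_apply (hA : ∀ a : A, a ^ p = 1) (T : A →* A) (n : ℕ) (v : Additive A) :
    letI : Module (ZMod p) (Additive A) := AddCommGroup.zmodModule (n := p) (fun x => hA x.toMul)
    (linOf hA T ^ n) v = Additive.ofMul (T^[n] v.toMul) := by
  letI : Module (ZMod p) (Additive A) := AddCommGroup.zmodModule (n := p) (fun x => hA x.toMul)
  induction n generalizing v with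
  | zero => rfl
  | succ n ih =>
    rw [pow_succ, Module.End.mul_apply, ih, linOf_apply, Function.iterate_succ_apply]
    rfl

theorem linOf_mul_eq (hA : ∀ a : A, a ^ p = 1) (T φ : A →* A) (k : ℕ)
    (h : ∀ c, φ (T c) = T^[k] (φ c)) :
    letI : Module (ZMod p) (Additive A) := AddCommGroup.zmodModule (n := p) (fun x => hA x.toMul)
    linOf hA φ * linOf hA T = linOf hA T ^ k * linOf hA φ := by
  letI : Module (ZMod p) (Additive A) := AddCommGroup.zmodModule (n := p) (fun x => hA x.toMul)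
  ext v
  rw [Module.End.mul_apply, Module.End.mul_apply, linOf_pow_apply, linOf_apply, linOf_apply,
    linOf_apply]
  exact congrArg Additive.ofMul (h v.toMul)

/-- (⇐) bridge: twisting automorphism and transitivity of the commuting automorphisms. -/
theorem exists_twist_and_trans_group [Finite A] (hpq : p ≠ q)
    (hprim : orderOf (p : ZMod q) = q - 1) (hA : ∀ a : A, a ^ p = 1) (T : A →* A)
    (hTq : ∀ a, T^[q] a = a) (hfix : ∀ a, T a = a → a = 1) :
    (∃ σ : A ≃* A, ∀ a, σ (T a) = T^[p] (σ a)) ∧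
    (∀ a b : A, a ≠ 1 → b ≠ 1 → ∃ φ : A ≃* A, (∀ c, φ (T c) = T (φ c)) ∧ φ a = b) := by
  letI : Module (ZMod p) (Additive A) := AddCommGroup.zmodModule (n := p) (fun x => hA x.toMul)
  haveI : Finite (Additive A) := ‹Finite A›
  have hTq' : linOf hA T ^ q = 1 := by
    ext v
    rw [linOf_pow_apply, hTq]; rfl
  have hfix' : ∀ v, linOf hA T v = v → v = 0 := by
    intro v hv
    have h1 : T v.toMul = v.toMul := congrArg Additive.toMul hv
    have h2 := hfix _ h1
    exact congrArg Additive.ofMul h2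
  have hΦ := aeval_cyclotomic_eq_zero (linOf hA T) hTq' hfix'
  have hirr := irreducible_cyclotomic_of_orderOf hpq hprim
  obtain ⟨⟨σ, hσ⟩, htr⟩ := exists_twist_and_trans (linOf hA T) hΦ hirr
  constructor
  · refine ⟨MulEquiv.toAdditive.symm σ, fun a => ?_⟩
    have h1 := hσ (Additive.ofMul a)
    rw [linOf_pow_apply, linOf_apply] at h1
    exact congrArg Additive.toMul h1
  · intro a b ha hb
    obtain ⟨φ, hφ, hφv⟩ := htr (Additive.ofMul a) (Additive.ofMul b)
      (fun h => ha (congrArg Additive.toMul h)) (fun h => hb (congrArg Additive.toMul h))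
    refine ⟨MulEquiv.toAdditive.symm φ, fun c => ?_, congrArg Additive.toMul hφv⟩
    have h1 := hφ (Additive.ofMul c)
    rw [linOf_apply, linOf_apply] at h1
    exact congrArg Additive.toMul h1

/-- (⇒) bridge: transitivity forces `p` to be a primitive root mod `q`. -/
theorem orderOf_eq_of_transitive_group [Finite A] [Nontrivial A] (hpq : p ≠ q)
    (hA : ∀ a : A, a ^ p = 1) (T : A →* A)
    (hTq : ∀ a, T^[q] a = a) (hfix : ∀ a, T a = a → a = 1)
    (htw : ∀ i, 1 ≤ i → i < q →
      ∃ σ : A →* A, Function.Injective σ ∧ ∀ a, σ (T a) = T^[i] (σ a))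
    (htr : ∀ a b : A, a ≠ 1 → b ≠ 1 →
      ∃ φ : A →* A, Function.Injective φ ∧ φ a = b ∧ ∃ k : ℕ, ∀ c, φ (T c) = T^[k] (φ c)) :
    orderOf (p : ZMod q) = q - 1 := by
  letI : Module (ZMod p) (Additive A) := AddCommGroup.zmodModule (n := p) (fun x => hA x.toMul)
  haveI : Finite (Additive A) := ‹Finite A›
  haveI : Nontrivial (Additive A) := ‹Nontrivial A›
  have hTq' : linOf hA T ^ q = 1 := by
    ext v
    rw [linOf_pow_apply, hTq]; rfl
  have hfix' : ∀ v, linOf hA T v = v → v = 0 := by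
    intro v hv
    have h1 : T v.toMul = v.toMul := congrArg Additive.toMul hv
    have h2 := hfix _ h1
    exact congrArg Additive.ofMul h2
  apply orderOf_eq_of_transitive hpq (linOf hA T) hTq' hfix'
  · intro i hi1 hiq
    obtain ⟨σ, hσinj, hσ⟩ := htw i hi1 hiq
    exact ⟨linOf hA σ, hσinj, linOf_mul_eq hA T σ i hσ⟩
  · intro v w hv hw
    obtain ⟨φ, hφinj, hφv, k, hφ⟩ := htr v.toMul w.toMul
      (fun h => hv (congrArg Additive.ofMul h)) (fun h => hw (congrArg Additive.ofMul h))
    exact ⟨linOf hA φ, hφinj, congrArg Additive.ofMul hφv, k, linOf_mul_eq hA T φ k hφ⟩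

end Bridge

section Bridge'

variable {p q : ℕ} [hp : Fact p.Prime] [hq : Fact q.Prime]
variable {A : Type*} [Group A]

/-- Version of `exists_twist_and_trans_group` for a group with a commutativity hypothesis. -/
theorem exists_twist_and_trans_group' [Finite A] (hcomm : ∀ a b : A, a * b = b * a)
    (hpq : p ≠ q) (hprim : orderOf (p : ZMod q) = q - 1) (hA : ∀ a : A, a ^ p = 1) (T : A →* A)
    (hTq : ∀ a, T^[q] a = a) (hfix : ∀ a, T a = a → a = 1) :
    (∃ σ : A ≃* A, ∀ a, σ (T a) = T^[p] (σ a)) ∧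
    (∀ a b : A, a ≠ 1 → b ≠ 1 → ∃ φ : A ≃* A, (∀ c, φ (T c) = T (φ c)) ∧ φ a = b) := by
  letI : CommGroup A := { ‹Group A› with mul_comm := hcomm }
  exact exists_twist_and_trans_group hpq hprim hA T hTq hfix

/-- Version of `orderOf_eq_of_transitive_group` for a group with a commutativity hypothesis. -/
theorem orderOf_eq_of_transitive_group' [Finite A] [Nontrivial A]
    (hcomm : ∀ a b : A, a * b = b * a) (hpq : p ≠ q)
    (hA : ∀ a : A, a ^ p = 1) (T : A →* A)
    (hTq : ∀ a, T^[q] a = a) (hfix : ∀ a, T a = a → a = 1)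
    (htw : ∀ i, 1 ≤ i → i < q →
      ∃ σ : A →* A, Function.Injective σ ∧ ∀ a, σ (T a) = T^[i] (σ a))
    (htr : ∀ a b : A, a ≠ 1 → b ≠ 1 →
      ∃ φ : A →* A, Function.Injective φ ∧ φ a = b ∧ ∃ k : ℕ, ∀ c, φ (T c) = T^[k] (φ c)) :
    orderOf (p : ZMod q) = q - 1 := by
  letI : CommGroup A := { ‹Group A› with mul_comm := hcomm }
  exact orderOf_eq_of_transitive_group hpq hA T hTq hfix htw htr

end Bridge'

end Cfsg.Agent.Lib.Helper72
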