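import Mathlib
import Cfsg.Agent.Lib.Helper72.PiClosed
import Cfsg.Agent.Lib.Helper72.AutOrbLin

set_option autoImplicit false
set_option linter.style.haveILetI false

namespace Cfsg.Agent.Lib.Helper72

variable {G : Type*} [Group G]

/-- Extending an automorphism `σ` of a normal subgroup `N` with complement `⟨x⟩` to `G`,
sending `x` to `x ^ j`, given the compatibility of `σ` with the conjugation action. -/
theorem exists_mulAut_extend [Finite G] (N : Subgroup G) [N.Normal] (x : G)
    (hcomp : N.IsComplement' (Subgroup.zpowers x))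
    (σ : N ≃* N) (j : ℕ) (hj : Nat.Coprime j (orderOf x))
    (hσ : ∀ z ∈ Subgroup.zpowers x, ∀ v : N,
      ((σ ⟨z * v * z⁻¹, (inferInstance : N.Normal).conj_mem (v : G) v.2 z⟩ : N) : G) =
        z ^ j * σ v * (z ^ j)⁻¹) :
    ∃ φ : G ≃* G, (∀ v : N, φ v = σ v) ∧ φ x = x ^ j := by
  have hex : ∀ g : G, ∃ u : N, ∃ z : Subgroup.zpowers x, (u : G) * (z : G) = g := by
    intro g
    obtain ⟨⟨u, z⟩, h, -⟩ := hcomp.existsUnique g
    exact ⟨u, z, h⟩
  have huniq : ∀ (u u' : N) (z z' : Subgroup.zpowers x),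
      (u : G) * z = u' * z' → u = u' ∧ z = z' := by
    intro u u' z z' h
    have h1 := hcomp.1 (a₁ := (u, z)) (a₂ := (u', z')) h
    exact ⟨congrArg Prod.fst h1, congrArg Prod.snd h1⟩
  have hcommz : ∀ z₁ z₂ : Subgroup.zpowers x, Commute (z₁ : G) (z₂ : G) := by
    rintro ⟨z₁, hz₁⟩ ⟨z₂, hz₂⟩
    obtain ⟨a, rfl⟩ := Subgroup.mem_zpowers_iff.1 hz₁
    obtain ⟨b, rfl⟩ := Subgroup.mem_zpowers_iff.1 hz₂
    exact (Commute.refl x).zpow_zpow a b
  have hex' : ∀ g : G, ∃ d : N × Subgroup.zpowers x, (d.1 : G) * (d.2 : G) = g := by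
    intro g
    obtain ⟨u, z, h⟩ := hex g
    exact ⟨(u, z), h⟩
  obtain ⟨φ₀, key⟩ : ∃ φ₀ : G → G, ∀ (u : N) (z : Subgroup.zpowers x),
      φ₀ ((u : G) * z) = σ u * (z : G) ^ j := by
    refine ⟨fun g => (σ (Classical.choose (hex' g)).1 : G) *
      ((Classical.choose (hex' g)).2 : G) ^ j, ?_⟩
    intro u z
    have hspec := Classical.choose_spec (hex' ((u : G) * z))
    obtain ⟨h1, h2⟩ := huniq _ _ _ _ hspec
    have h3 : Classical.choose (hex' ((u : G) * z)) = (u, z) := Prod.ext h1 h2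
    show (σ (Classical.choose (hex' ((u : G) * z))).1 : G) *
      ((Classical.choose (hex' ((u : G) * z))).2 : G) ^ j = _
    rw [h3]
  have hmul : ∀ g h, φ₀ (g * h) = φ₀ g * φ₀ h := by
    intro g h
    obtain ⟨u₁, z₁, rfl⟩ := hex g
    obtain ⟨u₂, z₂, rfl⟩ := hex h
    have e : (u₁ : G) * z₁ * ((u₂ : G) * z₂) =
        ((u₁ * ⟨z₁ * u₂ * (z₁ : G)⁻¹, (inferInstance : N.Normal).conj_mem (u₂ : G) u₂.2 z₁⟩ : N) : G) *
          ((z₁ * z₂ : Subgroup.zpowers x) : G) := by
      simp only [Subgroup.coe_mul]; group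
    rw [e, key, key, key, map_mul, Subgroup.coe_mul, hσ z₁ z₁.2 u₂, Subgroup.coe_mul,
      (hcommz z₁ z₂).mul_pow]
    group
  have hone : ∀ g, φ₀ g = 1 → g = 1 := by
    intro g hg
    obtain ⟨u, z, rfl⟩ := hex g
    rw [key] at hg
    have h1 : (z : G) ^ j ∈ N := by
      have h2 : (z : G) ^ j = ((σ u)⁻¹ : N) := by
        rw [Subgroup.coe_inv]; exact eq_inv_of_mul_eq_one_right hg
      rw [h2]; exact ((σ u)⁻¹ : N).2
    have h3 : (z : G) ^ j ∈ Subgroup.zpowers x := Subgroup.pow_mem _ z.2 j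
    have h4 : (z : G) ^ j = 1 := by
      have h5 := hcomp.disjoint
      rw [Subgroup.disjoint_def] at h5
      exact h5 h1 h3
    have h6 : (z : G) ^ orderOf x = 1 := by
      obtain ⟨a, ha⟩ := Subgroup.mem_zpowers_iff.1 z.2
      rw [← ha, ← zpow_natCast, ← zpow_mul, mul_comm, zpow_mul, zpow_natCast, pow_orderOf_eq_one,
        one_zpow]
    have h7 : (z : G) = 1 := by
      have h8 : (z : G) ∈ (⊥ : Subgroup G) :=
        mem_of_pow_mem_of_coprime' ⊥ _ hj (by rw [h4]; exact Subgroup.one_mem _)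
          (by rw [h6]; exact Subgroup.one_mem _)
      simpa using h8
    rw [h4, mul_one] at hg
    have h9 : σ u = 1 := Subtype.ext hg
    have h10 : u = 1 := by
      have := σ.injective (h9.trans (map_one σ).symm)
      exact this
    rw [h7, h10]; simp
  have hinj : Function.Injective (MonoidHom.mk' φ₀ hmul) := by
    rw [injective_iff_map_eq_one]
    exact hone
  refine ⟨MulEquiv.ofBijective (MonoidHom.mk' φ₀ hmul)
    ⟨hinj, Finite.injective_iff_surjective.1 hinj⟩, ?_, ?_⟩
  · intro v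
    show φ₀ v = σ v
    have h1 := key v 1
    simpa using h1
  · show φ₀ x = x ^ j
    have h1 := key 1 ⟨x, Subgroup.mem_zpowers x⟩
    simpa using h1

/-- Two independent commuting elements of order `q` cannot both (together with all their
products of order `q`) act fixed-point-freely on an abelian normal subgroup, unless it has
exponent `q`. -/
theorem pow_eq_one_of_fpf_pair (N : Subgroup G) [N.Normal]
    (hNcomm : ∀ a ∈ N, ∀ b ∈ N, a * b = b * a) {q : ℕ} (hq : q.Prime)
    (hfpf : ∀ g : G, orderOf g = q → ∀ v ∈ N, g * v * g⁻¹ = v → v = 1)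
    (z y : G) (hz : orderOf z = q) (hy : orderOf y = q) (hzy : z * y = y * z)
    (hyz : y ∉ Subgroup.zpowers z) : ∀ v ∈ N, v ^ q = 1 := by
  haveI : Fact q.Prime := ⟨hq⟩
  letI : CommGroup N :=
    { (inferInstance : Group N) with mul_comm := fun a b => Subtype.ext (hNcomm a a.2 b b.2) }
  obtain ⟨c, hc⟩ : ∃ c : G → AddMonoid.End (Additive N), ∀ (g : G) (v : N),
      c g (Additive.ofMul v) = Additive.ofMul
        (⟨g * v * g⁻¹, (inferInstance : N.Normal).conj_mem (v : G) v.2 g⟩ : N) :=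
    ⟨fun g => MonoidHom.toAdditive ((MulAut.conjNormal g : MulAut N) : N →* N), fun g v => rfl⟩
  have hcmul : ∀ g h, c (g * h) = c g * c h := by
    intro g h
    refine DFunLike.ext _ _ (fun v => ?_)
    show c (g * h) (Additive.ofMul v.toMul) = c g (c h (Additive.ofMul v.toMul))
    rw [hc, hc, hc]
    congr 1
    apply Subtype.ext
    simp only [mul_inv_rev]; group
  have hc1 : c 1 = 1 := by
    refine DFunLike.ext _ _ (fun v => ?_)
    show c 1 (Additive.ofMul v.toMul) = v
    rw [hc]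
    simp
  have hcpow : ∀ (g : G) (n : ℕ), c (g ^ n) = c g ^ n := by
    intro g n
    induction n with
    | zero => rw [pow_zero, pow_zero, hc1]
    | succ n ih => rw [pow_succ, pow_succ, hcmul, ih]
  have hν : ∀ g : G, orderOf g = q → ∑ i ∈ Finset.range q, c g ^ i = 0 := by
    intro g hg
    have h1 : (c g - 1) * ∑ i ∈ Finset.range q, c g ^ i = c g ^ q - 1 := mul_geom_sum (c g) q
    have hgq : g ^ q = 1 := by rw [← hg]; exact pow_orderOf_eq_one g
    rw [← hcpow, hgq, hc1, sub_self] at h1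
    refine DFunLike.ext _ _ (fun v => ?_)
    show (∑ i ∈ Finset.range q, c g ^ i) v = (0 : Additive N)
    obtain ⟨w, hw⟩ : ∃ w : N, Additive.ofMul w = (∑ i ∈ Finset.range q, c g ^ i) v :=
      ⟨Additive.toMul _, rfl⟩
    have h2 : c g ((∑ i ∈ Finset.range q, c g ^ i) v) - (∑ i ∈ Finset.range q, c g ^ i) v = 0 :=
      congrArg (fun f : AddMonoid.End (Additive N) => f v) h1
    rw [← hw, hc] at h2
    have h3 : (⟨g * w * g⁻¹, (inferInstance : N.Normal).conj_mem (w : G) w.2 g⟩ : N) = w := by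
      have h4 := sub_eq_zero.1 h2
      exact congrArg Additive.toMul h4
    have h5 : (w : G) = 1 := hfpf g hg w w.2 (congrArg Subtype.val h3)
    rw [← hw]
    have h6 : w = 1 := Subtype.ext h5
    rw [h6]; rfl
  have hcomm : Commute (c z) (c y) := by
    show c z * c y = c y * c z
    rw [← hcmul, ← hcmul, hzy]
  have h1 : ∀ j ∈ Finset.range q, ∑ i ∈ Finset.range q, (c z * c y ^ j) ^ i = 0 := by
    intro j hj
    rw [Finset.mem_range] at hj
    rw [← hcpow, ← hcmul]
    apply hν
    have hzyj : (z * y ^ j) ^ q = 1 := by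
      have hcm : Commute z (y ^ j) := Commute.pow_right hzy j
      rw [hcm.mul_pow, ← hz, pow_orderOf_eq_one, one_mul, hz, ← pow_mul, mul_comm, pow_mul,
        ← hy, pow_orderOf_eq_one, one_pow]
    have hne : z * y ^ j ≠ 1 := by
      intro h
      have h2 : y ^ j = z⁻¹ := eq_inv_of_mul_eq_one_right h
      rcases Nat.eq_zero_or_pos j with h0 | h0
      · rw [h0, pow_zero] at h2
        have h3 : z = 1 := by rw [← inv_inv z, ← h2, inv_one]
        rw [h3, orderOf_one] at hz
        exact hq.ne_one hz.symm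
      · apply hyz
        apply mem_of_pow_mem_of_coprime' (Subgroup.zpowers z) y (a := j) (b := q)
        · exact Nat.Coprime.symm ((Nat.Prime.coprime_iff_not_dvd hq).2
            (Nat.not_dvd_of_pos_of_lt h0 hj))
        · rw [h2]; exact Subgroup.inv_mem _ (Subgroup.mem_zpowers z)
        · rw [← hy, pow_orderOf_eq_one]; exact Subgroup.one_mem _
    exact orderOf_eq_prime hzyj hne
  have h2 : ∀ i ∈ Finset.range q, i ≠ 0 → ∑ j ∈ Finset.range q, (c y ^ i) ^ j = 0 := by
    intro i hi hi0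
    rw [Finset.mem_range] at hi
    rw [← hcpow]
    apply hν
    rw [Nat.Coprime.orderOf_pow, hy]
    rw [hy]
    exact (Nat.Prime.coprime_iff_not_dvd hq).2
      (Nat.not_dvd_of_pos_of_lt (Nat.pos_of_ne_zero hi0) hi)
  have h3 : (q : AddMonoid.End (Additive N)) = 0 := by
    calc (q : AddMonoid.End (Additive N))
        = ∑ i ∈ Finset.range q, c z ^ i * ∑ j ∈ Finset.range q, (c y ^ i) ^ j := by
          rw [Finset.sum_eq_single 0]
          · simp
          · intro i hi hi0
            rw [h2 i hi hi0, mul_zero]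
          · intro h
            exact absurd (Finset.mem_range.2 hq.pos) h
      _ = ∑ j ∈ Finset.range q, ∑ i ∈ Finset.range q, (c z * c y ^ j) ^ i := by
          simp_rw [Finset.mul_sum]
          rw [Finset.sum_comm]
          refine Finset.sum_congr rfl (fun j _ => Finset.sum_congr rfl (fun i _ => ?_))
          rw [(hcomm.pow_right j).mul_pow, ← pow_mul, ← pow_mul, mul_comm]
      _ = 0 := Finset.sum_eq_zero h1
  intro v hv
  have h4 := congrArg (fun f : AddMonoid.End (Additive N) => f (Additive.ofMul (⟨v, hv⟩ : N))) h3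
  simp only [AddMonoid.End.natCast_apply] at h4
  have h5 : (⟨v, hv⟩ : N) ^ q = 1 := congrArg Additive.toMul h4
  exact congrArg Subtype.val h5

/-- Conjugation by `g` as an endomorphism of a normal subgroup. -/
def conjHom (N : Subgroup G) [N.Normal] (g : G) : N →* N :=
  ((MulAut.conjNormal g : MulAut N) : N →* N)

theorem conjHom_apply (N : Subgroup G) [N.Normal] (g : G) (v : N) :
    (conjHom N g v : G) = g * v * g⁻¹ := rfl

theorem conjHom_iterate (N : Subgroup G) [N.Normal] (g : G) (k : ℕ) (v : N) :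
    (conjHom N g)^[k] v = conjHom N (g ^ k) v := by
  induction k with
  | zero =>
    apply Subtype.ext
    rw [Function.iterate_zero, id, conjHom_apply]
    group
  | succ k ih =>
    rw [Function.iterate_succ_apply', ih]
    apply Subtype.ext
    rw [conjHom_apply, conjHom_apply, conjHom_apply, pow_succ']
    group

/-- Restriction of an automorphism of `G` preserving `N`. -/
def restrictHom (N : Subgroup G) (α : G ≃* G) (h : ∀ v ∈ N, α v ∈ N) : N →* N :=
  MonoidHom.mk' (fun v => ⟨α v, h v v.2⟩) (by intro a b; apply Subtype.ext; simp)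

theorem restrictHom_apply (N : Subgroup G) (α : G ≃* G) (h : ∀ v ∈ N, α v ∈ N) (v : N) :
    (restrictHom N α h v : G) = α v := rfl

theorem restrictHom_injective (N : Subgroup G) (α : G ≃* G) (h : ∀ v ∈ N, α v ∈ N) :
    Function.Injective (restrictHom N α h) := by
  intro a b hab
  apply Subtype.ext
  exact α.injective (congrArg Subtype.val hab)

theorem restrictHom_conjHom (N : Subgroup G) [N.Normal] (α : G ≃* G) (h : ∀ v ∈ N, α v ∈ N)
    (g : G) (v : N) :
    restrictHom N α h (conjHom N g v) = conjHom N (α g) (restrictHom N α h v) := by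
  apply Subtype.ext
  rw [restrictHom_apply, conjHom_apply, conjHom_apply, restrictHom_apply]
  simp

theorem conjHom_mul_of_comm (N : Subgroup G) [N.Normal]
    (hNcomm : ∀ a ∈ N, ∀ b ∈ N, a * b = b * a) (u : G) (hu : u ∈ N) (g : G) (v : N) :
    conjHom N (u * g) v = conjHom N g v := by
  apply Subtype.ext
  rw [conjHom_apply, conjHom_apply]
  have h1 : g * v * g⁻¹ ∈ N := (inferInstance : N.Normal).conj_mem (v : G) v.2 g
  have h2 := hNcomm u hu _ h1
  calc u * g * v * (u * g)⁻¹ = u * (g * v * g⁻¹) * u⁻¹ := by group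
    _ = (g * v * g⁻¹) * u * u⁻¹ := by rw [h2]
    _ = g * v * g⁻¹ := by group

theorem iterate_twist {A : Type*} (σ T : A → A) (j : ℕ) (h : ∀ a, σ (T a) = T^[j] (σ a))
    (k : ℕ) (a : A) : σ (T^[k] a) = T^[j * k] (σ a) := by
  induction k with
  | zero => simp
  | succ k ih =>
    rw [Function.iterate_succ_apply', h, ih, ← Function.iterate_add_apply]
    congr 1
    ring

theorem exists_nat_pow_of_mem_zpowers [Finite G] {x z : G} (hz : z ∈ Subgroup.zpowers x) :
    ∃ k : ℕ, x ^ k = z := by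
  have h1 : z ∈ Submonoid.powers x := (mem_powers_iff_mem_zpowers).2 hz
  exact (Submonoid.mem_powers_iff z x).1 h1

theorem exists_mulAut_extend' [Finite G] (N : Subgroup G) [N.Normal] (x : G)
    (hcomp : N.IsComplement' (Subgroup.zpowers x))
    (σ : N ≃* N) (j : ℕ) (hj : Nat.Coprime j (orderOf x))
    (hσ : ∀ a, σ (conjHom N x a) = (conjHom N x)^[j] (σ a)) :
    ∃ φ : G ≃* G, (∀ v : N, φ v = σ v) ∧ φ x = x ^ j := by
  apply exists_mulAut_extend N x hcomp σ j hj
  intro z hz v
  obtain ⟨k, rfl⟩ := exists_nat_pow_of_mem_zpowers hz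
  have h1 := iterate_twist σ (conjHom N x) j hσ k v
  rw [conjHom_iterate, conjHom_iterate] at h1
  have h2 := congrArg Subtype.val h1
  rw [conjHom_apply] at h2
  rw [← pow_mul, mul_comm k j]
  exact h2

theorem exists_pow_modEq_of_primitive (p q : ℕ) [Fact q.Prime]
    (hprim : orderOf (p : ZMod q) = q - 1) (k : ℕ) (hk : ¬ q ∣ k) :
    ∃ m : ℕ, p ^ m ≡ k [MOD q] := by
  have hq := (Fact.out : q.Prime)
  have hk0 : (k : ZMod q) ≠ 0 := by
    rw [Ne, ZMod.natCast_eq_zero_iff]; exact hk
  have hp0 : (p : ZMod q) ≠ 0 := by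
    intro h
    rw [h] at hprim
    have h1 : orderOf (0 : ZMod q) = 0 := by
      rw [orderOf_eq_zero_iff']
      intro n hn
      rw [zero_pow (Nat.pos_iff_ne_zero.1 hn)]
      exact zero_ne_one
    have h2 := hq.two_le
    omega
  have hord : orderOf (Units.mk0 (p : ZMod q) hp0) = q - 1 := by
    rw [← orderOf_units]; exact hprim
  have htop : Subgroup.zpowers (Units.mk0 (p : ZMod q) hp0) = ⊤ := by
    apply Subgroup.eq_top_of_card_eq
    rw [Nat.card_zpowers, hord, Nat.card_eq_fintype_card, ZMod.card_units]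
  have hmem : Units.mk0 (k : ZMod q) hk0 ∈ Subgroup.zpowers (Units.mk0 (p : ZMod q) hp0) := by
    rw [htop]; trivial
  obtain ⟨m, hm⟩ := exists_nat_pow_of_mem_zpowers hmem
  refine ⟨m, ?_⟩
  have h1 := congrArg Units.val hm
  rw [Units.val_pow_eq_pow_val, Units.val_mk0, Units.val_mk0] at h1
  rw [← ZMod.natCast_eq_natCast_iff]
  push_cast
  exact h1

/-- Same orbit class means same order. -/
theorem orderOf_eq_of_orbit_mk_eq {a b : G}
    (h : (Quotient.mk (MulAction.orbitRel (MulAut G) G) a) =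
      Quotient.mk (MulAction.orbitRel (MulAut G) G) b) : orderOf a = orderOf b := by
  have h1 := Quotient.exact h
  change a ∈ MulAction.orbit (MulAut G) b at h1
  obtain ⟨α, hα⟩ := h1
  rw [← hα]
  exact MulEquiv.orderOf_eq α b

theorem orbit_mk_eq_of_apply {a b : G} (α : MulAut G) (h : α a = b) :
    (Quotient.mk (MulAction.orbitRel (MulAut G) G) b) =
      Quotient.mk (MulAction.orbitRel (MulAut G) G) a := by
  apply Quotient.sound
  change b ∈ MulAction.orbit (MulAut G) a
  exact ⟨α, h⟩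

/-- (⇐): the structure forces exactly three automorphism orbits. -/
theorem card_orbits_eq_three [Finite G] (p q n : ℕ) [hp : Fact p.Prime] [hq : Fact q.Prime]
    (hpq : p ≠ q) (hn : 1 ≤ n) (hcard : Nat.card G = p ^ n * q)
    (N : Subgroup G) [N.Normal] (hNcard : Nat.card N = p ^ n)
    (hNcomm : ∀ a ∈ N, ∀ b ∈ N, a * b = b * a) (hNexp : ∀ a ∈ N, a ^ p = 1)
    (hprim : orderOf (p : ZMod q) = q - 1)
    (hfpf : ∀ x y : G, orderOf x = q → orderOf y = p → x * y * x⁻¹ ≠ y) :
    Nat.card (MulAction.orbitRel.Quotient (MulAut G) G) = 3 := by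
  have hcop : Nat.Coprime p q := (Nat.coprime_primes hp.out hq.out).2 hpq
  obtain ⟨x, hx⟩ := exists_prime_orderOf_dvd_card' (G := G) q (by rw [hcard]; exact dvd_mul_left q _)
  have hxq : x ^ q = 1 := by rw [← hx]; exact pow_orderOf_eq_one x
  have hcomp : N.IsComplement' (Subgroup.zpowers x) := by
    apply Subgroup.isComplement'_of_coprime
    · rw [hNcard, Nat.card_zpowers, hx, hcard]
    · rw [hNcard, Nat.card_zpowers, hx]; exact Nat.Coprime.pow_left n hcop
  -- fixed-point-freeness on N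
  have hfix : ∀ g : G, orderOf g = q → ∀ v : N, conjHom N g v = v → v = 1 := by
    intro g hg v hv
    by_contra hv1
    have h1 : (v : G) ≠ 1 := fun h => hv1 (Subtype.ext h)
    have h2 : orderOf (v : G) = p := orderOf_eq_prime (hNexp v v.2) h1
    exact hfpf g v hg h2 (congrArg Subtype.val hv)
  have hNcomm' : ∀ a b : N, a * b = b * a := fun a b => Subtype.ext (hNcomm a a.2 b b.2)
  have hNexp' : ∀ a : N, a ^ p = 1 := fun a => Subtype.ext (hNexp a a.2)
  have hTq : ∀ a : N, (conjHom N x)^[q] a = a := by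
    intro a
    rw [conjHom_iterate, hxq]
    apply Subtype.ext
    rw [conjHom_apply]; group
  obtain ⟨⟨σ, hσ⟩, htrans⟩ := exists_twist_and_trans_group' hNcomm' hpq hprim hNexp'
    (conjHom N x) hTq (hfix x hx)
  -- the automorphism x ↦ x ^ p
  obtain ⟨ψ, -, hψx⟩ := exists_mulAut_extend' N x hcomp σ p (by rw [hx]; exact hcop) hσ
  have hpowaut : ∀ m : ℕ, ∃ α : MulAut G, α x = x ^ (p ^ m) := by
    intro m
    induction m with
    | zero => exact ⟨1, by simp⟩
    | succ m ih =>
      obtain ⟨α, hα⟩ := ih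
      refine ⟨ψ * α, ?_⟩
      rw [MulAut.mul_apply, hα, map_pow, hψx, ← pow_mul, pow_succ, mul_comm]
  -- elements outside N
  have hout : ∀ g : G, g ∉ N → ∃ α : MulAut G, α x = g := by
    intro g hg
    obtain ⟨⟨u, z⟩, huz, -⟩ := hcomp.existsUnique g
    have huz' : (u : G) * (z : G) = g := huz
    obtain ⟨k, hk⟩ := exists_nat_pow_of_mem_zpowers z.2
    have hk1 : x ^ k ≠ 1 := by
      intro h; apply hg; rw [← huz', ← hk, h, mul_one]; exact u.2
    have hqk : ¬ q ∣ k := by
      intro h; apply hk1; rw [← hx] at h; exact orderOf_dvd_iff_pow_eq_one.1 h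
    obtain ⟨m, hm⟩ := exists_pow_modEq_of_primitive p q hprim k hqk
    obtain ⟨α, hα⟩ := hpowaut m
    have hxk : x ^ (p ^ m) = x ^ k := by rw [pow_eq_pow_iff_modEq, hx]; exact hm
    have hordk : orderOf (x ^ k) = q :=
      orderOf_eq_prime (by rw [← pow_mul, mul_comm, pow_mul, hxq, one_pow]) hk1
    have hinj : Function.Injective (fun w : N => w * (conjHom N (x ^ k) w)⁻¹) := by
      intro a b hab
      have hab' : a * (conjHom N (x ^ k) a)⁻¹ = b * (conjHom N (x ^ k) b)⁻¹ := hab
      have h1 : conjHom N (x ^ k) (b⁻¹ * a) = b⁻¹ * a := by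
        rw [map_mul, map_inv]
        calc (conjHom N (x ^ k) b)⁻¹ * conjHom N (x ^ k) a
            = (b⁻¹ * (b * (conjHom N (x ^ k) b)⁻¹)) * conjHom N (x ^ k) a := by group
          _ = (b⁻¹ * (a * (conjHom N (x ^ k) a)⁻¹)) * conjHom N (x ^ k) a := by rw [hab']
          _ = b⁻¹ * a := by group
      have h2 := hfix (x ^ k) hordk (b⁻¹ * a) h1
      exact (inv_mul_eq_one.1 h2).symm
    obtain ⟨w, hw⟩ := (Finite.injective_iff_surjective.1 hinj) u
    refine ⟨MulAut.conj (w : G) * α, ?_⟩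
    rw [MulAut.mul_apply, hα, hxk, MulAut.conj_apply, ← huz', ← hk]
    have hw' : (w : G) * (x ^ k * w * (x ^ k)⁻¹)⁻¹ = u := congrArg Subtype.val hw
    rw [← hw']; group
  -- nontrivial elements of N
  obtain ⟨y₀, hy₀N, hy₀⟩ : ∃ y₀ : G, y₀ ∈ N ∧ y₀ ≠ 1 := by
    by_contra hcon
    push Not at hcon
    have h1 : N = ⊥ := by
      rw [eq_bot_iff]; intro g hg; rw [Subgroup.mem_bot]; exact hcon g hg
    rw [h1, Subgroup.card_bot] at hNcard
    have h2 : 1 < p ^ n := Nat.one_lt_pow (by omega) hp.out.one_lt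
    omega
  have hin : ∀ g : G, g ∈ N → g ≠ 1 → ∃ α : MulAut G, α y₀ = g := by
    intro g hg hg1
    obtain ⟨φ, hφ, hφy⟩ := htrans ⟨y₀, hy₀N⟩ ⟨g, hg⟩ (fun h => hy₀ (congrArg Subtype.val h))
      (fun h => hg1 (congrArg Subtype.val h))
    obtain ⟨α, hα, -⟩ := exists_mulAut_extend' N x hcomp φ 1 (Nat.coprime_one_left _)
      (fun a => by rw [Function.iterate_one]; exact hφ a)
    refine ⟨α, ?_⟩
    have h1 := hα ⟨y₀, hy₀N⟩
    rw [hφy] at h1
    exact h1
  -- counting
  have hy₀ord : orderOf y₀ = p := orderOf_eq_prime (hNexp y₀ hy₀N) hy₀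
  have hxN : x ∉ N := by
    intro h
    have h1 : orderOf x ∣ p := orderOf_dvd_of_pow_eq_one (hNexp x h)
    rw [hx] at h1
    exact hpq ((Nat.prime_dvd_prime_iff_eq hq.out hp.out).1 h1).symm
  have huniv : (Set.univ : Set (MulAction.orbitRel.Quotient (MulAut G) G)) =
      {Quotient.mk (MulAction.orbitRel (MulAut G) G) 1,
        Quotient.mk (MulAction.orbitRel (MulAut G) G) y₀,
        Quotient.mk (MulAction.orbitRel (MulAut G) G) x} := by
    apply Set.eq_of_subset_of_subset _ (Set.subset_univ _)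
    intro c _
    induction c using Quotient.inductionOn with
    | h g =>
      by_cases hg1 : g = 1
      · left; rw [hg1]
      · by_cases hgN : g ∈ N
        · right; left
          obtain ⟨α, hα⟩ := hin g hgN hg1
          exact orbit_mk_eq_of_apply α hα
        · right; right
          obtain ⟨α, hα⟩ := hout g hgN
          exact orbit_mk_eq_of_apply α hα
  rw [← Set.ncard_univ, huniv, Set.ncard_eq_three]
  refine ⟨_, _, _, ?_, ?_, ?_, rfl⟩
  · intro h
    have h1 := orderOf_eq_of_orbit_mk_eq h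
    rw [orderOf_one, hy₀ord] at h1
    exact hp.out.ne_one h1.symm
  · intro h
    have h1 := orderOf_eq_of_orbit_mk_eq h
    rw [orderOf_one, hx] at h1
    exact hq.out.ne_one h1.symm
  · intro h
    have h1 := orderOf_eq_of_orbit_mk_eq h
    rw [hy₀ord, hx] at h1
    exact hpq h1

theorem card_sylow_of_card [Finite G] (p q a b : ℕ) [hp : Fact p.Prime] [hq : Fact q.Prime]
    (hpq : p ≠ q) (hab : Nat.card G = p ^ a * q ^ b) (P : Sylow p G) : Nat.card P = p ^ a := by
  rw [P.card_eq_multiplicity, hab]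
  congr 1
  rw [Nat.factorization_mul (pow_ne_zero _ hp.out.ne_zero) (pow_ne_zero _ hq.out.ne_zero),
    Nat.factorization_pow, Nat.factorization_pow, hp.out.factorization, hq.out.factorization]
  simp [hpq.symm]

/-- Structure from the orbit hypotheses, given a characteristic abelian subgroup containing an
element of order `p`. -/
theorem structure_of_orbits [Finite G] (p q : ℕ) [hp : Fact p.Prime] [hq : Fact q.Prime]
    (hpq : p ≠ q)
    (hord : ∀ g : G, orderOf g = 1 ∨ orderOf g = p ∨ orderOf g = q)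
    (htp : ∀ g h : G, orderOf g = p → orderOf h = p → ∃ α : MulAut G, α g = h)
    (htq : ∀ g h : G, orderOf g = q → orderOf h = q → ∃ α : MulAut G, α g = h)
    (hq' : ∃ g : G, orderOf g = q)
    (D : Subgroup G) (hDchar : ∀ α : MulAut G, ∀ d ∈ D, α d ∈ D)
    (hDcomm : ∀ a ∈ D, ∀ b ∈ D, a * b = b * a) (hDp : ∃ d ∈ D, orderOf d = p)
    (hcard : ∃ a b : ℕ, Nat.card G = p ^ a * q ^ b) :
    ∃ (n : ℕ) (N : Subgroup G), 1 ≤ n ∧ Nat.card G = p ^ n * q ∧ N.Normal ∧
      (∀ P : Sylow p G, (P : Subgroup G) = N) ∧ (∀ a ∈ N, ∀ b ∈ N, a * b = b * a) ∧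
      (∀ a ∈ N, a ^ p = 1) ∧ orderOf (p : ZMod q) = q - 1 ∧
      ∀ x y : G, orderOf x = q → orderOf y = p → x * y * x⁻¹ ≠ y := by
  have hcop : Nat.Coprime p q := (Nat.coprime_primes hp.out hq.out).2 hpq
  obtain ⟨d₀, hd₀D, hd₀⟩ := hDp
  have hDall : ∀ g : G, orderOf g = p → g ∈ D := by
    intro g hg
    obtain ⟨α, hα⟩ := htp d₀ g hd₀ hg
    rw [← hα]; exact hDchar α d₀ hd₀D
  have hDpow : ∀ g : G, g ^ p = 1 → g ∈ D := by
    intro g hg
    by_cases h1 : g = 1
    · rw [h1]; exact D.one_mem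
    · exact hDall g (orderOf_eq_prime hg h1)
  obtain ⟨N, hN⟩ : ∃ N : Subgroup G, ∀ g, g ∈ N ↔ g ^ p = 1 :=
    ⟨{ carrier := {g | g ^ p = 1}
       mul_mem' := by
         intro a b ha hb
         have hc : Commute a b := hDcomm a (hDpow a ha) b (hDpow b hb)
         show (a * b) ^ p = 1
         rw [hc.mul_pow, ha, hb, one_mul]
       one_mem' := one_pow p
       inv_mem' := by
         intro a ha
         show a⁻¹ ^ p = 1
         rw [inv_pow, ha, inv_one] }, fun g => Iff.rfl⟩
  have hNn : N.Normal := ⟨fun g hg c => by rw [hN] at hg ⊢; rw [conj_pow, hg]; group⟩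
  haveI := hNn
  have hNcomm : ∀ a ∈ N, ∀ b ∈ N, a * b = b * a := fun a ha b hb =>
    hDcomm a (hDpow a ((hN a).1 ha)) b (hDpow b ((hN b).1 hb))
  have hNexp : ∀ a ∈ N, a ^ p = 1 := fun a ha => (hN a).1 ha
  have hNp : IsPGroup p N := by
    intro g
    refine ⟨1, ?_⟩
    apply Subtype.ext
    rw [pow_one, Subgroup.coe_pow, Subgroup.coe_one]
    exact hNexp g g.2
  have hSyl : ∀ P : Sylow p G, (P : Subgroup G) = N := by
    intro P
    have h1 : (P : Subgroup G) ≤ N := by
      intro g hg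
      rw [hN]
      obtain ⟨k, hk⟩ := P.isPGroup' ⟨g, hg⟩
      have hk' : g ^ p ^ k = 1 := by
        have h2 := congrArg Subtype.val hk
        rwa [Subgroup.coe_pow, Subgroup.coe_one] at h2
      have h2 : orderOf g ∣ p ^ k := orderOf_dvd_of_pow_eq_one hk'
      rcases hord g with h3 | h3 | h3
      · rw [orderOf_eq_one_iff] at h3; rw [h3, one_pow]
      · rw [← h3]; exact pow_orderOf_eq_one g
      · exfalso
        rw [h3] at h2
        exact hpq ((Nat.prime_dvd_prime_iff_eq hq.out hp.out).1 (hq.out.dvd_of_dvd_pow h2)).symm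
    exact (P.is_maximal' hNp h1).symm
  have hfpf : ∀ x y : G, orderOf x = q → orderOf y = p → x * y * x⁻¹ ≠ y := by
    intro x y hx hy h
    have hc : Commute x y := by
      show x * y = y * x
      have h1 : x * y = (x * y * x⁻¹) * x := by group
      rw [h1, h]
    have h1 := hc.orderOf_mul_eq_mul_orderOf_of_coprime (by rw [hx, hy]; exact hcop.symm)
    rw [hx, hy] at h1
    have hp2 := hp.out.two_le
    have hq2 := hq.out.two_le
    rcases hord (x * y) with h2 | h2 | h2
    · rw [h2] at h1; nlinarith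
    · rw [h2] at h1; nlinarith
    · rw [h2] at h1; nlinarith
  obtain ⟨a, b, hab⟩ := hcard
  have hNcard : Nat.card N = p ^ a := by
    obtain P : Sylow p G := default
    rw [← hSyl P]
    exact card_sylow_of_card p q a b hpq hab P
  have hd₀N : d₀ ∈ N := (hN d₀).2 (by rw [← hd₀]; exact pow_orderOf_eq_one d₀)
  have hd₀1 : d₀ ≠ 1 := by
    intro h; rw [h, orderOf_one] at hd₀; exact hp.out.ne_one hd₀.symm
  have ha1 : 1 ≤ a := by
    by_contra ha
    have ha0 : a = 0 := by omega
    rw [ha0, pow_zero] at hNcard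
    have h1 : N = ⊥ := Subgroup.card_eq_one.1 hNcard
    rw [h1, Subgroup.mem_bot] at hd₀N
    exact hd₀1 hd₀N
  obtain ⟨x, hx⟩ := hq'
  have hxq : x ^ q = 1 := by rw [← hx]; exact pow_orderOf_eq_one x
  have hb0 : b ≠ 0 := by
    intro hb
    have h1 : orderOf x ∣ Nat.card G := orderOf_dvd_natCard x
    rw [hx, hab, hb, pow_zero, mul_one] at h1
    exact hpq ((Nat.prime_dvd_prime_iff_eq hq.out hp.out).1 (hq.out.dvd_of_dvd_pow h1)).symm
  have hfpf' : ∀ g : G, orderOf g = q → ∀ v ∈ N, g * v * g⁻¹ = v → v = 1 := by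
    intro g hg v hv hgv
    by_contra hv1
    exact hfpf g v hg (orderOf_eq_prime (hNexp v hv) hv1) hgv
  have hb1 : b = 1 := by
    by_contra hb
    have hb2 : 2 ≤ b := by omega
    obtain Q : Sylow q G := default
    have hQcard : Nat.card Q = q ^ b :=
      card_sylow_of_card q p b a hpq.symm (by rw [hab, mul_comm]) Q
    have hQord : ∀ g ∈ (Q : Subgroup G), g ≠ 1 → orderOf g = q := by
      intro g hg hg1
      obtain ⟨k, hk⟩ := Q.isPGroup' ⟨g, hg⟩
      have hk' : g ^ q ^ k = 1 := by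
        have h2 := congrArg Subtype.val hk
        rwa [Subgroup.coe_pow, Subgroup.coe_one] at h2
      have h2 : orderOf g ∣ q ^ k := orderOf_dvd_of_pow_eq_one hk'
      rcases hord g with h3 | h3 | h3
      · exact absurd (orderOf_eq_one_iff.1 h3) hg1
      · exfalso
        rw [h3] at h2
        exact hpq ((Nat.prime_dvd_prime_iff_eq hp.out hq.out).1 (hp.out.dvd_of_dvd_pow h2))
      · exact h3
    haveI : Nontrivial Q := by
      rw [← Finite.one_lt_card_iff_nontrivial, hQcard]
      exact Nat.one_lt_pow (by omega) hq.out.one_lt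
    haveI : Nontrivial (Subgroup.center Q) := (Q.isPGroup').center_nontrivial
    obtain ⟨⟨z, hz⟩, hz1⟩ := exists_ne (1 : Subgroup.center Q)
    have hz1' : (z : G) ≠ 1 := by
      intro h
      apply hz1
      apply Subtype.ext
      exact Subtype.ext h
    have hzord : orderOf (z : G) = q := hQord z z.2 hz1'
    obtain ⟨y, hyQ, hyz⟩ : ∃ y : G, y ∈ (Q : Subgroup G) ∧ y ∉ Subgroup.zpowers (z : G) := by
      by_contra hcon
      push Not at hcon
      have hle : (Q : Subgroup G) ≤ Subgroup.zpowers (z : G) := hcon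
      have h1 := Subgroup.card_le_of_le hle
      rw [Nat.card_zpowers, hzord] at h1
      have h2 : Nat.card (Q : Subgroup G) = q ^ b := hQcard
      rw [h2] at h1
      have h3 : q ^ 2 ≤ q ^ b := Nat.pow_le_pow_right hq.out.pos hb2
      nlinarith [hq.out.two_le]
    have hy1 : y ≠ 1 := fun h => hyz (h ▸ Subgroup.one_mem _)
    have hyord := hQord y hyQ hy1
    have hzy : (z : G) * y = y * z := by
      have h1 := Subgroup.mem_center_iff.1 hz ⟨y, hyQ⟩
      exact (congrArg Subtype.val h1).symm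
    have hall := pow_eq_one_of_fpf_pair N hNcomm hq.out hfpf' (z : G) y hzord hyord hzy hyz
    have h5 : orderOf d₀ ∣ q := orderOf_dvd_of_pow_eq_one (hall d₀ hd₀N)
    rw [hd₀] at h5
    exact hpq ((Nat.prime_dvd_prime_iff_eq hp.out hq.out).1 h5)
  rw [hb1, pow_one] at hab
  have hcomp : N.IsComplement' (Subgroup.zpowers x) := by
    apply Subgroup.isComplement'_of_coprime
    · rw [hNcard, Nat.card_zpowers, hx, hab]
    · rw [hNcard, Nat.card_zpowers, hx]; exact Nat.Coprime.pow_left a hcop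
  have hfix : ∀ g : G, orderOf g = q → ∀ v : N, conjHom N g v = v → v = 1 := by
    intro g hg v hv
    exact Subtype.ext (hfpf' g hg v v.2 (congrArg Subtype.val hv))
  have hNcomm' : ∀ a b : N, a * b = b * a := fun a b => Subtype.ext (hNcomm a a.2 b b.2)
  have hNexp' : ∀ a : N, a ^ p = 1 := fun a => Subtype.ext (hNexp a a.2)
  have hTq : ∀ a : N, (conjHom N x)^[q] a = a := by
    intro a
    rw [conjHom_iterate, hxq]
    apply Subtype.ext
    rw [conjHom_apply]; group
  haveI : Nontrivial N := ⟨⟨⟨d₀, hd₀N⟩, 1, fun h => hd₀1 (congrArg Subtype.val h)⟩⟩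
  have hαN : ∀ α : MulAut G, ∀ v ∈ N, α v ∈ N := by
    intro α v hv
    rw [hN] at hv ⊢
    rw [← map_pow, hv, map_one]
  have hprim : orderOf (p : ZMod q) = q - 1 := by
    apply orderOf_eq_of_transitive_group' hNcomm' hpq hNexp' (conjHom N x) hTq (hfix x hx)
    · intro i hi1 hiq
      have hordi : orderOf (x ^ i) = q := by
        rw [Nat.Coprime.orderOf_pow, hx]
        rw [hx]
        exact (Nat.Prime.coprime_iff_not_dvd hq.out).2 (Nat.not_dvd_of_pos_of_lt hi1 hiq)
      obtain ⟨α, hα⟩ := htq x (x ^ i) hx hordi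
      refine ⟨restrictHom N α (hαN α), restrictHom_injective N α (hαN α), fun c => ?_⟩
      rw [restrictHom_conjHom, hα, conjHom_iterate]
    · intro u v hu hv
      have huo : orderOf (u : G) = p :=
        orderOf_eq_prime (hNexp u u.2) (fun h => hu (Subtype.ext h))
      have hvo : orderOf (v : G) = p :=
        orderOf_eq_prime (hNexp v v.2) (fun h => hv (Subtype.ext h))
      obtain ⟨α, hα⟩ := htp u v huo hvo
      refine ⟨restrictHom N α (hαN α), restrictHom_injective N α (hαN α), Subtype.ext hα, ?_⟩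
      obtain ⟨⟨w, z⟩, hwz, -⟩ := hcomp.existsUnique (α x)
      have hwz' : (w : G) * (z : G) = α x := hwz
      obtain ⟨k, hk⟩ := exists_nat_pow_of_mem_zpowers z.2
      refine ⟨k, fun c => ?_⟩
      rw [restrictHom_conjHom, conjHom_iterate, ← hwz', ← hk,
        conjHom_mul_of_comm N hNcomm w w.2]
  exact ⟨a, N, ha1, hab, hNn, hSyl, hNcomm, hNexp, hprim, hfpf⟩

end Cfsg.Agent.Lib.Helper72
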