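import Cfsg.Agent.Lib.Helper32.BG10Basic
import Cfsg.Agent.S1453

/-!
# B&G Section 10, piece Q11N (helper72, for helper15)

`narrow_of_max_E2`: a `p`-group (`p` odd) of rank at least 3 having a maximal elementary abelian
subgroup of order `p ^ 2` is narrow.
-/

set_option autoImplicit false
open Cfsg Cfsg.Agent.Lib.Helper32 Cfsg.Agent.Lib.Helper32.BG10
namespace Cfsg.Agent.Lib.Helper72.BG10
universe u
variable {G : Type u} [Group G] [Finite G]

theorem narrow_of_max_E2 {R : Type*} [Group R] [Finite R] (p : ℕ) [Fact p.Prime] (hp : p ≠ 2)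
    (hR : IsPGroup p R) (hr : ¬ PRankLE p 2 R) (E : Subgroup R) (hE : IsElementaryAbelian p E)
    (hE2 : Nat.card E = p ^ 2)
    (hEmax : ∀ B : Subgroup R, IsElementaryAbelian p B → E ≤ B → B = E) : IsNarrow p R := by
  classical
  have hpp : p.Prime := Fact.out
  obtain ⟨ha, hb, ⟨hWe, hW2⟩, hd, he⟩ := Cfsg.Agent.S1453.result p hp hR hr E hE hE2 hEmax
  set W := Subgroup.closure {x : R | x ∈ Subgroup.upperCentralSeries R 2 ∧ x ^ p = 1} with hWdef
  set T := Subgroup.centralizer (W : Set R) with hTdef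
  set Zc := Subgroup.closure {x : R | x ∈ Subgroup.center R ∧ x ^ p = 1} with hZdef
  have hTn : T.Normal := Subgroup.normal_of_characteristic T
  -- (1)
  have hZcen : Zc ≤ Subgroup.center R := by
    rw [hZdef, Subgroup.closure_le]
    intro x hx
    exact hx.1
  have hcenT : Subgroup.center R ≤ T := Subgroup.center_le_centralizer _
  have hZT : Zc ≤ T := hZcen.trans hcenT
  have hZexp : ∀ z ∈ Zc, z ^ p = 1 := by
    intro z hz
    have h1 : (⟨z, hz⟩ : Zc) ^ Nat.card Zc = 1 := pow_card_eq_one'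
    rw [hb] at h1
    exact congrArg Subtype.val h1
  have hZcomm : ∀ a ∈ Zc, ∀ b ∈ Zc, a * b = b * a := by
    intro a ha' b hb'
    exact ((Subgroup.mem_center_iff.mp (hZcen ha')) b).symm
  have hZea : IsElementaryAbelian p Zc :=
    ⟨Cfsg.Agent.Lib.Helper31.isMulComm_iff.mpr hZcomm, hZexp⟩
  have hEZ : IsElementaryAbelian p (E ⊔ Zc) := by
    refine Cfsg.Agent.Lib.Helper31.elemAb_sup hE hZea ?_
    intro a _ b hb'
    exact (Subgroup.mem_center_iff.mp (hZcen hb')) a
  have hZE : Zc ≤ E := by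
    have h1 := hEmax (E ⊔ Zc) hEZ le_sup_left
    calc Zc ≤ E ⊔ Zc := le_sup_right
      _ = E := h1
  -- (2)
  obtain ⟨e, heE, heT⟩ : ∃ e ∈ E, e ∉ T := by
    by_contra hcon
    push Not at hcon
    exact ha hcon
  have he1 : e ≠ 1 := by
    rintro rfl
    exact heT (Subgroup.one_mem T)
  have hep : e ^ p = 1 := hE.2 e heE
  have hord : orderOf e = p := orderOf_eq_prime hep he1
  set R₀ := Subgroup.zpowers e with hR0def
  have hR0card : Nat.card R₀ = p := by
    rw [hR0def, Nat.card_zpowers, hord]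
  have heR0 : e ∈ R₀ := Subgroup.mem_zpowers e
  have hR0T : R₀ ⊓ T = ⊥ := by
    have : Fact (Nat.card R₀).Prime := ⟨by rw [hR0card]; exact hpp⟩
    rcases Subgroup.eq_bot_or_eq_top_of_prime_card (T.subgroupOf R₀) with h | h
    · rw [Subgroup.subgroupOf_eq_bot] at h
      rw [inf_comm]
      exact h.eq_bot
    · rw [Subgroup.subgroupOf_eq_top] at h
      exact absurd (h heR0) heT
  have heZ : e ∉ Zc := fun h => heT (hZT h)
  have hR0E : R₀ ≤ E := by
    rw [hR0def, Subgroup.zpowers_le]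
    exact heE
  -- (3)
  have hDE : Zc ⊔ R₀ = E := by
    have hle : Zc ⊔ R₀ ≤ E := sup_le hZE hR0E
    have hdvd : Nat.card (Zc ⊔ R₀ : Subgroup R) ∣ p ^ 2 := by
      rw [← hE2]
      exact Subgroup.card_dvd_of_le hle
    obtain ⟨j, hj2, hj⟩ := (Nat.dvd_prime_pow hpp).mp hdvd
    have hZd : p ∣ Nat.card (Zc ⊔ R₀ : Subgroup R) := by
      have := Subgroup.card_dvd_of_le (le_sup_left : Zc ≤ Zc ⊔ R₀)
      rwa [hb] at this
    have hj1 : j ≠ 0 := by
      rintro rfl
      rw [hj, pow_zero] at hZd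
      exact hpp.one_lt.ne' (Nat.dvd_one.mp hZd)
    have hj1' : j ≠ 1 := by
      rintro rfl
      rw [pow_one] at hj
      have h1 : Zc = Zc ⊔ R₀ :=
        Subgroup.eq_of_le_of_card_ge le_sup_left (by rw [hj, hb])
      apply heZ
      rw [h1]
      exact (le_sup_right : R₀ ≤ Zc ⊔ R₀) heR0
    have hj2' : j = 2 := by omega
    subst hj2'
    exact Subgroup.eq_of_le_of_card_ge hle (by rw [hj, hE2])
  set C := Subgroup.centralizer (R₀ : Set R) with hCdef
  -- (4)
  have hR0C : R₀ ≤ C := by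
    rw [hR0def, Subgroup.zpowers_le, hCdef, Subgroup.mem_centralizer_iff]
    intro h hh
    rw [SetLike.mem_coe, hR0def, Subgroup.mem_zpowers_iff] at hh
    obtain ⟨k, rfl⟩ := hh
    exact (Commute.zpow_self e k).symm.eq.symm
  refine Or.inr ⟨R₀, C ⊓ T, hR0card, ?_, ?_, ?_, ?_⟩
  · -- (5) cyclic
    by_contra hnc
    have h1 : ¬ RankLE 1 ↥(C ⊓ T : Subgroup R) :=
      not_rankLE_one_of_not_cyclic hp (hR.to_subgroup (C ⊓ T)) hnc
    obtain ⟨q, A, hq, hAle, hAc, hAq, hAcard⟩ := exists_elemAb_of_not_rankLE (C ⊓ T) 1 h1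
    have hqp : q = p := by
      obtain ⟨n, hn⟩ := (hR.to_subgroup A).exists_card_eq
      rw [hAcard] at hn
      have h2 : q ∣ p ^ n := by
        rw [← hn]
        exact dvd_pow_self q (by norm_num)
      exact (Nat.prime_dvd_prime_iff_eq hq hpp).mp (hq.dvd_of_dvd_pow h2)
    subst hqp
    have hAea : IsElementaryAbelian q A :=
      ⟨Cfsg.Agent.Lib.Helper31.isMulComm_iff.mpr hAc, hAq⟩
    have hAC : A ≤ C := hAle.trans inf_le_left
    have hAT : A ≤ T := hAle.trans inf_le_right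
    have hEcA : E ≤ Subgroup.centralizer (A : Set R) := by
      rw [← hDE]
      refine sup_le (hZcen.trans (Subgroup.center_le_centralizer _)) ?_
      rw [hR0def, Subgroup.zpowers_le, Subgroup.mem_centralizer_iff]
      intro a haA
      have h3 := Subgroup.mem_centralizer_iff.mp (hAC haA) e heR0
      exact h3.symm
    have hAE : IsElementaryAbelian q (A ⊔ E) := by
      refine Cfsg.Agent.Lib.Helper31.elemAb_sup hAea hE ?_
      intro a haA b hbE
      exact Subgroup.mem_centralizer_iff.mp (hEcA hbE) a haA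
    have h4 := hEmax (A ⊔ E) hAE le_sup_right
    have hAleE : A ≤ E := by
      calc A ≤ A ⊔ E := le_sup_left
        _ = E := h4
    have hAeqE : A = E := Subgroup.eq_of_le_of_card_ge hAleE (by rw [hAcard, hE2])
    apply ha
    rw [← hAeqE]
    exact hAT
  · -- R₀ ⊓ R₁ = ⊥
    apply le_antisymm _ bot_le
    rw [← hR0T]
    exact inf_le_inf_left _ inf_le_right
  · intro a haR b hbR
    exact Subgroup.mem_centralizer_iff.mp hbR.1 a haR
  · -- R₀ ⊔ R₁ = C
    apply le_antisymm (sup_le hR0C inf_le_left)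
    intro c hc
    have hcard : Nat.card (R ⧸ T) = p := he
    have hne : (QuotientGroup.mk e : R ⧸ T) ≠ 1 := by
      intro h
      exact heT ((QuotientGroup.eq_one_iff e).mp h)
    have hmem : (QuotientGroup.mk c : R ⧸ T) ∈ Subgroup.zpowers (QuotientGroup.mk e : R ⧸ T) :=
      mem_zpowers_of_prime_card hcard hne
    obtain ⟨k, hk⟩ := Subgroup.mem_zpowers_iff.mp hmem
    have hkT : (e ^ k)⁻¹ * c ∈ T := by
      have h5 : ((e ^ k : R) : R ⧸ T) = (c : R ⧸ T) := by
        rw [QuotientGroup.mk_zpow]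
        exact hk
      exact QuotientGroup.eq.mp h5
    have hekR0 : e ^ k ∈ R₀ := Subgroup.zpow_mem _ heR0 k
    have hkC : (e ^ k)⁻¹ * c ∈ C := Subgroup.mul_mem _ (Subgroup.inv_mem _ (hR0C hekR0)) hc
    have h6 : c = e ^ k * ((e ^ k)⁻¹ * c) := by group
    rw [h6]
    exact Subgroup.mul_mem _ ((le_sup_left : R₀ ≤ R₀ ⊔ C ⊓ T) hekR0)
      ((le_sup_right : C ⊓ T ≤ R₀ ⊔ C ⊓ T) ⟨hkC, hkT⟩)

end Cfsg.Agent.Lib.Helper72.BG10
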