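import Mathlib

/-! Project EP (helper7, S5746), piece ISO (helper72): a permutation representation whose image
contains a group of the same order. -/

set_option autoImplicit false

namespace Cfsg.Agent.Lib.Helper7.EP

/-- ISO: a permutation representation whose image contains a group of the same order. -/
theorem EPISO {H : Type*} [Group H] [Finite H] {m : ℕ} (r : H →* Equiv.Perm (Fin m))
    (P : Subgroup (Equiv.Perm (Fin m))) (hle : P ≤ r.range) (hcard : Nat.card H ≤ Nat.card P) :
    Nonempty (H ≃* P) := by
  classical
  have h1 : Nat.card P ≤ Nat.card r.range := Subgroup.card_le_of_le hle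
  have hsurj : Function.Surjective r.rangeRestrict := r.rangeRestrict_surjective
  have h2 : Nat.card r.range ≤ Nat.card H := Nat.card_le_card_of_surjective _ hsurj
  have h3 : Nat.card r.range = Nat.card H := le_antisymm h2 (hcard.trans h1)
  have h4 : Nat.card r.range ≤ Nat.card P := h2.trans hcard
  have hP : P = r.range := Subgroup.eq_of_le_of_card_ge hle h4
  have hbij : Function.Bijective r.rangeRestrict := by
    rw [Nat.bijective_iff_surjective_and_card]
    exact ⟨hsurj, h3.symm⟩
  subst hP
  exact ⟨MulEquiv.ofBijective r.rangeRestrict hbij⟩

end Cfsg.Agent.Lib.Helper7.EP
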