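import Mathlib
import Cfsg.Prelude.Def_CaseTheorems
import Cfsg.Agent.S0016
import Cfsg.Agent.Lib.Helper30.Cores

set_option autoImplicit false

namespace Cfsg.Agent.Lib.Helper72.GL23

/-- Two distinct commuting involutions rule out `2`-rank at most one. -/
theorem not_pRankLE_of_four {G : Type*} [Group G] [Finite G] (a z : G)
    (ha : a * a = 1) (hz : z * z = 1) (hc : a * z = z * a) (ha1 : a ≠ 1) (hz1 : z ≠ 1)
    (haz : a ≠ z) : ¬ Cfsg.PRankLE 2 1 G := by
  intro h
  have hcomm : ∀ x ∈ ({a, z} : Set G), ∀ y ∈ ({a, z} : Set G), x * y = y * x := by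
    intro x hx y hy
    rcases hx with rfl | rfl <;> rcases hy with rfl | rfl
    · rfl
    · exact hc
    · exact hc.symm
    · rfl
  have hA : IsMulCommutative (Subgroup.closure ({a, z} : Set G)) :=
    Subgroup.isMulCommutative_closure hcomm
  have hcl : ∀ x ∈ Subgroup.closure ({a, z} : Set G), ∀ y ∈ Subgroup.closure ({a, z} : Set G),
      x * y = y * x := by
    intro x hx y hy
    have := hA.is_comm.comm ⟨x, hx⟩ ⟨y, hy⟩
    exact congrArg Subtype.val this
  have hexp : ∀ g ∈ Subgroup.closure ({a, z} : Set G), g ^ 2 = 1 := by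
    intro g hg
    induction hg using Subgroup.closure_induction with
    | mem x hx =>
      rcases hx with rfl | rfl
      · rw [pow_two]; exact ha
      · rw [pow_two]; exact hz
    | one => simp
    | mul x y hx hy ihx ihy =>
      have hxy := hcl x hx y hy
      rw [pow_two] at ihx ihy ⊢
      calc x * y * (x * y) = x * (y * x) * y := by group
        _ = x * (x * y) * y := by rw [hxy]
        _ = (x * x) * (y * y) := by group
        _ = 1 := by rw [ihx, ihy, one_mul]
    | inv x hx ihx =>
      rw [inv_pow, ihx, inv_one]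
  have hcard := h (Subgroup.closure ({a, z} : Set G)) hA hexp
  have ham : a ∈ Subgroup.closure ({a, z} : Set G) := Subgroup.subset_closure (by simp)
  have hzm : z ∈ Subgroup.closure ({a, z} : Set G) := Subgroup.subset_closure (by simp)
  let f : Fin 3 → Subgroup.closure ({a, z} : Set G) := ![1, ⟨a, ham⟩, ⟨z, hzm⟩]
  have hf : Function.Injective f := by
    intro i j hij
    have hij' : ((f i : Subgroup.closure ({a, z} : Set G)) : G) = (f j : _) := congrArg _ hij
    fin_cases i <;> fin_cases j <;> simp [f] at hij' <;> first | rfl | (exfalso; tauto)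
  have h3 := Nat.card_le_card_of_injective f hf
  rw [Nat.card_fin] at h3
  omega

theorem pCore_cyclic_or_quat {H : Type*} [Group H] [Finite H]
    (hI : ∀ S T : Sylow 2 H, S ≠ T → Cfsg.PRankLE 2 1 ↥((S : Subgroup H) ⊓ (T : Subgroup H)))
    (hnn : ¬ ∃ P : Sylow 2 H, (P : Subgroup H).Normal) :
    IsCyclic (Cfsg.pCore 2 H) ∨
      ∃ n : ℕ, Nonempty (Cfsg.pCore 2 H ≃* QuaternionGroup (2 ^ n)) := by
  haveI : Fact (Nat.Prime 2) := ⟨Nat.prime_two⟩
  obtain ⟨S, T, hST⟩ : ∃ S T : Sylow 2 H, S ≠ T := by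
    by_contra hcon
    push_neg at hcon
    haveI : Subsingleton (Sylow 2 H) := ⟨hcon⟩
    exact hnn ⟨default, Sylow.normal_of_subsingleton _⟩
  have hOp : IsPGroup 2 (Cfsg.pCore 2 H) := Cfsg.Agent.Lib.Helper30.pCore_isPGroup 2
  have hOS : Cfsg.pCore 2 H ≤ (S : Subgroup H) := hOp.le_sylow_of_normal S
  have hOT : Cfsg.pCore 2 H ≤ (T : Subgroup H) := hOp.le_sylow_of_normal T
  have hrk := hI S T hST
  have huniq : ∀ K₁ K₂ : Subgroup (Cfsg.pCore 2 H), Nat.card K₁ = 2 → Nat.card K₂ = 2 →
      K₁ = K₂ := by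
    intro K₁ K₂ h1 h2
    by_contra hne
    -- generators
    have key : ∀ K : Subgroup (Cfsg.pCore 2 H), Nat.card K = 2 →
        ∃ a : Cfsg.pCore 2 H, a ≠ 1 ∧ a * a = 1 ∧ K = Subgroup.zpowers a := by
      intro K hK
      haveI : Fact (Nat.Prime (Nat.card K)) := ⟨by rw [hK]; exact Nat.prime_two⟩
      haveI : Nontrivial K := Finite.one_lt_card_iff_nontrivial.mp (by rw [hK]; norm_num)
      obtain ⟨a, ha⟩ := exists_ne (1 : K)
      have hord : orderOf a = 2 := by
        have := orderOf_dvd_natCard a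
        rw [hK] at this
        rcases (Nat.dvd_prime Nat.prime_two).mp this with h | h
        · exact absurd (orderOf_eq_one_iff.mp h) ha
        · exact h
      have hord' : orderOf (a : Cfsg.pCore 2 H) = 2 := by
        rw [Subgroup.orderOf_coe]; exact hord
      refine ⟨a, fun h => ha (Subtype.ext h), ?_, ?_⟩
      · have := pow_orderOf_eq_one (a : Cfsg.pCore 2 H)
        rw [hord', pow_two] at this
        exact this
      · symm
        apply Subgroup.eq_of_le_of_card_ge
        · rw [Subgroup.zpowers_le]; exact a.2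
        · rw [Nat.card_zpowers, hord', hK]
    obtain ⟨a₁, ha₁, ha₁', hK₁⟩ := key K₁ h1
    obtain ⟨a₂, ha₂, ha₂', hK₂⟩ := key K₂ h2
    haveI : Nontrivial (Cfsg.pCore 2 H) := ⟨⟨a₁, 1, ha₁⟩⟩
    haveI := hOp.center_nontrivial
    have hZp : IsPGroup 2 (Subgroup.center (Cfsg.pCore 2 H)) := hOp.to_subgroup _
    obtain ⟨k, hk⟩ := hZp.exists_card_eq
    have h2dvd : 2 ∣ Nat.card (Subgroup.center (Cfsg.pCore 2 H)) := by
      rw [hk]
      have : k ≠ 0 := by
        rintro rfl
        have h1' : 1 < Nat.card (Subgroup.center (Cfsg.pCore 2 H)) :=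
          Finite.one_lt_card
        rw [hk] at h1'
        simp at h1'
      exact dvd_pow_self 2 this
    obtain ⟨z, hz⟩ := exists_prime_orderOf_dvd_card' 2 h2dvd
    have hz1 : (z : Cfsg.pCore 2 H) ≠ 1 := by
      intro h
      have : z = 1 := Subtype.ext h
      rw [this, orderOf_one] at hz
      omega
    have hzz : (z : Cfsg.pCore 2 H) * z = 1 := by
      have := pow_orderOf_eq_one z
      rw [hz, pow_two] at this
      exact congrArg Subtype.val this
    have hzc : ∀ g : Cfsg.pCore 2 H, g * z = z * g := fun g =>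
      Subgroup.mem_center_iff.mp z.2 g
    obtain ⟨a, ha1, haa, haz⟩ : ∃ a : Cfsg.pCore 2 H, a ≠ 1 ∧ a * a = 1 ∧ a ≠ z := by
      by_cases h : a₁ = z
      · refine ⟨a₂, ha₂, ha₂', fun h' => hne ?_⟩
        rw [hK₁, hK₂, h, h']
      · exact ⟨a₁, ha₁, ha₁', h⟩
    -- transport into `S ⊓ T`
    have hmem : ∀ g : Cfsg.pCore 2 H, (g : H) ∈ (S : Subgroup H) ⊓ (T : Subgroup H) := fun g =>
      ⟨hOS g.2, hOT g.2⟩
    refine not_pRankLE_of_four (G := ↥((S : Subgroup H) ⊓ (T : Subgroup H)))
      ⟨a, hmem a⟩ ⟨z, hmem z⟩ ?_ ?_ ?_ ?_ ?_ ?_ hrk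
    · apply Subtype.ext
      simpa using congrArg Subtype.val haa
    · apply Subtype.ext
      simpa using congrArg Subtype.val hzz
    · apply Subtype.ext
      simpa using congrArg Subtype.val (hzc a)
    · intro h
      apply ha1
      have := congrArg Subtype.val h
      exact Subtype.ext (by simpa using this)
    · intro h
      apply hz1
      have := congrArg Subtype.val h
      exact Subtype.ext (by simpa using this)
    · intro h
      apply haz
      have := congrArg Subtype.val h
      exact Subtype.ext (by simpa using this)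
  rcases Cfsg.Agent.S0016.result (G := ↥(Cfsg.pCore 2 H)) 2 hOp huniq with h | ⟨-, h⟩
  · exact Or.inl h
  · exact Or.inr h

end Cfsg.Agent.Lib.Helper72.GL23
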